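/-
Bounds for the number of conjugacy classes of `GL_n(q)`.
-/
import Cfsg.Agent.H66.SemisimpleGL
import Cfsg.Agent.H66.ClassCount

set_option autoImplicit false

open Polynomial UniqueFactorizationMonoid

namespace Cfsg.Agent.H66

universe u

variable (K : Type u) [Field K]

/-- Monic polynomials with non-zero constant term. -/
abbrev UPoly : Type u := {f : K[X] // f.Monic ∧ f.coeff 0 ≠ 0}

/-- Monic polynomials of degree `i` with non-zero constant term. -/
abbrev UPolyDeg (i : ℕ) : Type u := {f : UPoly K // f.1.natDegree = i}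

/-- Tuples `h` with `∑ (j + 1) deg (h j) = n`. -/
abbrev ClassTuple (J n : ℕ) : Type u :=
  {h : Fin J → UPoly K // ∑ j : Fin J, ((j : ℕ) + 1) * (h j).1.natDegree = n}

variable {K}

theorem upolyDeg_zero : Nat.card (UPolyDeg K 0) = 1 ∧ Finite (UPolyDeg K 0) := by
  have : Unique (UPolyDeg K 0) :=
    { default := ⟨⟨1, monic_one, by simp⟩, natDegree_one⟩
      uniq := fun f => Subtype.ext (Subtype.ext (f.1.2.1.natDegree_eq_zero.1 f.2)) }
  exact ⟨Nat.card_unique, Finite.of_subsingleton⟩

theorem upolyDeg_succ [Fintype K] (i : ℕ) :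
    Nat.card (UPolyDeg K (i + 1)) = (Fintype.card K - 1) * Fintype.card K ^ i ∧ Finite (UPolyDeg K (i + 1)) := by
  classical
  have : Finite {f : K[X] // f.Monic ∧ f.natDegree = i + 1} := Finite.of_equiv _ (monicDegEquiv (i + 1)).symm
  let e : UPolyDeg K (i + 1) ≃ {f : K[X] // (f.Monic ∧ f.natDegree = i + 1) ∧ f.coeff 0 ≠ 0} :=
    { toFun := fun f => ⟨f.1.1, ⟨f.1.2.1, f.2⟩, f.1.2.2⟩
      invFun := fun f => ⟨⟨f.1, f.2.1.1, f.2.2⟩, f.2.1.2⟩
      left_inv := fun _ => rfl
      right_inv := fun _ => rfl }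
  have hfin : Finite {f : K[X] // (f.Monic ∧ f.natDegree = i + 1) ∧ f.coeff 0 ≠ 0} :=
    Finite.of_injective (fun f => (⟨f.1, f.2.1⟩ : {f : K[X] // f.Monic ∧ f.natDegree = i + 1}))
      fun a b h => Subtype.ext (by simpa using h)
  refine ⟨?_, Finite.of_equiv _ e.symm⟩
  rw [Nat.card_congr e, card_monic_coeff_zero i fun a => a ≠ 0, ← Fintype.card_units, ← Nat.card_eq_fintype_card (α := Kˣ)]
  congr 1
  exact Nat.card_congr unitsEquivNeZero.symm

theorem finite_upolyDeg [Fintype K] : ∀ i, Finite (UPolyDeg K i)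
  | 0 => upolyDeg_zero.2
  | i + 1 => (upolyDeg_succ i).2

theorem classSigma_ext {J n : ℕ}
    (x y : Σ i : Fin (n / (J + 1) + 1), UPolyDeg K i × ClassTuple K J (n - (J + 1) * i))
    (h1 : x.2.1.1 = y.2.1.1) (h2 : x.2.2.1 = y.2.2.1) : x = y := by
  obtain ⟨i, ⟨f, hf⟩, ⟨g, hg⟩⟩ := x
  obtain ⟨j, ⟨f', hf'⟩, ⟨g', hg'⟩⟩ := y
  simp only at h1 h2
  subst h1 h2
  obtain rfl : i = j := Fin.ext (hf.symm.trans hf')
  rfl

/-- Peeling off the last entry. -/
noncomputable def classTupleSucc (J n : ℕ) :
    ClassTuple K (J + 1) n ≃ Σ i : Fin (n / (J + 1) + 1), UPolyDeg K i × ClassTuple K J (n - (J + 1) * i) where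
  toFun h :=
    ⟨⟨(h.1 (Fin.last J)).1.natDegree, by
      have := h.2
      rw [Fin.sum_univ_castSucc] at this
      refine Nat.lt_succ_of_le ((Nat.le_div_iff_mul_le (Nat.succ_pos J)).2 ?_)
      simp only [Fin.val_last] at this
      rw [Nat.mul_comm]
      simp only [Nat.succ_eq_add_one, Fin.val_castSucc] at this ⊢
      omega⟩, ⟨h.1 (Fin.last J), rfl⟩, ⟨fun j => h.1 j.castSucc, by
      have := h.2
      rw [Fin.sum_univ_castSucc] at this
      simp only [Fin.val_last, Fin.val_castSucc] at this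
      show ∑ j : Fin J, ((j : ℕ) + 1) * (h.1 j.castSucc).1.natDegree = n - (J + 1) * (h.1 (Fin.last J)).1.natDegree
      omega⟩⟩
  invFun x := ⟨Fin.snoc x.2.2.1 x.2.1.1, by
    have h1 := x.2.2.2
    have h2 := x.1.2
    have h3 : (J + 1) * (x.1 : ℕ) ≤ n := by
      rw [Nat.mul_comm]
      exact (Nat.le_div_iff_mul_le (Nat.succ_pos J)).1 (Nat.le_of_lt_succ h2)
    rw [Fin.sum_univ_castSucc]
    simp only [Fin.snoc_castSucc, Fin.snoc_last, Fin.val_last, Fin.val_castSucc, x.2.1.2]
    omega⟩
  left_inv h := by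
    apply Subtype.ext
    funext j
    refine Fin.lastCases ?_ (fun j => ?_) j <;> simp
  right_inv x := classSigma_ext _ _ (by simp) (funext fun j => by simp)

theorem sum_peel_le (q : ℕ) (hq : 1 ≤ q) (J : ℕ) (P : ℕ → ℕ) (hP : ∀ m, P m ≤ q ^ m)
    (hP' : ∀ m, J ≤ m → P m ≤ q ^ m - q ^ (m - J)) :
    ∀ n, J + 1 ≤ n → ∑ i ∈ Finset.range (n / (J + 1)),
      (q - 1) * q ^ i * P (n - (J + 1) * (i + 1)) ≤ (q - 1) * q ^ (n - J - 1) := by
  intro n
  induction n using Nat.strong_induction_on with
  | _ n ih =>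
    intro hn
    rw [Nat.div_eq_sub_div (Nat.succ_pos J) hn, Finset.sum_range_succ']
    rcases Nat.lt_or_ge (n - (J + 1)) (J + 1) with hsmall | hbig
    · rw [Nat.div_eq_of_lt hsmall, Finset.sum_range_zero, zero_add, pow_zero, mul_one, zero_add, mul_one]
      refine Nat.mul_le_mul_left _ ?_
      rw [show n - J - 1 = n - (J + 1) by omega]
      exact hP _
    · have hih := ih (n - (J + 1)) (by omega) hbig
      have hstep : ∑ k ∈ Finset.range ((n - (J + 1)) / (J + 1)),
          (q - 1) * q ^ (k + 1) * P (n - (J + 1) * (k + 1 + 1)) ≤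
          q * ((q - 1) * q ^ (n - (J + 1) - J - 1)) := by
        refine le_trans ?_ (Nat.mul_le_mul_left q hih)
        rw [Finset.mul_sum]
        refine le_of_eq (Finset.sum_congr rfl fun k _ => ?_)
        rw [show n - (J + 1) * (k + 1 + 1) = n - (J + 1) - (J + 1) * (k + 1) by
          rw [Nat.sub_sub]; ring_nf]
        ring
      have h0 : P (n - (J + 1) * (0 + 1)) ≤ q ^ (n - J - 1) - q ^ (n - J - 1 - J) := by
        rw [show n - J - 1 = n - (J + 1) * (0 + 1) by omega]
        exact hP' _ (by omega)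
      calc _ ≤ q * ((q - 1) * q ^ (n - (J + 1) - J - 1)) +
            (q - 1) * q ^ 0 * (q ^ (n - J - 1) - q ^ (n - J - 1 - J)) :=
            Nat.add_le_add hstep (Nat.mul_le_mul_left _ h0)
        _ = (q - 1) * (q ^ (n - J - 1 - J) + (q ^ (n - J - 1) - q ^ (n - J - 1 - J))) := by
            rw [show n - J - 1 - J = (n - (J + 1) - J - 1) + 1 by omega, pow_succ]
            ring
        _ = (q - 1) * q ^ (n - J - 1) := by
            rw [Nat.add_sub_cancel' (Nat.pow_le_pow_right hq (Nat.sub_le _ _))]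

theorem classTuple_bounds [Fintype K] : ∀ J : ℕ, 1 ≤ J → ∀ n, Finite (ClassTuple K J n) ∧
    Nat.card (ClassTuple K J n) ≤ Fintype.card K ^ n ∧
    (J ≤ n → Nat.card (ClassTuple K J n) ≤ Fintype.card K ^ n - Fintype.card K ^ (n - J)) := by
  classical
  intro J hJ
  have hq1 : 1 ≤ Fintype.card K := Fintype.card_pos
  induction J, hJ using Nat.le_induction with
  | base =>
    intro n
    let e : ClassTuple K 1 n ≃ UPolyDeg K n :=
      { toFun := fun h => ⟨h.1 0, by simpa using h.2⟩
        invFun := fun f => ⟨fun _ => f.1, by simpa using f.2⟩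
        left_inv := fun h => Subtype.ext (funext fun j => by rw [Subsingleton.elim j 0])
        right_inv := fun _ => rfl }
    cases n with
    | zero =>
      refine ⟨?_, ?_, fun h => by omega⟩
      · have := (upolyDeg_zero (K := K)).2; exact Finite.of_equiv _ e.symm
      · rw [Nat.card_congr e, upolyDeg_zero.1, pow_zero]
    | succ i =>
      obtain ⟨hc, hf⟩ := upolyDeg_succ (K := K) i
      refine ⟨Finite.of_equiv _ e.symm, ?_, fun _ => ?_⟩
      · rw [Nat.card_congr e, hc, pow_succ']; exact Nat.mul_le_mul_right _ (Nat.sub_le _ _)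
      · rw [Nat.card_congr e, hc, Nat.sub_mul, one_mul, Nat.add_sub_cancel, pow_succ']
  | succ J hJ ih =>
    intro n
    have hfi : ∀ i : Fin (n / (J + 1) + 1), Finite (UPolyDeg K i × ClassTuple K J (n - (J + 1) * i)) :=
      fun i => by
        have := finite_upolyDeg (K := K) i
        have := (ih (n - (J + 1) * i)).1
        infer_instance
    have hfin : Finite (ClassTuple K (J + 1) n) := Finite.of_equiv _ (classTupleSucc (K := K) J n).symm
    set q := Fintype.card K with hq
    have hcard : Nat.card (ClassTuple K (J + 1) n) = Nat.card (ClassTuple K J n) +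
        ∑ i ∈ Finset.range (n / (J + 1)),
          (q - 1) * q ^ i * Nat.card (ClassTuple K J (n - (J + 1) * (i + 1))) := by
      rw [Nat.card_congr (classTupleSucc J n), Nat.card_sigma, Fin.sum_univ_succ,
        ← Fin.sum_univ_eq_sum_range (fun i => (q - 1) * q ^ i * Nat.card (ClassTuple K J (n - (J + 1) * (i + 1))))]
      congr 1
      · rw [Nat.card_prod]
        simp only [Fin.val_zero, mul_zero, Nat.sub_zero]
        rw [upolyDeg_zero.1, one_mul]
      · refine Finset.sum_congr rfl fun i _ => ?_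
        rw [Nat.card_prod, Fin.val_succ, (upolyDeg_succ i.1).1]
    obtain ⟨-, hle, hle'⟩ := ih n
    refine ⟨hfin, ?_, ?_⟩ <;> rw [hcard]
    · rcases Nat.lt_or_ge n (J + 1) with h | h
      · rw [Nat.div_eq_of_lt h]; simpa using hle
      · have h1 := sum_peel_le q hq1 J (fun m => Nat.card (ClassTuple K J m)) (fun m => (ih m).2.1)
          (fun m => (ih m).2.2) n h
        have h2 := hle' (by omega)
        have h3 : (q - 1) * q ^ (n - J - 1) ≤ q ^ (n - J) := by
          calc (q - 1) * q ^ (n - J - 1) ≤ q * q ^ (n - J - 1) := Nat.mul_le_mul_right _ (Nat.sub_le _ _)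
            _ = q ^ (n - J) := by rw [← pow_succ', Nat.sub_add_cancel (by omega)]
        have h4 : q ^ (n - J) ≤ q ^ n := Nat.pow_le_pow_right hq1 (Nat.sub_le _ _)
        omega
    · intro h
      have h1 := sum_peel_le q hq1 J (fun m => Nat.card (ClassTuple K J m)) (fun m => (ih m).2.1)
        (fun m => (ih m).2.2) n h
      have h2 := hle' (by omega)
      have h3 : (q - 1) * q ^ (n - J - 1) + q ^ (n - (J + 1)) = q ^ (n - J) := by
        rw [show n - (J + 1) = n - J - 1 by omega, Nat.sub_mul, one_mul,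
          Nat.sub_add_cancel (Nat.le_mul_of_pos_left _ (by omega)), ← pow_succ', Nat.sub_add_cancel (by omega)]
      have h4 : q ^ (n - J) ≤ q ^ n := Nat.pow_le_pow_right hq1 (Nat.sub_le _ _)
      omega

/-- Conjugacy classes of `GL_n(q)` are at most `q ^ n` in number. -/
theorem card_conjClasses_GL_le [Fintype K] {n : ℕ} (hn : 1 ≤ n) :
    Nat.card (ConjClasses (Matrix.GeneralLinearGroup (Fin n) K)) ≤ Fintype.card K ^ n := by
  classical
  have hdata : ∀ g : Matrix.GeneralLinearGroup (Fin n) K, ∃ (ι : Type u) (_ : Fintype ι) (p : ι → K[X]) (e : ι → ℕ),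
      IsDecomp (Matrix.toLin' (g : Matrix (Fin n) (Fin n) K)) p e := fun g => exists_isDecomp _
  choose ι hι p e hdec using hdata
  have hsum : ∀ g, ∑ i, (p g i).natDegree * e g i = n := fun g => by
    have h := congrArg Polynomial.natDegree (hdec g).charpoly_eq
    rw [LinearMap.charpoly_natDegree, Module.finrank_pi, Fintype.card_fin,
      natDegree_prod_of_monic _ _ fun i _ => ((hdec g).monic i).pow _] at h
    rw [h]
    exact Finset.sum_congr rfl fun i _ => by rw [natDegree_pow, mul_comm]
  have hle : ∀ g i, e g i ≤ n := fun g i => by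
    refine le_trans ?_ (le_trans (Finset.single_le_sum (f := fun i => (p g i).natDegree * e g i)
      (fun i _ => Nat.zero_le _) (Finset.mem_univ i)) (hsum g).le)
    exact Nat.le_mul_of_pos_left _ ((hdec g).irreducible i).natDegree_pos
  have hp0 : ∀ g i, (p g i).coeff 0 ≠ 0 := fun g i h0 => by
    have hd : p g i ∣ (g : Matrix (Fin n) (Fin n) K).charpoly := by
      rw [← Matrix.charpoly_toLin', (hdec g).charpoly_eq]
      exact (dvd_pow_self _ (by have := (hdec g).pos i; omega)).trans
        (Finset.dvd_prod_of_mem (fun j => p g j ^ e g j) (Finset.mem_univ i))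
    obtain ⟨f, hf⟩ := hd
    have h := Matrix.det_eq_sign_charpoly_coeff (g : Matrix (Fin n) (Fin n) K)
    rw [hf, mul_coeff_zero, h0, zero_mul, mul_zero] at h
    exact Matrix.GeneralLinearGroup.det_ne_zero g h
  let P : ∀ g, Fin n → UPoly K := fun g j => ⟨∏ i with e g i = (j : ℕ) + 1, p g i,
    monic_prod_of_monic _ _ fun i _ => (hdec g).monic i, by
      rw [coeff_zero_eq_eval_zero, eval_prod]
      exact Finset.prod_ne_zero_iff.2 fun i _ => by rw [← coeff_zero_eq_eval_zero]; exact hp0 g i⟩
  have hP : ∀ g, ∑ j : Fin n, ((j : ℕ) + 1) * (P g j).1.natDegree = n := fun g => by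
    refine Eq.trans ?_ (hsum g)
    have hmaps : ∀ i ∈ (Finset.univ : Finset (ι g)),
        (⟨e g i - 1, by have := hle g i; omega⟩ : Fin n) ∈ (Finset.univ : Finset (Fin n)) :=
      fun i _ => Finset.mem_univ _
    rw [← Finset.sum_fiberwise_of_maps_to hmaps fun i => (p g i).natDegree * e g i]
    refine Finset.sum_congr rfl fun j _ => ?_
    show ((j : ℕ) + 1) * (∏ i with e g i = (j : ℕ) + 1, p g i).natDegree = _
    rw [natDegree_prod_of_monic _ _ fun i _ => (hdec g).monic i, Finset.mul_sum]
    refine Finset.sum_congr (Finset.filter_congr fun i _ => ?_) fun i hi => ?_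
    · have := (hdec g).pos i
      rw [Fin.ext_iff]
      show _ ↔ e g i - 1 = (j : ℕ)
      omega
    · have := (hdec g).pos i
      have h2 : e g i - 1 = (j : ℕ) := congrArg Fin.val (Finset.mem_filter.1 hi).2
      rw [show e g i = (j : ℕ) + 1 by omega, mul_comm]
  have hcount : ∀ g Q (j : Fin n), decompCount (p g) (e g) Q ((j : ℕ) + 1) =
      (normalizedFactors (P g j).1).count Q := fun g Q j => by
    show _ = (normalizedFactors (∏ i with e g i = (j : ℕ) + 1, p g i)).count Q
    rw [Finset.prod_eq_multiset_prod, normalizedFactors_prod_eq _ (fun a ha => by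
      obtain ⟨i, -, rfl⟩ := Multiset.mem_map.1 ha
      exact (hdec g).irreducible i), Multiset.map_map, Multiset.count_map, decompCount,
      Nat.card_eq_fintype_card, Fintype.card_subtype, ← Finset.filter_val, ← Finset.card_def, Finset.filter_filter]
    congr 1
    refine Finset.filter_congr fun i _ => ?_
    simp [((hdec g).monic i).normalize_eq_self, eq_comm, and_comm]
  have hfinT := (classTuple_bounds (K := K) n hn n).1
  refine le_trans (Nat.card_le_card_of_injective
    (fun c : ConjClasses (Matrix.GeneralLinearGroup (Fin n) K) =>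
      (⟨P c.out, hP c.out⟩ : ClassTuple K n n)) ?_) (classTuple_bounds (K := K) n hn n).2.1
  intro c c' h
  have heq : P c.out = P c'.out := congrArg Subtype.val h
  obtain ⟨L, hL⟩ := exists_equiv_of_count_eq (hdec c.out) (hdec c'.out) fun Q k => by
    rcases Nat.eq_zero_or_pos k with rfl | hk
    · have h1 : IsEmpty {i // p c.out i = Q ∧ e c.out i = 0} :=
        ⟨fun i => by have := (hdec c.out).pos i.1; omega⟩
      have h2 : IsEmpty {i // p c'.out i = Q ∧ e c'.out i = 0} :=
        ⟨fun i => by have := (hdec c'.out).pos i.1; omega⟩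
      simp [decompCount]
    rcases Nat.lt_or_ge n k with hk' | hk'
    · have h1 : IsEmpty {i // p c.out i = Q ∧ e c.out i = k} :=
        ⟨fun i => by have := hle c.out i.1; omega⟩
      have h2 : IsEmpty {i // p c'.out i = Q ∧ e c'.out i = k} :=
        ⟨fun i => by have := hle c'.out i.1; omega⟩
      simp [decompCount]
    · obtain ⟨j, rfl⟩ : ∃ j : Fin n, k = (j : ℕ) + 1 := ⟨⟨k - 1, by omega⟩, by simp only; omega⟩
      rw [hcount, hcount, heq]
  rw [← Quotient.out_eq c, ← Quotient.out_eq c']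
  exact ConjClasses.mk_eq_mk_iff_isConj.2 (gl_isConj_iff.2 (isConj_of_equiv L fun v => hL v))

/-- At least the semisimple classes. -/
theorem le_card_conjClasses_GL [Fintype K] {n : ℕ} (hn : 1 ≤ n) :
    Fintype.card K ^ n - Fintype.card K ^ (n - 1) ≤
      Nat.card (ConjClasses (Matrix.GeneralLinearGroup (Fin n) K)) := by
  classical
  obtain ⟨p, hchar⟩ := CharP.exists K
  have hpp : p.Prime := (CharP.char_is_prime_or_zero K p).resolve_right fun h => by
    subst h; have := CharP.charP_to_charZero K; exact not_finite K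
  have := Fact.mk hpp
  obtain ⟨i, rfl⟩ := Nat.exists_eq_add_of_le' hn
  have hcard : Nat.card (UPolyDeg K (i + 1)) = Fintype.card K ^ (i + 1) - Fintype.card K ^ (i + 1 - 1) := by
    rw [(upolyDeg_succ i).1, Nat.sub_mul, one_mul, Nat.add_sub_cancel, pow_succ']
  rw [← hcard]
  have hrep : ∀ f : UPolyDeg K (i + 1), ∃ g : Matrix.GeneralLinearGroup (Fin (i + 1)) K,
      (g : Matrix (Fin (i + 1)) (Fin (i + 1)) K).charpoly = f.1.1 ∧ (orderOf g).Coprime p :=
    fun f => exists_gl_charpoly_eq p f.1.2.1 f.2 f.1.2.2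
  choose g hg _ using hrep
  refine Nat.card_le_card_of_injective (fun f => ConjClasses.mk (g f)) fun f f' h => ?_
  have h1 := charpoly_eq_of_isConj (gl_isConj_iff.1 (ConjClasses.mk_eq_mk_iff_isConj.1 h))
  rw [hg, hg] at h1
  exact Subtype.ext (Subtype.ext h1)

end Cfsg.Agent.H66
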