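/-
Semisimple classes of the special unitary group.
-/
import Cfsg.Agent.H66.SemisimpleUnitary
import Cfsg.Agent.H66.ClassCount
import Cfsg.Agent.H3.Isotropic

set_option autoImplicit false

open Polynomial Cfsg

namespace Cfsg.Agent.H66

variable {K : Type*} [Field K] [Fintype K] {q n : ℕ}

/-- A scalar of norm one is a quotient `d / d ^ q`. -/
theorem exists_div_conj_eq (hK : Fintype.card K = q ^ 2) {c : K} (hc : c * H3.conjQ hK c = 1) :
    ∃ d : K, d ≠ 0 ∧ d / H3.conjQ hK d = c := by
  obtain ⟨c₀, hc₀⟩ := H3.exists_conj_ne hK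
  have hσσ := H3.conjQ_conjQ hK
  by_cases h : 1 + c = 0
  · have hd : c₀ - H3.conjQ hK c₀ ≠ 0 := sub_ne_zero.2 (Ne.symm hc₀)
    refine ⟨c₀ - H3.conjQ hK c₀, hd, ?_⟩
    rw [map_sub, hσσ, div_eq_iff (by rw [← neg_sub]; exact neg_ne_zero.2 hd)]
    linear_combination -(H3.conjQ hK c₀ - c₀) * h
  · refine ⟨1 + c, h, ?_⟩
    rw [div_eq_iff ((_root_.map_ne_zero _).2 h), map_add, map_one]
    linear_combination -hc

/-- The centraliser of a semisimple unitary element has every determinant of norm one. -/
theorem exists_GU_commute_det_eq (hK : Fintype.card K = q ^ 2) (p : ℕ) [Fact p.Prime] [CharP K p]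
    (hn : 1 ≤ n) (g : ↥(Cfsg.GU n K q)) (hg : (orderOf g).Coprime p) {c : K}
    (hc : c * H3.conjQ hK c = 1) :
    ∃ z : ↥(Cfsg.GU n K q), z * g = g * z ∧ ((z : GL (Fin n) K) : Matrix (Fin n) (Fin n) K).det = c := by
  set M : Matrix (Fin n) (Fin n) K := ((g : GL (Fin n) K) : Matrix (Fin n) (Fin n) K) with hM
  obtain ⟨G, hG, hGz⟩ := exists_GU_model hK (Matrix.charpoly_monic M)
    (by rw [Matrix.charpoly_natDegree_eq_dim, Fintype.card_fin]) (fun h => by
      have := Matrix.det_eq_sign_charpoly_coeff M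
      rw [h, mul_zero] at this
      exact Matrix.GeneralLinearGroup.det_ne_zero (g : GL (Fin n) K) this)
    (dualPoly_charpoly_of_mem_GU hK g.2)
  obtain ⟨d, hd, hdc⟩ := exists_div_conj_eq hK hc
  obtain ⟨Z, hZ, hZd⟩ := hGz hn d hd
  set G' := G ^ Fintype.card K ^ orderOf G
  have hpq : p ∣ Fintype.card K := by
    obtain ⟨k, -, hk⟩ := FiniteField.card K p
    exact hk ▸ dvd_pow_self p k.pos.ne'
  have hG' : (orderOf G').Coprime p := coprime_orderOf_pow_card G Fact.out hpq
  have hc1 : ((G' : GL (Fin n) K) : Matrix (Fin n) (Fin n) K).charpoly = M.charpoly := by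
    rw [SubmonoidClass.coe_pow, Units.val_pow_eq_pow_val, charpoly_pow_card_pow, hG]
  have hconj : IsConj G' g := gu_isConj_of_isConj hK G' g
    (isConj_of_charpoly_eq p (by rwa [Subgroup.orderOf_coe]) (by rwa [Subgroup.orderOf_coe]) hc1)
  obtain ⟨w, hw⟩ := isConj_iff.1 hconj
  refine ⟨w * Z * w⁻¹, ?_, ?_⟩
  · have hZG : Commute Z G' := (show Commute Z G from hZ).pow_right _
    rw [← hw]
    calc w * Z * w⁻¹ * (w * G' * w⁻¹) = w * (Z * G') * w⁻¹ := by group
      _ = w * (G' * Z) * w⁻¹ := by rw [hZG.eq]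
      _ = w * G' * w⁻¹ * (w * Z * w⁻¹) := by group
  · simp only [Subgroup.coe_mul, Subgroup.coe_inv, Units.val_mul, Matrix.coe_units_inv]
    rw [Matrix.det_conj (w : GL (Fin n) K).isUnit, hZd, hdc]

/-- Semisimple elements of `SU` with the same characteristic polynomial are conjugate in `SU`. -/
theorem su_isConj_of_charpoly_eq (hK : Fintype.card K = q ^ 2) (p : ℕ) [Fact p.Prime] [CharP K p]
    (g h : ↥(Cfsg.SU n K q)) (hg : (orderOf g).Coprime p) (hh : (orderOf h).Coprime p)
    (hc : ((g : Matrix.SpecialLinearGroup (Fin n) K) : Matrix (Fin n) (Fin n) K).charpoly =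
      ((h : Matrix.SpecialLinearGroup (Fin n) K) : Matrix (Fin n) (Fin n) K).charpoly) : IsConj g h := by
  rcases Nat.eq_zero_or_pos n with rfl | hn
  · rw [Subsingleton.elim g h]
  have hinj := H3.suToGU_injective (F := K) (q := q) n
  rw [← orderOf_injective (H3.suToGU n K q) hinj] at hg hh
  set g' := H3.suToGU n K q g with hg'
  set h' := H3.suToGU n K q h with hh'
  have hgl : IsConj (g' : GL (Fin n) K) (h' : GL (Fin n) K) :=
    isConj_of_charpoly_eq p (by rwa [Subgroup.orderOf_coe]) (by rwa [Subgroup.orderOf_coe])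
      (by rw [hg', hh', H3.suToGU_val, H3.suToGU_val]; exact hc)
  obtain ⟨u, hu⟩ := isConj_iff.1 (gu_isConj_of_isConj hK g' h' hgl)
  set D := ((u : GL (Fin n) K) : Matrix (Fin n) (Fin n) K).det
  have hD : D * H3.conjQ hK D = 1 := by
    have h1 := (H67.mem_GU_iff_matrix hK _).1 u.2
    have h2 := congrArg Matrix.det h1
    rw [Matrix.det_mul, Matrix.det_transpose, Matrix.det_one] at h2
    have : (((u : GL (Fin n) K) : Matrix (Fin n) (Fin n) K).map fun x => x ^ q).det = H3.conjQ hK D :=
      ((H3.conjQ hK).map_det _).symm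
    rwa [this] at h2
  have hD0 : D ≠ 0 := left_ne_zero_of_mul_eq_one hD
  obtain ⟨z, hz, hzd⟩ := exists_GU_commute_det_eq hK p hn g' hg (c := D⁻¹) (by
    rw [map_inv₀, ← mul_inv, hD, inv_one])
  have hmem : u * z ∈ (H3.suToGU n K q).range := by
    rw [H3.range_suToGU]
    refine Units.ext ?_
    show (((u * z : ↥(Cfsg.GU n K q)) : GL (Fin n) K) : Matrix (Fin n) (Fin n) K).det = 1
    rw [Subgroup.coe_mul, Units.val_mul, Matrix.det_mul, hzd, mul_inv_cancel₀ hD0]
  obtain ⟨w, hw⟩ := hmem
  refine isConj_iff.2 ⟨w, hinj ?_⟩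
  rw [map_mul, map_mul, map_inv, hw, ← hg', ← hh', ← hu]
  calc u * z * g' * (u * z)⁻¹ = u * (z * g') * z⁻¹ * u⁻¹ := by group
    _ = u * (g' * z) * z⁻¹ * u⁻¹ := by rw [hz]
    _ = u * g' * u⁻¹ := by group

/-- Semisimple classes of `SU_n(q)`. -/
theorem card_semisimple_classes_SU (hK : Fintype.card K = q ^ 2) (p : ℕ) [Fact p.Prime] [CharP K p]
    (m : ℕ) : Nat.card {c : ConjClasses ↥(Cfsg.SU (m + 1) K q) //
      ∃ g : ↥(Cfsg.SU (m + 1) K q), ConjClasses.mk g = c ∧ (orderOf g).Coprime p} = q ^ m := by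
  classical
  set n := m + 1 with hn
  set σ := H3.conjQ hK with hσ
  have hσσ := H3.conjQ_conjQ hK
  set s : K := (-1) ^ n with hs
  have hss : s * s = 1 := by rw [hs, ← mul_pow, neg_mul_neg, one_mul, one_pow]
  have hσs : σ s = s := by rw [hs, map_pow, map_neg, map_one]
  have hs0 : s ≠ 0 := left_ne_zero_of_mul_eq_one hss
  have hpq : p ∣ Fintype.card K := by
    obtain ⟨k, -, hk⟩ := FiniteField.card K p
    exact hk ▸ dvd_pow_self p k.pos.ne'
  have hdualco : ∀ f : K[X], f.Monic → f.natDegree = n → ∀ i,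
      (H67.dualPoly σ f).coeff i = (σ (f.coeff 0))⁻¹ * σ (f.coeff (Polynomial.revAt n i)) := by
    intro f hf hd i
    rw [H67.dualPoly, coeff_C_mul, coeff_reverse, coeff_map, natDegree_map, hd]
  let T : K[X] → Prop := fun f => (f.Monic ∧ f.natDegree = n) ∧ H67.dualPoly σ f = f ∧ f.coeff 0 = s
  rw [card_classes_eq (fun g : ↥(Cfsg.SU n K q) => (orderOf g).Coprime p) T
    (fun g => ((g : Matrix.SpecialLinearGroup (Fin n) K) : Matrix (Fin n) (Fin n) K).charpoly)
    (fun g h hc hg => coprime_orderOf_of_isConj hc hg)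
    (fun g h hc => charpoly_eq_of_isConj (gl_isConj_iff.1
      (((Matrix.SpecialLinearGroup.toGL).comp (Cfsg.SU n K q).subtype).map_isConj hc)))
    (fun g h hg hh hc => su_isConj_of_charpoly_eq hK p g h hg hh hc)
    (fun g _ => ?_) (fun f hf => ?_)]
  · have e : {f : K[X] // T f} ≃ {b : Fin m → K // ∀ k, b k = s * σ (b k.rev)} :=
      { toFun := fun f => ⟨fun k => f.1.coeff (k + 1), fun k => by
          obtain ⟨⟨hf1, hf2⟩, hd, hc0⟩ := f.2
          change f.1.coeff (k + 1) = s * σ (f.1.coeff ((k.rev : ℕ) + 1))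
          conv_lhs => rw [← hd, hdualco _ hf1 hf2, hc0, hσs, inv_eq_of_mul_eq_one_left hss]
          congr 3
          rw [Polynomial.revAt_le (by omega), Fin.val_rev]
          omega⟩
        invFun := fun b => ⟨((monicDegEquiv n).symm (Fin.cons s b.1)).1, by
          obtain ⟨hf1, hf2⟩ := ((monicDegEquiv (K := K) n).symm (Fin.cons s b.1)).2
          set F := ((monicDegEquiv (K := K) n).symm (Fin.cons s b.1)).1 with hF
          have hco : ∀ i : Fin n, F.coeff i = (Fin.cons s b.1 : Fin n → K) i := fun i =>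
            congrFun ((monicDegEquiv (K := K) n).apply_symm_apply (Fin.cons s b.1)) i
          have h0 : F.coeff 0 = s := hco 0
          have hk : ∀ k : Fin m, F.coeff (k + 1) = b.1 k := fun k => by
            have := hco k.succ
            rwa [Fin.cons_succ, Fin.val_succ] at this
          refine ⟨⟨hf1, hf2⟩, ?_, h0⟩
          ext i
          rw [hdualco _ hf1 hf2, h0, hσs, inv_eq_of_mul_eq_one_left hss]
          rcases Nat.eq_zero_or_pos i with rfl | hi
          · rw [Polynomial.revAt_le (Nat.zero_le _), Nat.sub_zero, h0]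
            have : F.coeff n = 1 := hf2 ▸ hf1
            rw [this, map_one, mul_one]
          rcases lt_trichotomy i n with hlt | rfl | hgt
          · obtain ⟨k, rfl⟩ : ∃ k : Fin m, (k : ℕ) + 1 = i := ⟨⟨i - 1, by omega⟩, by simp only; omega⟩
            rw [hk, b.2 k, Polynomial.revAt_le (by omega), ← hk k.rev]
            congr 3
            rw [Fin.val_rev]
            omega
          · rw [Polynomial.revAt_le le_rfl, Nat.sub_self, h0, hσs, hss]
            exact (hf2 ▸ hf1 : F.coeff _ = 1).symm
          · rw [Polynomial.revAt_eq_self_of_lt hgt, coeff_eq_zero_of_natDegree_lt (hf2 ▸ hgt), map_zero,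
              mul_zero]⟩
        left_inv := fun f => by
          obtain ⟨f, hf, hd, hc0⟩ := f
          have : Fin.cons s (fun k : Fin m => f.coeff (k + 1)) = monicDegEquiv n ⟨f, hf⟩ := by
            funext i
            refine Fin.cases ?_ (fun k => ?_) i
            · simp [monicDegEquiv, hc0]
            · simp [monicDegEquiv]
          apply Subtype.ext
          change ((monicDegEquiv n).symm (Fin.cons s fun k : Fin m => f.coeff (k + 1))).1 = f
          rw [this, Equiv.symm_apply_apply]
        right_inv := fun b => by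
          apply Subtype.ext
          funext k
          have := congrFun ((monicDegEquiv (K := K) n).apply_symm_apply (Fin.cons s b.1)) k.succ
          rwa [Fin.cons_succ] at this }
    rw [Nat.card_congr e, card_twisted_invariant Fin.rev Fin.rev_rev (fun x => s * σ x)
      (fun x => by rw [map_mul, hσs, hσσ, ← mul_assoc, hss, one_mul]),
      Nat.card_eq_fintype_card (α := K), hK]
    have hfix : Nat.card {x : K // s * σ x = x} = q := by
      refine Eq.trans (Nat.card_congr (Equiv.subtypeEquivRight fun x => ?_))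
        (H3.twist_surj_and_card hK (-s) (by
          rcases Nat.even_or_odd n with h | h
          · right; rw [hs, h.neg_one_pow]
          · left; rw [hs, h.neg_one_pow, neg_neg])).2
      rw [hσ, H3.conjQ_apply]
      constructor
      · intro h; linear_combination s * h - x ^ q * hss
      · intro h; linear_combination s * h + x * hss
    rw [hfix, ← pow_mul, ← pow_add]
    congr 1
    rw [Nat.card_eq_fintype_card, Nat.card_eq_fintype_card, Fintype.card_subtype, Fintype.card_subtype]
    have h3 : (Finset.univ.filter fun k : Fin m => k.rev < k).card =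
        (Finset.univ.filter fun k : Fin m => k < k.rev).card :=
      Finset.card_equiv Fin.revPerm fun k => by simp [Fin.revPerm]
    have hsum : (Finset.univ.filter fun k : Fin m => k < k.rev).card +
        ((Finset.univ.filter fun k : Fin m => k.rev < k).card +
          (Finset.univ.filter fun k : Fin m => k.rev = k).card) = m := by
      conv_rhs => rw [← Fintype.card_fin m, ← Finset.card_univ, Finset.card_eq_sum_ones]
      rw [Finset.card_filter, Finset.card_filter, Finset.card_filter, ← Finset.sum_add_distrib,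
        ← Finset.sum_add_distrib]
      refine Finset.sum_congr rfl fun k _ => ?_
      rcases lt_trichotomy k k.rev with h | h | h
      · simp [h, h.not_gt, h.ne']
      · simp [← h]
      · simp [h, h.not_gt, h.ne]
    omega
  · refine ⟨⟨Matrix.charpoly_monic _, by rw [Matrix.charpoly_natDegree_eq_dim, Fintype.card_fin]⟩, ?_, ?_⟩
    · have := dualPoly_charpoly_of_mem_GU hK (H3.suToGU n K q g).2
      rwa [H3.suToGU_val] at this
    · have h := Matrix.det_eq_sign_charpoly_coeff
        ((g : Matrix.SpecialLinearGroup (Fin n) K) : Matrix (Fin n) (Fin n) K)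
      rw [(g : Matrix.SpecialLinearGroup (Fin n) K).2, Fintype.card_fin, ← hs] at h
      linear_combination (-s) * h - ((g : Matrix.SpecialLinearGroup (Fin n) K) : Matrix (Fin n) (Fin n) K).charpoly.coeff 0 * hss
  · obtain ⟨⟨hf1, hf2⟩, hd, hc0⟩ := hf
    obtain ⟨G, hG, -⟩ := exists_GU_model hK hf1 hf2 (hc0 ▸ hs0) hd
    set G' := G ^ Fintype.card K ^ orderOf G
    have hc1 : ((G' : GL (Fin n) K) : Matrix (Fin n) (Fin n) K).charpoly = f := by
      rw [SubmonoidClass.coe_pow, Units.val_pow_eq_pow_val, charpoly_pow_card_pow, hG]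
    have hmem : G' ∈ (H3.suToGU n K q).range := by
      rw [H3.range_suToGU]
      refine Units.ext ?_
      show ((G' : GL (Fin n) K) : Matrix (Fin n) (Fin n) K).det = 1
      rw [Matrix.det_eq_sign_charpoly_coeff, hc1, hc0, Fintype.card_fin, ← hs, hss]
    obtain ⟨w, hw⟩ := hmem
    refine ⟨w, ?_, ?_⟩
    · rw [← orderOf_injective (H3.suToGU n K q) (H3.suToGU_injective n), hw]
      exact coprime_orderOf_pow_card G Fact.out hpq
    · rw [← H3.suToGU_val, hw]
      exact hc1

end Cfsg.Agent.H66
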