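/-
Classes of a subgroup of index two counted in the group.
-/
import Mathlib

set_option autoImplicit false

namespace Cfsg.Agent.H66.Coset

universe u

variable {G : Type u} [Group G] [Finite G]

omit [Finite G] in
/-- Commuting pairs whose first entry lies in an invariant set. -/
theorem card_comm_pairs (P : G → Prop) (hP : ∀ g w, P g → P (w * g * w⁻¹)) :
    Nat.card {x : G × G // Commute x.1 x.2 ∧ P x.1} =
      Nat.card {C : ConjClasses G // P C.out} * Nat.card G := by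
  classical
  have hw : ∀ g : G, ∃ w : G, w * (ConjClasses.mk g).out * w⁻¹ = g := fun g =>
    isConj_iff.1 (ConjClasses.mk_eq_mk_iff_isConj.1 (Quotient.out_eq (ConjClasses.mk g)))
  choose w hw using hw
  have hmk : ∀ (C : ConjClasses G) (u : G), ConjClasses.mk (u * C.out * u⁻¹) = C := fun C u => by
    refine (ConjClasses.mk_eq_mk_iff_isConj.2 (isConj_iff.2 ⟨u, rfl⟩).symm).trans ?_
    exact Quotient.out_eq C
  rw [← Nat.card_prod]
  refine Nat.card_congr
    { toFun := fun x => (⟨ConjClasses.mk x.1.1, ?_⟩, x.1.2 * w x.1.1)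
      invFun := fun y => ⟨(y.2 * y.1.1.out * y.2⁻¹, y.2 * (w (y.2 * y.1.1.out * y.2⁻¹))⁻¹), ?_, hP _ _ y.1.2⟩
      left_inv := ?_
      right_inv := ?_ }
  · have h := hP x.1.1 (w x.1.1)⁻¹ x.2.2
    have e : (w x.1.1)⁻¹ * x.1.1 * ((w x.1.1)⁻¹)⁻¹ = (ConjClasses.mk x.1.1).out := by
      have h1 := hw x.1.1
      calc (w x.1.1)⁻¹ * x.1.1 * ((w x.1.1)⁻¹)⁻¹
          = (w x.1.1)⁻¹ * (w x.1.1 * (ConjClasses.mk x.1.1).out * (w x.1.1)⁻¹) * w x.1.1 := by rw [h1, inv_inv]
        _ = (ConjClasses.mk x.1.1).out := by group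
    rwa [e] at h
  · set u := y.2
    set c := y.1.1.out
    have h1 := hw (u * c * u⁻¹)
    rw [hmk] at h1
    set v := w (u * c * u⁻¹)
    show u * c * u⁻¹ * (u * v⁻¹) = u * v⁻¹ * (u * c * u⁻¹)
    have h3 : v⁻¹ * (u * c * u⁻¹) = c * v⁻¹ := by rw [← h1]; show v⁻¹ * (v * c * v⁻¹) = _; group
    rw [mul_assoc u v⁻¹, h3]
    group
  · rintro ⟨⟨g, h⟩, hc, hg⟩
    have h1 := hw g
    have e : h * w g * (ConjClasses.mk g).out * (h * w g)⁻¹ = g := by
      calc h * w g * (ConjClasses.mk g).out * (h * w g)⁻¹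
          = h * (w g * (ConjClasses.mk g).out * (w g)⁻¹) * h⁻¹ := by group
        _ = g := by rw [h1]; exact mul_inv_eq_iff_eq_mul.2 hc.eq.symm
    refine Subtype.ext (Prod.ext e ?_)
    show h * w g * (w (h * w g * (ConjClasses.mk g).out * (h * w g)⁻¹))⁻¹ = h
    rw [e]; group
  · rintro ⟨⟨C, hC⟩, u⟩
    refine Prod.ext (Subtype.ext (hmk C u)) ?_
    show u * (w (u * C.out * u⁻¹))⁻¹ * w (u * C.out * u⁻¹) = u
    group

/-- The classes of the kernel of a sign character. -/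
theorem card_classes_ker_add (ψ : G →* ℤˣ) (hψ : ∃ g, ψ g = -1) :
    Nat.card (ConjClasses ψ.ker) + Nat.card {C : ConjClasses G // ψ C.out = -1} =
      2 * Nat.card {C : ConjClasses G // ψ C.out = 1} := by
  classical
  let := Fintype.ofFinite G
  have hinv : ∀ ε : ℤˣ, ∀ g w : G, ψ g = ε → ψ (w * g * w⁻¹) = ε := fun ε g w h => by
    rw [map_mul, map_mul, map_inv, h, mul_comm (ψ w), mul_inv_cancel_right]
  have hplus := card_comm_pairs (fun g => ψ g = 1) (hinv 1)
  have hminus := card_comm_pairs (fun g => ψ g = -1) (hinv (-1))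
  have hne : (1 : ℤˣ) ≠ -1 := by decide
  have hsplit : ∀ ε : ℤˣ, Nat.card {x : G × G // Commute x.1 x.2 ∧ ψ x.1 = ε} =
      Nat.card {x : G × G // Commute x.1 x.2 ∧ ψ x.1 = ε ∧ ψ x.2 = 1} +
        Nat.card {x : G × G // Commute x.1 x.2 ∧ ψ x.1 = ε ∧ ψ x.2 = -1} := fun ε => by
    rw [Nat.card_eq_fintype_card (α := {x : G × G // Commute x.1 x.2 ∧ ψ x.1 = ε}), Fintype.card_subtype,
      Nat.card_eq_fintype_card, Fintype.card_subtype, Nat.card_eq_fintype_card, Fintype.card_subtype,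
      ← Finset.card_union_of_disjoint]
    · congr 1
      ext x
      simp only [Finset.mem_filter, Finset.mem_univ, true_and, Finset.mem_union]
      constructor
      · intro h
        rcases Int.units_eq_one_or (ψ x.2) with e | e
        · exact Or.inl ⟨h.1, h.2, e⟩
        · exact Or.inr ⟨h.1, h.2, e⟩
      · rintro (h | h) <;> exact ⟨h.1, h.2.1⟩
    · rw [Finset.disjoint_filter]
      exact fun x _ h h' => hne (h.2.2.symm.trans h'.2.2)
  have hswap : Nat.card {x : G × G // Commute x.1 x.2 ∧ ψ x.1 = 1 ∧ ψ x.2 = -1} =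
      Nat.card {x : G × G // Commute x.1 x.2 ∧ ψ x.1 = -1 ∧ ψ x.2 = 1} :=
    Nat.card_congr ((Equiv.prodComm G G).subtypeEquiv fun x =>
      ⟨fun h => ⟨h.1.symm, h.2.2, h.2.1⟩, fun h => ⟨h.1.symm, h.2.2, h.2.1⟩⟩)
  have hshift : Nat.card {x : G × G // Commute x.1 x.2 ∧ ψ x.1 = -1 ∧ ψ x.2 = -1} =
      Nat.card {x : G × G // Commute x.1 x.2 ∧ ψ x.1 = -1 ∧ ψ x.2 = 1} := by
    refine Nat.card_congr
      { toFun := fun x => ⟨(x.1.1, x.1.2 * x.1.1), x.2.1.mul_right (Commute.refl _), x.2.2.1,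
          by rw [map_mul, x.2.2.2, x.2.2.1]; rfl⟩
        invFun := fun x => ⟨(x.1.1, x.1.2 * x.1.1⁻¹), x.2.1.mul_right (Commute.refl x.1.1).inv_right, x.2.2.1,
          by rw [map_mul, map_inv, x.2.2.2, x.2.2.1]; rfl⟩
        left_inv := fun x => Subtype.ext (Prod.ext rfl (mul_inv_cancel_right _ _))
        right_inv := fun x => Subtype.ext (Prod.ext rfl (inv_mul_cancel_right _ _)) }
  have hker : Nat.card {x : G × G // Commute x.1 x.2 ∧ ψ x.1 = 1 ∧ ψ x.2 = 1} =
      Nat.card (ConjClasses ψ.ker) * Nat.card ψ.ker := by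
    rw [← card_comm_eq_card_conjClasses_mul_card]
    exact Nat.card_congr
      { toFun := fun x => ⟨(⟨x.1.1, x.2.2.1⟩, ⟨x.1.2, x.2.2.2⟩), Subtype.ext x.2.1.eq⟩
        invFun := fun x => ⟨((x.1.1 : G), (x.1.2 : G)), congrArg Subtype.val x.2.eq, x.1.1.2, x.1.2.2⟩
        left_inv := fun x => rfl
        right_inv := fun x => rfl }
  have hindex : Nat.card G = 2 * Nat.card ψ.ker := by
    have hr : ψ.range = ⊤ := by
      obtain ⟨g, hg⟩ := hψ
      refine eq_top_iff.2 fun x _ => ?_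
      rcases Int.units_eq_one_or x with rfl | rfl
      · exact one_mem _
      · exact ⟨g, hg⟩
    rw [← ψ.ker.index_mul_card, Subgroup.index_ker, hr, Subgroup.card_top]
    simp
  have h1 := hsplit 1
  have h3 := hsplit (-1)
  rw [hplus, hker, hswap, hindex] at h1
  rw [hminus, hshift, hindex] at h3
  have hpos : 0 < Nat.card ψ.ker := Nat.card_pos
  refine Nat.eq_of_mul_eq_mul_right hpos ?_
  rw [add_mul]
  linarith

end Cfsg.Agent.H66.Coset
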