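/-
Self-reciprocal polynomials as characteristic polynomials of orthogonal transformations, odd characteristic.
-/
import Cfsg.Agent.H66.SpCharpoly
import Cfsg.Agent.H66.SpPalindrome
import Cfsg.Agent.H66.UnipotentSp
import Cfsg.Agent.H4.DiscClass

set_option autoImplicit false

open Polynomial Module Matrix

namespace Cfsg.Agent.H66.OrthChar

universe u v

variable {K : Type u} [Field K]

/-- A symplectic element gives a symmetric invariant matrix. -/
theorem exists_symm_invariant {m : ℕ} (g : Matrix.symplecticGroup (Fin m) K)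
    (hc : (g : Matrix (Fin m ⊕ Fin m) (Fin m ⊕ Fin m) K).charpoly.coeff 0 = 1) :
    ∃ W : Matrix (Fin m ⊕ Fin m) (Fin m ⊕ Fin m) K, W.transpose = W ∧
      (g : Matrix (Fin m ⊕ Fin m) (Fin m ⊕ Fin m) K).transpose * W * (g : Matrix (Fin m ⊕ Fin m) (Fin m ⊕ Fin m) K) = W ∧
      W.det = ((g : Matrix (Fin m ⊕ Fin m) (Fin m ⊕ Fin m) K).charpoly.eval 1) * ((g : Matrix (Fin m ⊕ Fin m) (Fin m ⊕ Fin m) K).charpoly.eval (-1)) := by
  set G : Matrix (Fin m ⊕ Fin m) (Fin m ⊕ Fin m) K := (g : Matrix (Fin m ⊕ Fin m) (Fin m ⊕ Fin m) K) with hG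
  set G' : Matrix (Fin m ⊕ Fin m) (Fin m ⊕ Fin m) K := ((g⁻¹ : Matrix.symplecticGroup (Fin m) K) : Matrix (Fin m ⊕ Fin m) (Fin m ⊕ Fin m) K) with hG'
  have hGG : G * G' = 1 := congrArg Subtype.val (mul_inv_cancel g)
  have hG'G : G' * G = 1 := congrArg Subtype.val (inv_mul_cancel g)
  set J := Matrix.J (Fin m) K with hJ
  have hinv : G.transpose * J * G = J := SymplecticGroup.mem_iff'.1 g.2
  have hinv' : G'.transpose * J * G' = J := SymplecticGroup.mem_iff'.1 (g⁻¹).2
  have hT : G.transpose * J = J * G' := by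
    have h := congrArg (fun Z => Z * G') hinv
    simp only [Matrix.mul_assoc, hGG, Matrix.mul_one] at h
    exact h
  have hT' : G'.transpose * J = J * G := by
    have h := congrArg (fun Z => Z * G) hinv'
    simp only [Matrix.mul_assoc, hG'G, Matrix.mul_one] at h
    exact h
  have hJdet : J.det = 1 := by
    have e : J = Matrix.fromBlocks 1 (-1) 0 1 * Matrix.fromBlocks 1 0 1 1 * Matrix.fromBlocks 1 (-1) 0 1 := by
      simp [hJ, Matrix.J, Matrix.fromBlocks_multiply]
    rw [e, Matrix.det_mul, Matrix.det_mul, Matrix.det_fromBlocks_zero₂₁, Matrix.det_fromBlocks_zero₁₂]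
    simp
  refine ⟨J * (G - G'), ?_, ?_, ?_⟩
  · rw [Matrix.transpose_mul, Matrix.transpose_sub, hJ, Matrix.J_transpose, ← hJ, Matrix.sub_mul, Matrix.mul_neg,
      Matrix.mul_neg, hT, hT', Matrix.mul_sub]
    abel
  · rw [← Matrix.mul_assoc G.transpose J, hT, Matrix.mul_assoc, Matrix.mul_assoc, Matrix.sub_mul, hG'G,
      Matrix.mul_sub, ← Matrix.mul_assoc G', hG'G, Matrix.one_mul, Matrix.mul_one]
  · have h1 : G - G' = G' * ((G - 1) * (G + 1)) := by
      rw [show (G - 1) * (G + 1) = G * G - 1 by noncomm_ring, Matrix.mul_sub, ← Matrix.mul_assoc, hG'G,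
        Matrix.one_mul, Matrix.mul_one]
    have hneg : (-1 : K) ^ Fintype.card (Fin m ⊕ Fin m) = 1 :=
      Even.neg_one_pow (by rw [Fintype.card_sum]; exact ⟨_, rfl⟩)
    have e1 : G.charpoly.eval 1 = (G - 1).det := by
      rw [Matrix.eval_charpoly, map_one, ← neg_sub, Matrix.det_neg, hneg, one_mul]
    have e2 : G.charpoly.eval (-1) = (G + 1).det := by
      rw [Matrix.eval_charpoly, map_neg, map_one, show -(1 : Matrix (Fin m ⊕ Fin m) (Fin m ⊕ Fin m) K) - G =
        -(G + 1) by abel, Matrix.det_neg, hneg, one_mul]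
    have hg : G.det = 1 := by rw [Matrix.det_eq_sign_charpoly_coeff, hneg, one_mul]; exact hc
    have hg' : G'.det = 1 := by
      have h3 := congrArg Matrix.det hG'G
      rwa [Matrix.det_mul, hg, mul_one, Matrix.det_one] at h3
    rw [Matrix.det_mul, hJdet, one_mul, h1, Matrix.det_mul, Matrix.det_mul, hg', one_mul, e1, e2]

/-- Removing the roots `1` and `-1` from a palindrome. -/
theorem exists_split (h2 : (2 : K) ≠ 0) {f : K[X]} (hf : SpPal.Pal f) :
    ∃ (a b m : ℕ) (h : K[X]), f = (X - C 1) ^ a * ((X - C (-1)) ^ b * h) ∧ SpPal.Pal h ∧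
      h.natDegree = 2 * m ∧ h.eval 1 ≠ 0 ∧ h.eval (-1) ≠ 0 ∧ a + b + 2 * m = f.natDegree := by
  obtain ⟨hm, hev, hrev⟩ := hf
  obtain ⟨f1, hf1, hn1⟩ := f.exists_eq_pow_rootMultiplicity_mul_and_not_dvd hm.ne_zero (1 : K)
  set a := f.rootMultiplicity 1
  have hm1 : f1.Monic := ((monic_X_sub_C (1 : K)).pow a).of_mul_monic_left (hf1 ▸ hm)
  obtain ⟨h, hh, hn2⟩ := f1.exists_eq_pow_rootMultiplicity_mul_and_not_dvd hm1.ne_zero (-1 : K)
  set b := f1.rootMultiplicity (-1)
  have hmh : h.Monic := ((monic_X_sub_C (-1 : K)).pow b).of_mul_monic_left (hh ▸ hm1)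
  have he : f = (X - C 1) ^ a * ((X - C (-1)) ^ b * h) := by rw [← hh]; exact hf1
  have hne1 : h.eval 1 ≠ 0 := fun h0 => hn1 (by
    rw [hh]
    exact dvd_mul_of_dvd_right (dvd_iff_isRoot.2 h0) _)
  have hne2 : h.eval (-1) ≠ 0 := fun h0 => hn2 (dvd_iff_isRoot.2 h0)
  have hc : f.coeff 0 = 1 := by
    have h3 := congrArg (fun z : K[X] => z.coeff 0) hrev
    simpa only [coeff_zero_reverse, hm.leadingCoeff] using h3.symm
  have hd : H67.dualPoly (RingHom.id K) f = f := by
    rw [H67.dualPoly, Polynomial.map_id, hrev, RingHom.id_apply, hc, inv_one, C_1, one_mul]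
  have hdh : H67.dualPoly (RingHom.id K) h = h := by
    conv_rhs at hd => rw [he]
    rw [he, H67.dualPoly_mul, H67.dualPoly_mul, H67.dualPoly_pow, H67.dualPoly_pow,
      SpPal.dualPoly_id_X_sub_C (by ring), SpPal.dualPoly_id_X_sub_C (by ring)] at hd
    exact mul_left_cancel₀ (pow_ne_zero _ (X_sub_C_ne_zero _))
      (mul_left_cancel₀ (pow_ne_zero _ (X_sub_C_ne_zero _)) hd)
  have hh0 : h.coeff 0 ≠ 0 := fun h0 => by
    rw [he, mul_coeff_zero, mul_coeff_zero, h0, mul_zero, mul_zero] at hc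
    exact zero_ne_one hc
  have hpal := SpPal.Pal.of_dual h2 hmh hh0 hdh hne1 hne2
  obtain ⟨m, hm2⟩ := hpal.2.1
  refine ⟨a, b, m, h, he, hpal, by omega, hne1, hne2, ?_⟩
  rw [he, ((monic_X_sub_C _).pow _).natDegree_mul (((monic_X_sub_C _).pow _).mul hmh),
    ((monic_X_sub_C _).pow _).natDegree_mul hmh, natDegree_pow, natDegree_pow, natDegree_X_sub_C,
    natDegree_X_sub_C]
  omega

/-- A symmetric matrix with an isometry of given characteristic polynomial and given square class. -/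
theorem exists_model (h2 : (2 : K) ≠ 0) {f : K[X]} (hf : SpPal.Pal f) {D : K} (hD : D ≠ 0)
    (hgood : f.eval 1 * f.eval (-1) = 0 ∨ IsSquare (D * (f.eval 1 * f.eval (-1)))) :
    ∃ (m r : ℕ) (M g : Matrix ((Fin m ⊕ Fin m) ⊕ Fin r) ((Fin m ⊕ Fin m) ⊕ Fin r) K),
      2 * m + r = f.natDegree ∧ M.transpose = M ∧ g.transpose * M * g = M ∧ g.charpoly = f ∧ M.det ≠ 0 ∧
        IsSquare (D * M.det) := by
  obtain ⟨a, b, m, h, he, hpal, hdh, hne1, hne2, hdeg⟩ := exists_split h2 hf
  obtain ⟨g₀, hg₀⟩ := SpChar.exists_sp_charpoly h2 h hpal.1 hdh (hpal.coeff_symm hdh)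
  obtain ⟨W, hWs, hWi, hWd⟩ := exists_symm_invariant g₀
    (by rw [hg₀]; exact SpChar.natDegree_of_palindrome hpal.1 hdh (hpal.coeff_symm hdh))
  rw [hg₀] at hWd
  have hW0 : W.det ≠ 0 := by rw [hWd]; exact mul_ne_zero hne1 hne2
  obtain ⟨w, hw, hsq⟩ : ∃ w : Fin (a + b) → K, (∀ i, w i ≠ 0) ∧ IsSquare (D * (W.det * ∏ i, w i)) := by
    rcases Nat.eq_zero_or_pos (a + b) with h0 | h0
    · refine ⟨fun _ => 1, fun _ => one_ne_zero, ?_⟩
      obtain rfl : a = 0 := by omega
      obtain rfl : b = 0 := by omega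
      rw [pow_zero, pow_zero, one_mul, one_mul] at he
      subst he
      rcases hgood with h | h
      · exact absurd h (mul_ne_zero hne1 hne2)
      · simpa [hWd] using h
    · refine ⟨fun i => if i = ⟨0, h0⟩ then D * W.det else 1, fun i => ?_, ⟨D * W.det, ?_⟩⟩
      · show (if _ then _ else _) ≠ (0 : K)
        split_ifs
        · exact mul_ne_zero hD hW0
        · exact one_ne_zero
      · rw [Finset.prod_ite_eq' Finset.univ (⟨0, h0⟩ : Fin (a + b)) (fun _ => D * W.det), if_pos (Finset.mem_univ _)]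
        ring
  let ε : Fin (a + b) → K := Fin.append (fun _ : Fin a => 1) fun _ : Fin b => -1
  refine ⟨m, a + b, Matrix.fromBlocks W 0 0 (Matrix.diagonal w),
    Matrix.fromBlocks (g₀ : Matrix (Fin m ⊕ Fin m) (Fin m ⊕ Fin m) K) 0 0 (Matrix.diagonal ε), by omega, ?_, ?_, ?_, ?_, ?_⟩
  · rw [Matrix.fromBlocks_transpose, Matrix.transpose_zero, Matrix.transpose_zero, Matrix.diagonal_transpose, hWs]
  · have hεw : ∀ i, ε i * w i * ε i = w i := fun i => by
      refine Fin.addCases (fun j => ?_) (fun j => ?_) i <;> simp [ε]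
    simp [Matrix.fromBlocks_transpose, Matrix.fromBlocks_multiply, hWi, Matrix.diagonal_mul_diagonal, hεw]
  · rw [Matrix.charpoly_fromBlocks_zero₁₂, hg₀, Matrix.charpoly_diagonal, Fin.prod_univ_add, he]
    simp only [ε, Fin.append_left, Fin.append_right, Finset.prod_const, Finset.card_univ, Fintype.card_fin]
    ring
  · rw [Matrix.det_fromBlocks_zero₁₂, Matrix.det_diagonal]
    exact mul_ne_zero hW0 (Finset.prod_ne_zero_iff.2 fun i _ => hw i)
  · rwa [Matrix.det_fromBlocks_zero₁₂, Matrix.det_diagonal]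

variable {V : Type v} [AddCommGroup V] [Module K V] [FiniteDimensional K V]

/-- Admissible palindromes are characteristic polynomials of isometries. -/
theorem exists_isometry [Fintype K] (h2 : (2 : K) ≠ 0) {Q : QuadraticForm K V}
    (hQ : (QuadraticMap.polarBilin Q).Nondegenerate) {ι : Type*} [Fintype ι] [DecidableEq ι] (b : Basis ι K V)
    {f : K[X]} (hf : SpPal.Pal f) (hdim : f.natDegree = finrank K V)
    (hgood : f.eval 1 * f.eval (-1) = 0 ∨
      IsSquare ((H4.gram Q b).det * (f.eval 1 * f.eval (-1)))) :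
    ∃ T : V ≃ₗ[K] V, (∀ v, Q (T v) = Q v) ∧ (T.toLinearMap).charpoly = f := by
  classical
  obtain ⟨m, r, M, g, hmr, hMs, hMi, hgc, hMd, hsq⟩ := exists_model h2 hf (H4.det_gram_ne_zero hQ b) hgood
  obtain ⟨e1, n1⟩ := Lead.nondegenerate_toQuadraticForm h2 hMs hMd
  set Q' := LinearMap.BilinMap.toQuadraticMap (Matrix.toBilin' M) with hQ'
  have hV : finrank K V = finrank K ((Fin m ⊕ Fin m) ⊕ Fin r → K) := by
    rw [← hdim, finrank_pi, Fintype.card_sum, Fintype.card_sum, Fintype.card_fin, Fintype.card_fin]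
    omega
  have hgram : (H4.gram Q' (Pi.basisFun K ((Fin m ⊕ Fin m) ⊕ Fin r))).det =
      (2 : K) ^ Fintype.card ((Fin m ⊕ Fin m) ⊕ Fin r) * M.det := by
    rw [H4.gram_eq_toMatrix, e1]
    have : LinearMap.BilinForm.toMatrix (Pi.basisFun K ((Fin m ⊕ Fin m) ⊕ Fin r))
        (Matrix.toBilin' ((2 : K) • M)) = (2 : K) • M := by
      ext i j
      simp [LinearMap.BilinForm.toMatrix_apply, Matrix.toBilin'_single]
    rw [this, Matrix.det_smul]
  obtain ⟨φ, hφ⟩ := H4.isom_of_disc h2 n1 hQ hV.symm (Pi.basisFun K _) b (by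
    rw [hgram]
    obtain ⟨k, hk⟩ : ∃ k, Fintype.card ((Fin m ⊕ Fin m) ⊕ Fin r) = k + k := by
      obtain ⟨l, hl⟩ := hf.2.1
      exact ⟨l, by rw [Fintype.card_sum, Fintype.card_sum, Fintype.card_fin, Fintype.card_fin]; omega⟩
    obtain ⟨s, hs⟩ := hsq
    exact ⟨(2 : K) ^ k * s, by rw [hk, pow_add]; linear_combination ((2 : K) ^ k) ^ 2 * hs⟩)
  have hgu : IsUnit g.det := isUnit_iff_ne_zero.2 fun h0 => hMd (by
    rw [← hMi, Matrix.det_mul, h0, mul_zero])
  let A : (((Fin m ⊕ Fin m) ⊕ Fin r) → K) ≃ₗ[K] (((Fin m ⊕ Fin m) ⊕ Fin r) → K) :=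
    Matrix.toLinearEquiv' g ((Matrix.isUnit_iff_isUnit_det g).2 hgu).invertible
  have hAl : A.toLinearMap = Matrix.toLin' g := rfl
  have hA : ∀ v, Q' (A v) = Q' v := fun v => by
    simp only [hQ', LinearMap.BilinMap.toQuadraticMap_apply, Matrix.toBilin'_apply']
    show (Matrix.toLin' g v) ⬝ᵥ M.mulVec (Matrix.toLin' g v) = _
    rw [Matrix.toLin'_apply]
    conv_rhs => rw [← hMi, ← Matrix.mulVec_mulVec, ← Matrix.mulVec_mulVec, Matrix.dotProduct_mulVec,
      Matrix.vecMul_transpose]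
  refine ⟨(φ.symm.trans A).trans φ, fun v => ?_, ?_⟩
  · simp only [LinearEquiv.trans_apply]
    rw [hφ, hA, ← hφ, φ.apply_symm_apply]
  · have e : ((φ.symm.trans A).trans φ).toLinearMap = φ.conj A.toLinearMap := LinearMap.ext fun v => by
      simp [LinearEquiv.conj_apply_apply]
    rw [e, LinearEquiv.charpoly_conj, hAl, Matrix.charpoly_toLin', hgc]

/-- The palindrome difference after moving the two middle coefficients. -/
theorem eval_move {n : ℕ} (c : Fin (n + 2) → K) (δ δ' x : K) :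
    (SpChar.palPoly (n + 2) (fun i => c i + if (i : ℕ) = n + 1 then δ else if (i : ℕ) = n then δ' else 0)).eval x =
      (SpChar.palPoly (n + 2) c).eval x + δ * x ^ (n + 2) + δ' * (x ^ (n + 1) + x ^ (n + 3)) := by
  have h : SpChar.palPoly (n + 2) (fun i => c i + if (i : ℕ) = n + 1 then δ else if (i : ℕ) = n then δ' else 0) =
      SpChar.palPoly (n + 2) c + C δ * X ^ (n + 2) + C δ' * (X ^ (n + 1) + X ^ (n + 3)) := by
    refine Polynomial.ext fun i => ?_
    simp only [coeff_add, coeff_C_mul, coeff_X_pow, mul_add]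
    rcases Nat.lt_or_ge (2 * (n + 2)) i with hi | hi
    · rw [coeff_eq_zero_of_natDegree_lt (by rw [(SpChar.palPoly_spec _ _).2.1]; omega),
        coeff_eq_zero_of_natDegree_lt (by rw [(SpChar.palPoly_spec _ _).2.1]; omega),
        if_neg (by omega), if_neg (by omega), if_neg (by omega)]
      ring
    · rw [SpChar.palPoly_coeff _ _ _ hi, SpChar.palPoly_coeff _ _ _ hi]
      by_cases h0 : i = 0 ∨ i = 2 * (n + 2)
      · rw [if_pos h0, if_pos h0, if_neg (by omega), if_neg (by omega), if_neg (by omega)]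
        ring
      · rw [if_neg h0, if_neg h0, dif_pos (by omega), dif_pos (by omega)]
        simp only
        rcases eq_or_ne i (n + 2) with h3 | h3
        · rw [if_pos (by omega), if_pos h3, if_neg (by omega), if_neg (by omega)]
          ring
        · rw [if_neg (by omega), if_neg h3]
          rcases eq_or_ne i (n + 1) with h4 | h4
          · rw [if_pos (by omega), if_pos h4, if_neg (by omega)]
            ring
          · rcases eq_or_ne i (n + 3) with h5 | h5
            · rw [if_pos (by omega), if_neg h4, if_pos h5]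
              ring
            · rw [if_neg (by omega), if_neg h4, if_neg h5]
              ring
  rw [h, eval_add, eval_add, eval_mul, eval_mul, eval_C, eval_C, eval_add, eval_pow, eval_pow, eval_pow, eval_X]

/-- At least half of the palindromes are admissible. -/
theorem card_good [Fintype K] (h2 : (2 : K) ≠ 0) (n : ℕ) (D : K) :
    Fintype.card K ^ (n + 2) ≤ 2 * Nat.card {c : Fin (n + 2) → K //
      (SpChar.palPoly (n + 2) c).eval 1 * (SpChar.palPoly (n + 2) c).eval (-1) = 0 ∨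
        IsSquare (D * ((SpChar.palPoly (n + 2) c).eval 1 * (SpChar.palPoly (n + 2) c).eval (-1)))} := by
  classical
  have hF : ringChar K ≠ 2 := fun h => h2 (by
    have := ringChar.Nat.cast_ringChar (R := K)
    rw [h] at this
    exact_mod_cast this)
  obtain ⟨ν, hν⟩ := FiniteField.exists_nonsquare hF
  set P : (Fin (n + 2) → K) → K[X] := SpChar.palPoly (n + 2) with hP
  set good : (Fin (n + 2) → K) → Prop := fun c =>
    (P c).eval 1 * (P c).eval (-1) = 0 ∨ IsSquare (D * ((P c).eval 1 * (P c).eval (-1))) with hgood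
  let δ : (Fin (n + 2) → K) → K := fun c => (-1) ^ (n + 2) * ((ν - 1) * (P c).eval (-1)) / 2
  let μ : (Fin (n + 2) → K) → Fin (n + 2) → K := fun c i =>
    c i + if (i : ℕ) = n + 1 then δ c else if (i : ℕ) = n then -δ c / 2 else 0
  have hμ : ∀ c, (P (μ c)).eval 1 = (P c).eval 1 ∧ (P (μ c)).eval (-1) = ν * (P c).eval (-1) := by
    intro c
    simp only [hP, μ, eval_move]
    refine ⟨?_, ?_⟩
    · field_simp
      ring
    · have e : ((-1 : K) ^ (n + 1) + (-1) ^ (n + 3)) = -(2 * (-1) ^ (n + 2)) := by ring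
      have hs : ((-1 : K) ^ (n + 2)) * (-1) ^ (n + 2) = 1 := by rw [← pow_add]; exact Even.neg_one_pow ⟨_, rfl⟩
      rw [e]
      simp only [δ, hP]
      field_simp
      linear_combination 2 * (ν - 1) * (SpChar.palPoly (n + 2) c).eval (-1) * hs
  have hmap : ∀ c, ¬ good c → good (μ c) := by
    intro c hc
    simp only [hgood, not_or] at hc
    simp only [hgood]
    rw [(hμ c).1, (hμ c).2]
    refine Or.inr ?_
    have e : D * ((P c).eval 1 * (ν * (P c).eval (-1))) = D * ((P c).eval 1 * (P c).eval (-1)) * ν := by ring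
    rw [e]
    exact H4.isSquare_mul_of_not hc.2 hν
  have hν0 : ν ≠ 0 := fun h => hν ⟨0, by rw [h, mul_zero]⟩
  have hinj : Function.Injective fun c : {c // ¬ good c} => (⟨μ c.1, hmap c.1 c.2⟩ : {c // good c}) := by
    rintro ⟨c, _⟩ ⟨c', _⟩ h
    have h' : μ c = μ c' := congrArg Subtype.val h
    have he : (P c).eval (-1) = (P c').eval (-1) := by
      have := congrArg (fun z => (P z).eval (-1)) h'
      simp only [(hμ c).2, (hμ c').2] at this
      exact mul_left_cancel₀ hν0 this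
    refine Subtype.ext (funext fun i => ?_)
    have := congrFun h' i
    simp only [μ, δ, he] at this
    exact add_right_cancel this
  have h1 := Nat.card_le_card_of_injective _ hinj
  have h3 : Nat.card (Fin (n + 2) → K) = Nat.card {c // good c} + Nat.card {c // ¬ good c} := by
    rw [← Nat.card_sum]; exact Nat.card_congr (Equiv.sumCompl good).symm
  rw [Nat.card_eq_fintype_card, Fintype.card_fun, Fintype.card_fin] at h3
  show _ ≤ 2 * Nat.card {c // good c}
  omega

/-- Half the palindromes give classes. -/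
theorem pow_le_card_classes [Fintype K] (h2 : (2 : K) ≠ 0) {Q : QuadraticForm K V}
    (hQ : (QuadraticMap.polarBilin Q).Nondegenerate) {n : ℕ} (hV : finrank K V = 2 * (n + 2))
    {G : Type*} [Group G] [Finite G] (ρ : G →* Module.End K V)
    (hsurj : ∀ φ : V ≃ₗ[K] V, (∀ x, Q (φ x) = Q x) → ∃ c, ∀ x, ρ c x = φ x) :
    Fintype.card K ^ (n + 2) ≤ 2 * Nat.card (ConjClasses G) := by
  classical
  let b := Module.finBasis K V
  refine (card_good h2 n (H4.gram Q b).det).trans (Nat.mul_le_mul_left 2 ?_)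
  have h := fun c : {c : Fin (n + 2) → K //
      (SpChar.palPoly (n + 2) c).eval 1 * (SpChar.palPoly (n + 2) c).eval (-1) = 0 ∨
        IsSquare ((H4.gram Q b).det * ((SpChar.palPoly (n + 2) c).eval 1 * (SpChar.palPoly (n + 2) c).eval (-1)))} =>
    exists_isometry h2 hQ b (f := SpChar.palPoly (n + 2) c.1)
      (by
        obtain ⟨hm, hd, hp⟩ := SpChar.palPoly_spec (n + 2) c.1
        refine ⟨hm, by rw [hd]; exact even_two_mul _, Polynomial.ext fun i => ?_⟩
        rw [coeff_reverse, hd]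
        rcases Nat.lt_or_ge (2 * (n + 2)) i with hi | hi
        · rw [revAt_eq_self_of_lt hi]
        · rw [revAt_le hi, hp i hi])
      ((SpChar.palPoly_spec (n + 2) c.1).2.1.trans hV.symm) c.2
  choose T hTQ hTc using h
  choose g hg using fun c => hsurj (T c) (hTQ c)
  refine Nat.card_le_card_of_injective (fun c => ConjClasses.mk (g c)) fun c c' hcc => ?_
  obtain ⟨w, hw⟩ := isConj_iff.1 (ConjClasses.mk_eq_mk_iff_isConj.1 hcc)
  refine Subtype.ext (SpChar.palPoly_injective (n + 2) ?_)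
  have e : ∀ c, ρ (g c) = (T c).toLinearMap := fun c => LinearMap.ext (hg c)
  rw [← hTc c, ← hTc c', ← e, ← e, ← hw, map_mul, map_mul]
  have hinv : ∀ a a' : G, a * a' = 1 → ∀ x, ρ a (ρ a' x) = x := fun a a' h x => by
    rw [← Module.End.mul_apply, ← map_mul, h, map_one, Module.End.one_apply]
  let E : V ≃ₗ[K] V := LinearEquiv.ofLinearMap (ρ w) (ρ w⁻¹) (LinearMap.ext (hinv _ _ (mul_inv_cancel w)))
    (LinearMap.ext (hinv _ _ (inv_mul_cancel w)))
  have hE : ρ w * ρ (g c) * ρ w⁻¹ = E.conj (ρ (g c)) := LinearMap.ext fun x => rfl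
  rw [hE, LinearEquiv.charpoly_conj]

end Cfsg.Agent.H66.OrthChar
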