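/-
Counting the tuples that parametrise orthogonal classes in even dimension.
-/
import Cfsg.Agent.H66.SpTupleBound

set_option autoImplicit false

namespace Cfsg.Agent.H66.OrthTuple

universe u

open SpTuple (marks low low_ge)

variable {K : Type u} [Fintype K]

/-- The total weight of the marks, carried by the odd sizes. -/
def mw {M : ℕ} (b : Fin M → Fin 4 → Bool) : ℕ := ∑ i : Fin M, (2 * (i : ℕ) + 1) * marks (b i)

/-- Shapes: half degrees and marks at odd sizes, of total weight `2 * n`. -/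
abbrev Shape (N M n : ℕ) : Type :=
  {x : (Fin (N + 1) → Fin (n + 1)) × (Fin M → Fin 4 → Bool) //
    2 * ∑ j : Fin (N + 1), ((j : ℕ) + 1) * (x.1 j : ℕ) + mw x.2 = 2 * n}

/-- Tuples of coefficient vectors and marks. -/
abbrev Data (K : Type u) (N M n : ℕ) : Type u :=
  Σ x : Shape N M n, ∀ j : Fin (N + 1), Fin (x.1.1 j : ℕ) → K

/-- An upper estimate for `3 ^ (-1/2)`. -/
def rt : ℚ := 5774 / 10000

/-- `∏ (1 + rt ^ (2 i + 1))`. -/
def hp (M : ℕ) : ℚ := ∏ i ∈ Finset.range M, (1 + rt ^ (2 * i + 1))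

/-- `∏ (1 - rt ^ (2 i + 1))`. -/
def hm (M : ℕ) : ℚ := ∏ i ∈ Finset.range M, (1 - rt ^ (2 * i + 1))

theorem sum_mw (M : ℕ) (z : ℚ) :
    ∑ b : Fin M → Fin 4 → Bool, z ^ mw b = (∏ i ∈ Finset.range M, (1 + z ^ (2 * i + 1))) ^ 4 := by
  classical
  simp only [mw, ← Finset.prod_pow_eq_pow_sum, pow_mul]
  rw [← Fintype.prod_sum (fun (i : Fin M) (b : Fin 4 → Bool) => (z ^ (2 * (i : ℕ) + 1)) ^ marks b)]
  simp only [SpTuple.sum_marks]
  rw [← Finset.prod_pow, Fin.prod_univ_eq_prod_range (fun i => (1 + z ^ (2 * i + 1)) ^ 4)]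

/-- The weighted count. -/
theorem card_data_le (hq : 3 ≤ Fintype.card K) (N M n : ℕ) :
    (Nat.card (Data K N M n) : ℚ) ≤ (Fintype.card K : ℚ) ^ n *
      ((∏ j : Fin N, ∑ k : Fin (n + 1), ((1 / 3 : ℚ) ^ ((j : ℕ) + 1)) ^ (k : ℕ)) *
        ((hp M ^ 4 + hm M ^ 4) / 2)) := by
  classical
  set q : ℕ := Fintype.card K with hqdef
  set r : ℚ := 1 / 3 with hr
  have hrt : r ≤ rt ^ 2 := by norm_num [hr, rt]
  have hrt0 : (0 : ℚ) ≤ rt := by norm_num [rt]
  let w : (Fin N → Fin (n + 1)) × (Fin M → Fin 4 → Bool) → ℚ := fun y =>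
    (∏ j : Fin N, (r ^ ((j : ℕ) + 1)) ^ (y.1 j : ℕ)) * ((rt ^ mw y.2 + (-rt) ^ mw y.2) / 2)
  have hw0 : ∀ y, 0 ≤ w y := fun y => by
    refine mul_nonneg (Finset.prod_nonneg fun j _ => by positivity) ?_
    rcases Nat.even_or_odd (mw y.2) with h | h
    · rw [h.neg_pow]; positivity
    · rw [h.neg_pow, add_neg_cancel, zero_div]
  let φ : Shape N M n → (Fin N → Fin (n + 1)) × (Fin M → Fin 4 → Bool) :=
    fun x => (fun j => x.1.1 j.succ, x.1.2)
  have hφ : Function.Injective φ := by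
    rintro ⟨⟨k, b⟩, hx⟩ ⟨⟨k', b'⟩, hx'⟩ h
    have hk : ∀ j : Fin N, k j.succ = k' j.succ := fun j => congrFun (congrArg Prod.fst h) j
    have hb : b = b' := congrArg Prod.snd h
    subst hb
    dsimp only at hx hx'
    simp only [Fin.sum_univ_succ, hk] at hx hx'
    simp only [Fin.val_zero, zero_add, one_mul] at hx hx'
    refine Subtype.ext (Prod.ext (funext fun j => ?_) rfl)
    show k j = k' j
    refine Fin.cases ?_ hk j
    exact Fin.ext (by omega)
  have hterm : ∀ x : Shape N M n, ((∏ j, q ^ (x.1.1 j : ℕ) : ℕ) : ℚ) ≤ (q : ℚ) ^ n * w (φ x) := by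
    rintro ⟨⟨k, b⟩, hx⟩
    dsimp only at hx ⊢
    obtain ⟨m, hm2⟩ : ∃ m, mw b = 2 * m := ⟨n - ∑ j : Fin (N + 1), ((j : ℕ) + 1) * (k j : ℕ), by omega⟩
    set E : ℕ := ∑ j : Fin N, ((j : ℕ) + 1) * (k j.succ : ℕ) with hE
    have hsplit : n = (∑ j, (k j : ℕ)) + (E + m) := by
      have : ∑ j : Fin N, ((j : ℕ) + 1 + 1) * (k j.succ : ℕ) =
          (∑ j : Fin N, (k j.succ : ℕ)) + E := by
        rw [hE, ← Finset.sum_add_distrib]
        exact Finset.sum_congr rfl fun j _ => by ring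
      rw [Fin.sum_univ_succ] at hx ⊢
      simp only [Fin.val_zero, zero_add, one_mul, Fin.val_succ] at hx
      omega
    have hw : w (φ ⟨(k, b), hx⟩) = r ^ E * (rt ^ 2) ^ m := by
      simp only [w, φ, ← pow_mul, Finset.prod_pow_eq_pow_sum, hE, hm2]
      rw [(even_two_mul m).neg_pow]
      ring
    rw [hw, Finset.prod_pow_eq_pow_sum, Nat.cast_pow]
    have h1 : r ^ (E + m) ≤ r ^ E * (rt ^ 2) ^ m := by
      rw [pow_add]
      exact mul_le_mul_of_nonneg_left (pow_le_pow_left₀ (by norm_num [hr]) hrt m) (by positivity)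
    refine le_trans ?_ (mul_le_mul_of_nonneg_left h1 (by positivity))
    conv_rhs => rw [hsplit, pow_add, mul_assoc, ← mul_pow]
    refine le_mul_of_one_le_right (by positivity) (one_le_pow₀ ?_)
    rw [hr]
    have : (3 : ℚ) ≤ q := by exact_mod_cast hq
    linarith
  calc (Nat.card (Data K N M n) : ℚ)
      = ∑ x : Shape N M n, ((∏ j, q ^ (x.1.1 j : ℕ) : ℕ) : ℚ) := by
        rw [Nat.card_sigma, Nat.cast_sum]
        refine Finset.sum_congr rfl fun x _ => ?_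
        rw [Nat.card_pi]
        simp [hqdef, Nat.card_eq_fintype_card]
    _ ≤ ∑ x : Shape N M n, (q : ℚ) ^ n * w (φ x) := Finset.sum_le_sum fun x _ => hterm x
    _ = (q : ℚ) ^ n * ∑ y ∈ Finset.univ.image φ, w y := by
        rw [Finset.sum_image fun a _ b _ h => hφ h, Finset.mul_sum]
    _ ≤ (q : ℚ) ^ n * ∑ y, w y := mul_le_mul_of_nonneg_left
        (Finset.sum_le_sum_of_subset_of_nonneg (Finset.subset_univ _) fun y _ _ => hw0 y) (by positivity)
    _ = _ := by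
        congr 1
        rw [Fintype.sum_prod_type]
        simp only [w, ← Finset.mul_sum, ← Finset.sum_mul]
        rw [← Fintype.prod_sum (fun (j : Fin N) (k : Fin (n + 1)) => (r ^ ((j : ℕ) + 1)) ^ (k : ℕ)),
          ← Finset.sum_div, Finset.sum_add_distrib, sum_mw, sum_mw]
        have he : ∀ i : ℕ, (1 : ℚ) + (-rt) ^ (2 * i + 1) = 1 - rt ^ (2 * i + 1) := fun i => by
          rw [Odd.neg_pow ⟨i, rfl⟩]; ring
        simp only [he]
        rfl

theorem marks_part_le : ∀ M, (hp M ^ 4 + hm M ^ 4) / 2 ≤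
    ((hp 6 + (9 / 5) * rt ^ 12) ^ 4 + hm 6 ^ 4) / 2 := by
  have hbig : ∀ s, hp (6 + s) ≤ hp 6 + (9 / 5) * rt ^ 12 - (9 / 5) * rt ^ (2 * (6 + s)) ∧
      0 ≤ hm (6 + s) ∧ hm (6 + s) ≤ hm 6 := by
    intro s
    induction s with
    | zero => norm_num [hp, hm, rt, Finset.prod_range_succ]
    | succ s ih =>
      obtain ⟨h1, h2, h3⟩ := ih
      have hB : hp 6 + (9 / 5) * rt ^ 12 ≤ 207 / 100 := by norm_num [hp, rt, Finset.prod_range_succ]
      have hv : (0 : ℚ) < rt ^ (2 * (6 + s)) := pow_pos (by norm_num [rt]) _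
      have hv1 : rt ^ (2 * (6 + s)) ≤ 1 := pow_le_one₀ (by norm_num [rt]) (by norm_num [rt])
      have e1 : hp (6 + (s + 1)) = hp (6 + s) * (1 + rt ^ (2 * (6 + s)) * rt) := by
        rw [← Nat.add_assoc, hp, Finset.prod_range_succ, ← hp, pow_succ]
      have e2 : hm (6 + (s + 1)) = hm (6 + s) * (1 - rt ^ (2 * (6 + s)) * rt) := by
        rw [← Nat.add_assoc, hm, Finset.prod_range_succ, ← hm, pow_succ]
      have e3 : rt ^ (2 * (6 + (s + 1))) = rt ^ (2 * (6 + s)) * rt * rt := by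
        rw [show 2 * (6 + (s + 1)) = 2 * (6 + s) + 1 + 1 by ring, pow_succ, pow_succ]
      rw [e1, e2, e3]
      generalize rt ^ (2 * (6 + s)) = V at *
      generalize hp 6 + (9 / 5) * rt ^ 12 = B at *
      simp only [rt]
      exact ⟨by nlinarith, mul_nonneg h2 (by nlinarith), by nlinarith⟩
  intro M
  rcases Nat.lt_or_ge M 6 with h | h
  · interval_cases M <;> norm_num [hp, hm, rt, Finset.prod_range_succ]
  · obtain ⟨s, rfl⟩ := Nat.exists_eq_add_of_le h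
    obtain ⟨h1, h2, h3⟩ := hbig s
    have h0 : 0 ≤ hp (6 + s) := Finset.prod_nonneg fun i _ => by
      have : (0 : ℚ) ≤ rt ^ (2 * i + 1) := pow_nonneg (by norm_num [rt]) _
      linarith
    have hv : (0 : ℚ) ≤ rt ^ (2 * (6 + s)) := pow_nonneg (by norm_num [rt]) _
    have e1 := pow_le_pow_left₀ h0 (show hp (6 + s) ≤ hp 6 + (9 / 5) * rt ^ 12 by linarith) 4
    have e2 := pow_le_pow_left₀ h2 h3 4
    linarith

/-- The numerical bound. -/
theorem card_data_le_const (hq : 3 ≤ Fintype.card K) (N M n : ℕ) :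
    Nat.card (Data K N M n) + Nat.card (Data K N 0 n) ≤ 19 * Fintype.card K ^ n := by
  have h1 := card_data_le (K := K) hq N M n
  have h0 := card_data_le (K := K) hq N 0 n
  have hA0 : (0 : ℚ) < low 7 - (1 / 2) * (1 / 3 : ℚ) ^ 7 := by norm_num [low, Finset.prod_range_succ]
  have hlow : (0 : ℚ) < low N := lt_of_lt_of_le hA0 (low_ge N)
  have hsum : ∏ j : Fin N, ∑ k : Fin (n + 1), ((1 / 3 : ℚ) ^ ((j : ℕ) + 1)) ^ (k : ℕ) ≤ 1 / low N := by
    rw [le_div_iff₀ hlow, low, ← Fin.prod_univ_eq_prod_range (fun j => (1 - (1 / 3 : ℚ) ^ (j + 1))),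
      ← Finset.prod_mul_distrib]
    refine Finset.prod_le_one (fun j _ => mul_nonneg (Finset.sum_nonneg fun k _ => by positivity) ?_) fun j _ => ?_
    · have : (1 / 3 : ℚ) ^ ((j : ℕ) + 1) ≤ 1 := pow_le_one₀ (by norm_num) (by norm_num)
      linarith
    rw [Fin.sum_univ_eq_sum_range (fun k => ((1 / 3 : ℚ) ^ ((j : ℕ) + 1)) ^ k), geom_sum_mul_neg]
    have : (0 : ℚ) ≤ ((1 / 3 : ℚ) ^ ((j : ℕ) + 1)) ^ (n + 1) := by positivity
    linarith
  set S := ∏ j : Fin N, ∑ k : Fin (n + 1), ((1 / 3 : ℚ) ^ ((j : ℕ) + 1)) ^ (k : ℕ)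
  have hl : 1 / low N ≤ 1 / (low 7 - (1 / 2) * (1 / 3 : ℚ) ^ 7) := one_div_le_one_div_of_le hA0 (low_ge N)
  have hnum : 1 / (low 7 - (1 / 2) * (1 / 3 : ℚ) ^ 7) *
      (((hp 6 + (9 / 5) * rt ^ 12) ^ 4 + hm 6 ^ 4) / 2 + 1) ≤ 19 := by
    norm_num [low, hp, hm, rt, Finset.prod_range_succ]
  have hS0 : 0 ≤ S := Finset.prod_nonneg fun j _ => Finset.sum_nonneg fun k _ => by positivity
  have hz : (hp 0 ^ 4 + hm 0 ^ 4) / 2 = 1 := by norm_num [hp, hm]
  rw [hz] at h0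
  have hq0 : (0 : ℚ) ≤ (Fintype.card K : ℚ) ^ n := by positivity
  have hmp := marks_part_le M
  have hm0 : 0 ≤ (hp M ^ 4 + hm M ^ 4) / 2 := by
    have := Even.pow_nonneg (show Even 4 by decide) (hp M)
    have := Even.pow_nonneg (show Even 4 by decide) (hm M)
    positivity
  have hfin : (Nat.card (Data K N M n) : ℚ) + Nat.card (Data K N 0 n) ≤ (Fintype.card K : ℚ) ^ n * 19 := by
    refine le_trans (add_le_add h1 h0) ?_
    rw [← mul_add, ← mul_add]
    exact mul_le_mul_of_nonneg_left ((mul_le_mul (hsum.trans hl) (add_le_add hmp le_rfl) (by linarith)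
      (by positivity)).trans hnum) hq0
  have : ((Nat.card (Data K N M n) + Nat.card (Data K N 0 n) : ℕ) : ℚ) ≤ ((19 * Fintype.card K ^ n : ℕ) : ℚ) := by
    push_cast
    linarith
  exact_mod_cast this

end Cfsg.Agent.H66.OrthTuple
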