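/-
Classes of orthogonal groups in even dimension, odd characteristic, inject into tuples with marks.
-/
import Cfsg.Agent.H66.SelfDualData
import Cfsg.Agent.H66.OrthDisc
import Cfsg.Agent.H66.OrthTupleBound

set_option autoImplicit false

open Polynomial Module UniqueFactorizationMonoid
open LinearMap (BilinForm)
open Cfsg.Agent.H66.SpData (mult rest enc enc_spec enc_inj enc_true_of_even palPart prod_eq_split marks_vec)

namespace Cfsg.Agent.H66.OrthData

universe u v w

variable {K : Type u} [Field K]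
variable {V : Type v} [AddCommGroup V] [Module K V] [FiniteDimensional K V]

theorem hasPlus_iff {T : Module.End K V} {ι : Type u} [Fintype ι] {p : ι → K[X]} {e : ι → ℕ}
    (hf : IsDecomp T p e) (s : ℕ) : SpSplit.hasPlus T s ↔ mult p e 1 s ≠ 0 := by
  rw [← card_blocks_eq (SpSplit.fixEnd T) (SpSplit.fixEnd_isNilpotent T) hf 1 (hker_plus T) s,
    Finset.card_ne_zero, Finset.filter_nonempty_iff]
  exact ⟨fun ⟨a, ha⟩ => ⟨a, Finset.mem_univ _, ha⟩, fun ⟨a, _, ha⟩ => ⟨a, ha⟩⟩

theorem hasMinus_iff (h2 : (2 : K) ≠ 0) {T : Module.End K V} {ι : Type u} [Fintype ι] {p : ι → K[X]}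
    {e : ι → ℕ} (hf : IsDecomp T p e) (s : ℕ) : SpSplit.hasMinus T s ↔ mult p e (-1) s ≠ 0 := by
  rw [← card_blocks_eq _ (SpSplit.fixEnd_isNilpotent (-SpSplit.movEnd T)) hf (-1) (SpData.hker_minus_aux h2 T) s,
    Finset.card_ne_zero, Finset.filter_nonempty_iff]
  exact ⟨fun ⟨a, ha⟩ => ⟨a, Finset.mem_univ _, ha⟩, fun ⟨a, _, ha⟩ => ⟨a, ha⟩⟩

theorem even_mults {B : BilinForm K V} {T : Module.End K V} (h2 : (2 : K) ≠ 0) (h : OrthSplit.IsOSys B T)
    {ι : Type u} [Fintype ι] {p : ι → K[X]} {e : ι → ℕ} (hf : IsDecomp T p e) {s : ℕ} (hs : Even s) :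
    Even (mult p e 1 s) ∧ Even (mult p e (-1) s) := by
  rw [← card_blocks_eq (SpSplit.fixEnd T) (SpSplit.fixEnd_isNilpotent T) hf 1 (hker_plus T) s,
    ← card_blocks_eq _ (SpSplit.fixEnd_isNilpotent (-SpSplit.movEnd T)) hf (-1) (SpData.hker_minus_aux h2 T) s]
  exact ⟨even_blocks h2 h.fix (SpSplit.fixEnd_isNilpotent _) hs,
    even_blocks h2 h.mov.neg.fix (SpSplit.fixEnd_isNilpotent _) hs⟩

/-- What two equal codes share. -/
def SameData {ι ι' : Type u} [Fintype ι] [Fintype ι'] (p : ι → K[X]) (e : ι → ℕ) (p' : ι' → K[X])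
    (e' : ι' → ℕ) : Prop :=
  ∀ Q s, decompCount p e Q s = decompCount p' e' Q s

/-- A code for an isometry with a sign at each odd size at each of the eigenvalues `1` and `-1`. -/
theorem exists_code [Fintype K] (h2 : (2 : K) ≠ 0) {B : BilinForm K V} {n : ℕ}
    (hV : finrank K V = 2 * (n + 1)) :
    ∃ D : {T : Module.End K V // OrthSplit.IsOSys B T} → (ℕ → Bool) → (ℕ → Bool) →
        OrthTuple.Data K (2 * n + 1) (n + 1) (n + 1),
    ∃ D₀ : {T : Module.End K V // OrthSplit.IsOSys B T} → OrthTuple.Data K (2 * n + 1) 0 (n + 1),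
      (∀ T T' σ σ' τ τ', D T σ σ' = D T' τ τ' →
        (∃ L : V ≃ₗ[K] V, ∀ x, L (T.1 x) = T'.1 (L x)) ∧
        (∀ s, Odd s → SpSplit.hasPlus T.1 s → σ s = τ s) ∧
        (∀ s, Odd s → SpSplit.hasMinus T.1 s → σ' s = τ' s)) ∧
      ∀ T T', (∀ s, Odd s → ¬ SpSplit.hasPlus T.1 s ∧ ¬ SpSplit.hasMinus T.1 s) →
        (∀ s, Odd s → ¬ SpSplit.hasPlus T'.1 s ∧ ¬ SpSplit.hasMinus T'.1 s) → D₀ T = D₀ T' →
        D T (fun _ => true) (fun _ => true) = D T' (fun _ => true) (fun _ => true) := by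
  classical
  have hdata : ∀ T : {T : Module.End K V // OrthSplit.IsOSys B T},
      ∃ (ι : Type u) (_ : Fintype ι) (p : ι → K[X]) (e : ι → ℕ), IsDecomp T.1 p e :=
    fun T => exists_isDecomp _
  choose ι hι p e hdec using hdata
  let E1 : {T : Module.End K V // OrthSplit.IsOSys B T} → (ℕ → Bool) → ℕ → ℕ × Bool × Bool :=
    fun g σ s => enc (mult (p g) (e g) 1 s) (if Even s then true else σ s)
  let E2 : {T : Module.End K V // OrthSplit.IsOSys B T} → (ℕ → Bool) → ℕ → ℕ × Bool × Bool :=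
    fun g σ s => enc (mult (p g) (e g) (-1) s) (if Even s then true else σ s)
  let P : {T : Module.End K V // OrthSplit.IsOSys B T} → (ℕ → Bool) → (ℕ → Bool) → ℕ → K[X] :=
    fun g σ σ' s => palPart (p g) (e g) (if Even s then true else σ s) (if Even s then true else σ' s) s
  have heven : ∀ g σ σ' s, Even s → (E1 g σ s).2 = (false, false) ∧ (E2 g σ' s).2 = (false, false) := by
    intro g σ σ' s hs
    obtain ⟨h1, h3⟩ := even_mults h2 g.2 (hdec g) hs
    simp only [E1, E2, if_pos hs, enc_true_of_even h1, enc_true_of_even h3, and_self]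
  let β : {T : Module.End K V // OrthSplit.IsOSys B T} → (ℕ → Bool) → (ℕ → Bool) → ℕ → ℕ := fun g σ σ' s =>
    (E1 g σ s).2.1.toNat + (E1 g σ s).2.2.toNat + ((E2 g σ' s).2.1.toNat + (E2 g σ' s).2.2.toNat)
  have hdeg : ∀ g σ σ' s, (∏ i with e g i = s, p g i).natDegree = (P g σ σ' s).natDegree + β g σ σ' s := by
    intro g σ σ' s
    rw [natDegree_prod_split h2 (hdec g), palPart_natDegree (hdec g)]
    have a1 := enc_spec (mult (p g) (e g) 1 s) (if Even s then true else σ s)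
    have a2 := enc_spec (mult (p g) (e g) (-1) s) (if Even s then true else σ' s)
    simp only [β, E1, E2]
    omega
  have hlevel : ∀ g i, e g i ≤ 2 * n + 1 + 1 := fun g i => by
    have h1 : e g i * (p g i).natDegree ≤ 2 * (n + 1) := by
      rw [← hV, ← degree_sum (hdec g)]
      exact Finset.single_le_sum (f := fun i => e g i * (p g i).natDegree) (fun i _ => Nat.zero_le _) (Finset.mem_univ i)
    have h3 := Nat.le_mul_of_pos_right (e g i) ((hdec g).irreducible i).natDegree_pos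
    omega
  have htot : ∀ g σ σ', ∑ j : Fin (2 * n + 1 + 1), ((j : ℕ) + 1) *
      ((P g σ σ' (j + 1)).natDegree + β g σ σ' (j + 1)) = 2 * (n + 1) := by
    intro g σ σ'
    rw [← hV, ← degree_sum (hdec g)]
    have hmaps : ∀ i ∈ (Finset.univ : Finset (ι g)),
        (⟨e g i - 1, by have := hlevel g i; have := (hdec g).pos i; omega⟩ : Fin (2 * n + 1 + 1)) ∈
          (Finset.univ : Finset (Fin (2 * n + 1 + 1))) := fun i _ => Finset.mem_univ _
    rw [← Finset.sum_fiberwise_of_maps_to hmaps fun i => e g i * (p g i).natDegree]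
    refine Finset.sum_congr rfl fun j _ => ?_
    rw [← hdeg, natDegree_prod_of_monic _ _ fun i _ => (hdec g).monic i, Finset.mul_sum]
    refine Finset.sum_congr (Finset.filter_congr fun i _ => ?_) fun i hi => ?_
    · have := (hdec g).pos i
      rw [Fin.ext_iff]
      show _ ↔ e g i - 1 = (j : ℕ)
      omega
    · have := (hdec g).pos i
      have h3 : e g i - 1 = (j : ℕ) := congrArg Fin.val (Finset.mem_filter.1 hi).2
      rw [show e g i = (j : ℕ) + 1 by omega]
  have hpeven : ∀ g σ σ' s, ∃ k, (P g σ σ' s).natDegree = 2 * k := fun g σ σ' s => by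
    obtain ⟨k, hk⟩ := (palPart_pal h2 g.2 (hdec g) (if Even s then true else σ s)
      (if Even s then true else σ' s) s).2.1
    exact ⟨k, by show (palPart (p g) (e g) _ _ s).natDegree = 2 * k; omega⟩
  choose k hk using hpeven
  let mk4 : {T : Module.End K V // OrthSplit.IsOSys B T} → (ℕ → Bool) → (ℕ → Bool) → ℕ → Fin 4 → Bool :=
    fun g σ σ' s => ![(E1 g σ s).2.1, (E1 g σ s).2.2, (E2 g σ' s).2.1, (E2 g σ' s).2.2]
  have hmarks : ∀ g σ σ' s, SpTuple.marks (mk4 g σ σ' s) = β g σ σ' s := fun g σ σ' s => marks_vec _ _ _ _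
  have hsum : ∀ g σ σ', 2 * ∑ j : Fin (2 * n + 1 + 1), ((j : ℕ) + 1) * k g σ σ' ((j : ℕ) + 1) +
      ∑ i : Fin (n + 1), (2 * (i : ℕ) + 1) * β g σ σ' (2 * (i : ℕ) + 1) = 2 * (n + 1) := by
    intro g σ σ'
    have h := htot g σ σ'
    simp only [mul_add, Finset.sum_add_distrib, hk] at h
    have hβ : ∑ i : Fin (n + 1), (2 * (i : ℕ) + 1) * β g σ σ' (2 * (i : ℕ) + 1) =
        ∑ j : Fin (2 * n + 1 + 1), ((j : ℕ) + 1) * β g σ σ' ((j : ℕ) + 1) := by
      refine Fintype.sum_of_injective (fun i : Fin (n + 1) => (⟨2 * (i : ℕ), by omega⟩ : Fin (2 * n + 1 + 1)))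
        (fun a b hab => by
          have := congrArg Fin.val hab
          simp only at this
          exact Fin.ext (by omega)) _ _ (fun j hj => ?_) (fun i => rfl)
      have hje : Even ((j : ℕ) + 1) := by
        by_contra hne
        rw [Nat.not_even_iff_odd] at hne
        obtain ⟨t, ht⟩ := hne
        exact hj ⟨⟨t, by omega⟩, Fin.ext (by simp only; omega)⟩
      have := heven g σ σ' _ hje
      simp only [β, this.1, this.2, Bool.toNat_false, add_zero, mul_zero]
    have h4 : ∑ j : Fin (2 * n + 1 + 1), ((j : ℕ) + 1) * (2 * k g σ σ' ((j : ℕ) + 1)) =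
        2 * ∑ j : Fin (2 * n + 1 + 1), ((j : ℕ) + 1) * k g σ σ' ((j : ℕ) + 1) := by
      rw [Finset.mul_sum]
      exact Finset.sum_congr rfl fun j _ => by ring
    omega
  have hkle : ∀ g σ σ' (j : Fin (2 * n + 1 + 1)), k g σ σ' ((j : ℕ) + 1) < n + 1 + 1 := fun g σ σ' j => by
    have h := hsum g σ σ'
    have h1 : ((j : ℕ) + 1) * k g σ σ' ((j : ℕ) + 1) ≤ n + 1 := le_trans
      (Finset.single_le_sum (f := fun j : Fin (2 * n + 1 + 1) => ((j : ℕ) + 1) * k g σ σ' ((j : ℕ) + 1))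
        (fun i _ => Nat.zero_le _) (Finset.mem_univ j)) (by omega)
    have h3 := Nat.le_mul_of_pos_left (k g σ σ' ((j : ℕ) + 1)) (show 0 < (j : ℕ) + 1 by omega)
    omega
  let D : {T : Module.End K V // OrthSplit.IsOSys B T} → (ℕ → Bool) → (ℕ → Bool) →
      OrthTuple.Data K (2 * n + 1) (n + 1) (n + 1) := fun g σ σ' =>
    ⟨⟨(fun j => ⟨k g σ σ' ((j : ℕ) + 1), hkle g σ σ' j⟩, fun i => mk4 g σ σ' (2 * (i : ℕ) + 1)), by
      simp only [OrthTuple.mw, hmarks]
      exact hsum g σ σ'⟩, fun j t => (P g σ σ' ((j : ℕ) + 1)).coeff ((t : ℕ) + 1)⟩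
  have hz : ∀ g, (∀ s, Odd s → ¬ SpSplit.hasPlus g.1 s ∧ ¬ SpSplit.hasMinus g.1 s) → ∀ s,
      (E1 g (fun _ => true) s).2 = (false, false) ∧ (E2 g (fun _ => true) s).2 = (false, false) := by
    intro g hg s
    rcases Nat.even_or_odd s with he | ho
    · exact heven g (fun _ => true) (fun _ => true) s he
    · have h1 := not_not.1 (fun hc => (hg s ho).1 ((hasPlus_iff (hdec g) s).2 hc))
      have h3 := not_not.1 (fun hc => (hg s ho).2 ((hasMinus_iff h2 (hdec g) s).2 hc))
      simp only [E1, E2, h1, h3]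
      simp [enc]
  have hclean : ∀ g, (∀ s, Odd s → ¬ SpSplit.hasPlus g.1 s ∧ ¬ SpSplit.hasMinus g.1 s) →
      ∀ s, mk4 g (fun _ => true) (fun _ => true) s = fun _ => false := by
    intro g hg s
    funext l
    simp only [mk4, (hz g hg s).1, (hz g hg s).2]
    fin_cases l <;> rfl
  let D₀ : {T : Module.End K V // OrthSplit.IsOSys B T} → OrthTuple.Data K (2 * n + 1) 0 (n + 1) := fun g =>
    if hg : ∀ s, Odd s → ¬ SpSplit.hasPlus g.1 s ∧ ¬ SpSplit.hasMinus g.1 s then
      ⟨⟨((D g (fun _ => true) (fun _ => true)).1.1.1, Fin.elim0), by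
        have h := hsum g (fun _ => true) (fun _ => true)
        have hb : ∀ i : Fin (n + 1), β g (fun _ => true) (fun _ => true) (2 * (i : ℕ) + 1) = 0 := fun i => by
          simp only [β, (hz g hg _).1, (hz g hg _).2, Bool.toNat_false, add_zero]
        simp only [hb, mul_zero, Finset.sum_const_zero, add_zero] at h
        simpa [OrthTuple.mw, D] using h⟩, (D g (fun _ => true) (fun _ => true)).2⟩
    else ⟨⟨(fun j => if j = 0 then Fin.last _ else 0, Fin.elim0), by
      simp [OrthTuple.mw, Fin.sum_univ_succ]⟩, fun _ _ => 0⟩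
  refine ⟨D, D₀, fun g g' σ σ' τ τ' hD => ?_, fun g g' hg hg' h => ?_⟩
  · have hrec : ∀ g σ σ' (j : Fin (2 * n + 1 + 1)), P g σ σ' ((j : ℕ) + 1) =
        SpChar.palPoly (((D g σ σ').1.1.1 j : ℕ)) ((D g σ σ').2 j) := by
      intro g σ σ' j
      have hP := palPart_pal h2 g.2 (hdec g) (if Even ((j : ℕ) + 1) then true else σ ((j : ℕ) + 1))
        (if Even ((j : ℕ) + 1) then true else σ' ((j : ℕ) + 1)) ((j : ℕ) + 1)
      set m := k g σ σ' ((j : ℕ) + 1) with hm
      have hd : (P g σ σ' ((j : ℕ) + 1)).natDegree = 2 * m := hk g σ σ' _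
      have htop : (P g σ σ' ((j : ℕ) + 1)).coeff (2 * m) = 1 := by rw [← hd]; exact hP.1.coeff_natDegree
      show P g σ σ' ((j : ℕ) + 1) =
        SpChar.palPoly m fun t : Fin m => (P g σ σ' ((j : ℕ) + 1)).coeff ((t : ℕ) + 1)
      refine Polynomial.ext fun i => ?_
      rcases Nat.lt_or_ge (2 * m) i with hi | hi
      · rw [coeff_eq_zero_of_natDegree_lt (by omega),
          coeff_eq_zero_of_natDegree_lt (by rw [(SpChar.palPoly_spec m _).2.1]; omega)]
      · rw [SpChar.palPoly_coeff _ _ _ hi]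
        by_cases h0 : i = 0 ∨ i = 2 * m
        · rw [if_pos h0]
          rcases h0 with rfl | rfl
          · have := hP.coeff_symm hd 0 (Nat.zero_le _)
            rw [Nat.sub_zero, htop] at this
            exact this.symm
          · exact htop
        · rw [if_neg h0, dif_pos (by omega)]
          show _ = (P g σ σ' ((j : ℕ) + 1)).coeff (min i (2 * m - i) - 1 + 1)
          rcases Nat.le_total i (2 * m - i) with hle | hle
          · rw [min_eq_left hle, show i - 1 + 1 = i by omega]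
          · rw [min_eq_right hle, show 2 * m - i - 1 + 1 = 2 * m - i by omega]
            exact (hP.coeff_symm hd i hi).symm
    have hE : ∀ s, 1 ≤ s → s ≤ 2 * n + 1 + 1 →
        E1 g σ s = E1 g' τ s ∧ E2 g σ' s = E2 g' τ' s ∧ rest (p g) (e g) s = rest (p g') (e g') s := by
      intro s hs hs'
      obtain ⟨h1, h3, h4⟩ := palPart_inj h2 (hdec g) (hdec g')
        (show palPart _ _ (if Even s then true else σ s) (if Even s then true else σ' s) s =
          palPart _ _ (if Even s then true else τ s) (if Even s then true else τ' s) s by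
        have := hrec g σ σ' ⟨s - 1, by omega⟩
        rw [hD, ← hrec g' τ τ' ⟨s - 1, by omega⟩] at this
        simpa only [P, Nat.sub_add_cancel hs] using this)
      rcases Nat.even_or_odd s with he | ho
      · exact ⟨Prod.ext h1 ((heven g σ σ' s he).1.trans (heven g' τ τ' s he).1.symm),
          Prod.ext h3 ((heven g σ σ' s he).2.trans (heven g' τ τ' s he).2.symm), h4⟩
      · obtain ⟨t, ht⟩ := ho
        have hh : mk4 g σ σ' (2 * t + 1) = mk4 g' τ τ' (2 * t + 1) := by
          show (D g σ σ').1.1.2 ⟨t, by omega⟩ = (D g' τ τ').1.1.2 ⟨t, by omega⟩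
          rw [hD]
        rw [← ht] at hh
        simp only [mk4] at hh
        exact ⟨Prod.ext h1 (Prod.ext (congrFun hh 0) (congrFun hh 1)),
          Prod.ext h3 (Prod.ext (congrFun hh 2) (congrFun hh 3)), h4⟩
    have hcnt : ∀ Q s, decompCount (p g) (e g) Q s = decompCount (p g') (e g') Q s := by
      intro Q s
      by_cases hs : 1 ≤ s ∧ s ≤ 2 * n + 1 + 1
      · obtain ⟨h1, h3, h4⟩ := hE s hs.1 hs.2
        rw [count_eq_decompCount (hdec g), count_eq_decompCount (hdec g'), prod_eq_split h2, prod_eq_split h2,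
          (enc_inj h1).1, (enc_inj h3).1, h4]
      · have hemp : ∀ g, decompCount (p g) (e g) Q s = 0 := fun g => by
          have : IsEmpty {i // p g i = Q ∧ e g i = s} := ⟨fun i => by
            have := hlevel g i.1; have := (hdec g).pos i.1; have := i.2.2; omega⟩
          simp [decompCount]
        rw [hemp, hemp]
    have hpos : ∀ (c : K) s, mult (p g) (e g) c s ≠ 0 → 1 ≤ s ∧ s ≤ 2 * n + 1 + 1 := by
      intro c s hs
      rw [mult, decompCount] at hs
      obtain ⟨⟨i, -, hi⟩⟩ : Nonempty {i // p g i = X - C c ∧ e g i = s} := (Nat.card_ne_zero.1 hs).1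
      have := hlevel g i; have := (hdec g).pos i; omega
    refine ⟨exists_equiv_of_count_eq (hdec g) (hdec g') hcnt, fun s ho hex => ?_, fun s ho hex => ?_⟩
    · have hm := (hasPlus_iff (hdec g) s).1 hex
      obtain ⟨h1, -, -⟩ := hE s (hpos _ _ hm).1 (hpos _ _ hm).2
      simpa only [if_neg (Nat.not_even_iff_odd.2 ho)] using (enc_inj h1).2 hm
    · have hm := (hasMinus_iff h2 (hdec g) s).1 hex
      obtain ⟨-, h3, -⟩ := hE s (hpos _ _ hm).1 (hpos _ _ hm).2
      simpa only [if_neg (Nat.not_even_iff_odd.2 ho)] using (enc_inj h3).2 hm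
  · simp only [D₀, dif_pos hg, dif_pos hg'] at h
    have key : ∀ (x y : OrthTuple.Data K (2 * n + 1) (n + 1) (n + 1)) hx hy, x.1.1.2 = y.1.1.2 →
        (⟨⟨(x.1.1.1, Fin.elim0), hx⟩, x.2⟩ : OrthTuple.Data K (2 * n + 1) 0 (n + 1)) =
          ⟨⟨(y.1.1.1, Fin.elim0), hy⟩, y.2⟩ → x = y := by
      rintro ⟨⟨⟨a, b⟩, h1⟩, f⟩ ⟨⟨⟨a', b'⟩, h1'⟩, f'⟩ hx hy hb he
      obtain ⟨ha, hf⟩ := Sigma.mk.inj_iff.1 he
      have ha' : a = a' := congrArg (fun z : OrthTuple.Shape _ _ _ => z.1.1) ha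
      subst ha'
      dsimp only at hb
      subst hb
      cases eq_of_heq hf
      rfl
    refine key _ _ _ _ (funext fun i => ?_) h
    exact (hclean g hg _).trans (hclean g' hg' _).symm

open Classical in
/-- Orthogonal classes: twice their number is bounded by the tuples. -/
theorem card_classes_le [Fintype K] {p₀ : ℕ} [Fact p₀.Prime] [CharP K p₀] (hp : p₀ ≠ 2)
    {B : BilinForm K V} {n : ℕ} (hV : finrank K V = 2 * (n + 1)) {G : Type w} [Group G] [Finite G]
    (ρ : G →* Module.End K V) (hρi : Function.Injective ρ) (hρ : ∀ g, OrthSplit.IsOSys B (ρ g))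
    (hsurj : ∀ φ : V ≃ₗ[K] V, (∀ x y, B (φ x) (φ y) = B x y) → ∃ c, ∀ x, ρ c x = φ x) :
    2 * Nat.card (ConjClasses G) ≤
      Nat.card (OrthTuple.Data K (2 * n + 1) (n + 1) (n + 1)) +
        Nat.card (OrthTuple.Data K (2 * n + 1) 0 (n + 1)) := by
  have hp1 : p₀.Prime := Fact.out
  have h2 : (2 : K) ≠ 0 := fun h0 => hp ((Nat.prime_dvd_prime_iff_eq hp1 Nat.prime_two).1
    ((CharP.cast_eq_zero_iff K p₀ 2).1 (by exact_mod_cast h0)))
  obtain ⟨D, D₀, hD, hD₀⟩ := exists_code (B := B) h2 hV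
  let T : G → {T : Module.End K V // OrthSplit.IsOSys B T} := fun g => ⟨ρ g, hρ g⟩
  let sp : G → ℕ → Bool := fun g s => decide (SpSplit.sgnPlus B (ρ g) s)
  let sm : G → ℕ → Bool := fun g s => decide (SpSplit.sgnMinus B (ρ g) s)
  let odd : G → Prop := fun g => ∃ s, Odd s ∧ (SpSplit.hasPlus (ρ g) s ∨ SpSplit.hasMinus (ρ g) s)
  let fp : G → ℕ → Bool := fun g s =>
    decide (∃ h : odd g, s = Nat.find h ∧ SpSplit.hasPlus (ρ g) s)
  let fm : G → ℕ → Bool := fun g s =>
    decide (∃ h : odd g, s = Nat.find h ∧ ¬ SpSplit.hasPlus (ρ g) s)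
  have hconj : ∀ g g', (∃ L : V ≃ₗ[K] V, ∀ x, L (ρ g x) = ρ g' (L x)) →
      (∀ s, Odd s → SpSplit.hasPlus (ρ g) s → sp g s = sp g' s) →
      (∀ s, Odd s → SpSplit.hasMinus (ρ g) s → sm g s = sm g' s) → IsConj g g' := by
    rintro g g' ⟨L, hL⟩ h1 h3
    obtain ⟨φ, hφ, hφT⟩ := OrthSplit.isIso_of_similar hp (hρ g) (hρ g') L hL
      (fun s ho hex => decide_eq_decide.1 (h1 s ho hex)) (fun s ho hex => decide_eq_decide.1 (h3 s ho hex))
    obtain ⟨c, hc⟩ := hsurj φ hφ
    refine isConj_iff.2 ⟨c, mul_inv_eq_iff_eq_mul.2 (hρi ?_)⟩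
    refine LinearMap.ext fun x => ?_
    rw [map_mul, map_mul, Module.End.mul_apply, Module.End.mul_apply, hc, hc, hφT]
  have hsim : ∀ g g', (∃ L : V ≃ₗ[K] V, ∀ x, L (ρ g x) = ρ g' (L x)) → ∀ s,
      (SpSplit.hasPlus (ρ g) s ↔ SpSplit.hasPlus (ρ g') s) ∧
      (SpSplit.hasMinus (ρ g) s ↔ SpSplit.hasMinus (ρ g') s) := by
    rintro g g' ⟨L, hL⟩ s
    obtain ⟨⟨P₁, hP₁⟩, ⟨P₂, hP₂⟩⟩ := SpSplit.exists_similar_parts L hL
    have hP₂' : ∀ x, P₂ ((-SpSplit.movEnd (ρ g)) x) = (-SpSplit.movEnd (ρ g')) (P₂ x) := fun x => by simp [hP₂]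
    obtain ⟨⟨P₃, hP₃⟩, -⟩ := SpSplit.exists_similar_parts P₂ hP₂'
    simp only [SpSplit.hasPlus, SpSplit.hasMinus]
    exact ⟨by rw [OrthSplit.kd_congr P₁ hP₁], by rw [OrthSplit.kd_congr P₃ hP₃]⟩
  have hflip : ∀ g g', (∃ L : V ≃ₗ[K] V, ∀ x, L (ρ g x) = ρ g' (L x)) →
      fp g = fp g' ∧ fm g = fm g' ∧ (odd g ↔ odd g') := by
    intro g g' hL
    have hs := hsim g g' hL
    have ho : odd g ↔ odd g' := exists_congr fun s => by rw [(hs s).1, (hs s).2]
    have hfind : ∀ (h : odd g) (h' : odd g'), Nat.find h = Nat.find h' := fun h h' => by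
      refine Nat.find_congr' fun {s} => ?_
      rw [(hs s).1, (hs s).2]
    refine ⟨funext fun s => ?_, funext fun s => ?_, ho⟩ <;> refine decide_eq_decide.2 ⟨?_, ?_⟩
    · exact fun ⟨h, e1, e2⟩ => ⟨ho.1 h, e1.trans (hfind h _), (hs s).1.1 e2⟩
    · exact fun ⟨h, e1, e2⟩ => ⟨ho.2 h, e1.trans (hfind _ h).symm, (hs s).1.2 e2⟩
    · exact fun ⟨h, e1, e2⟩ => ⟨ho.1 h, e1.trans (hfind h _), fun e => e2 ((hs s).1.2 e)⟩
    · exact fun ⟨h, e1, e2⟩ => ⟨ho.2 h, e1.trans (hfind _ h).symm, fun e => e2 ((hs s).1.1 e)⟩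
  -- a class and a flipped class never share their code
  have hne : ∀ g g', odd g' → D (T g) (sp g) (sm g) ≠
      D (T g') (fun s => xor (sp g' s) (fp g' s)) (fun s => xor (sm g' s) (fm g' s)) := by
    intro g g' ho' hh
    obtain ⟨⟨L, hL⟩, h1, h3⟩ := hD _ _ _ _ _ _ hh
    obtain ⟨hfp, hfm, ho⟩ := hflip g g' ⟨L, hL⟩
    have ho₁ : odd g := ho.2 ho'
    obtain ⟨hodd, hex⟩ := Nat.find_spec ho₁
    set s₀ := Nat.find ho₁ with hs₀
    rw [← hfp] at h1
    rw [← hfm] at h3
    have hdp : ∀ s, sp g s = sp g' s ↔ (SpSplit.sgnPlus B (ρ g) s ↔ SpSplit.sgnPlus B (ρ g') s) :=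
      fun s => decide_eq_decide
    have hdm : ∀ s, sm g s = sm g' s ↔ (SpSplit.sgnMinus B (ρ g) s ↔ SpSplit.sgnMinus B (ρ g') s) :=
      fun s => decide_eq_decide
    by_cases hpl : SpSplit.hasPlus (ρ g) s₀
    · have e1 : ∀ s, fp g s = decide (s = s₀) := fun s => decide_eq_decide.2
        ⟨fun ⟨_, e, _⟩ => e, fun e => ⟨ho₁, e, e ▸ hpl⟩⟩
      have e2 : ∀ s, fm g s = false := fun s => decide_eq_false fun ⟨_, e, e'⟩ => e' (by
        have e3 : s = s₀ := e
        rw [e3]; exact hpl)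
      refine OrthSplit.no_flip_plus hp (hρ g) (hρ g') L hL hodd hpl (fun hh => ?_)
        (fun s hs hne hx => (hdp s).1 ?_) (fun s hs hx => (hdm s).1 ?_)
      · have := h1 s₀ hodd hpl
        rw [e1, decide_eq_true rfl, (hdp s₀).2 hh] at this
        simp at this
      · have := h1 s hs hx
        rw [e1, decide_eq_false hne] at this
        simpa using this
      · have := h3 s hs hx
        rw [e2] at this
        simpa using this
    · have hmi : SpSplit.hasMinus (ρ g) s₀ := hex.resolve_left hpl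
      have e1 : ∀ s, fm g s = decide (s = s₀) := fun s => decide_eq_decide.2
        ⟨fun ⟨_, e, _⟩ => e, fun e => ⟨ho₁, e, e ▸ hpl⟩⟩
      have e2 : ∀ s, fp g s = false := fun s => decide_eq_false fun ⟨_, e, e'⟩ => hpl (by
        have e3 : s = s₀ := e
        rw [← e3]; exact e')
      refine OrthSplit.no_flip_minus hp (hρ g) (hρ g') L hL hodd hmi (fun hh => ?_)
        (fun s hs hx => (hdp s).1 ?_) (fun s hs hne hx => (hdm s).1 ?_)
      · have := h3 s₀ hodd hmi
        rw [e1, decide_eq_true rfl, (hdm s₀).2 hh] at this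
        simp at this
      · have := h1 s hs hx
        rw [e2] at this
        simpa using this
      · have := h3 s hs hx
        rw [e1, decide_eq_false hne] at this
        simpa using this
  let Ψ : ConjClasses G ⊕ ConjClasses G →
      OrthTuple.Data K (2 * n + 1) (n + 1) (n + 1) ⊕ OrthTuple.Data K (2 * n + 1) 0 (n + 1) := fun x =>
    match x with
    | Sum.inl c => Sum.inl (D (T c.out) (sp c.out) (sm c.out))
    | Sum.inr c => if odd c.out then Sum.inl (D (T c.out) (fun s => xor (sp c.out s) (fp c.out s))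
        (fun s => xor (sm c.out s) (fm c.out s))) else Sum.inr (D₀ (T c.out))
  have hout : ∀ c c' : ConjClasses G, IsConj c.out c'.out → c = c' := fun c c' h => by
    rw [← Quotient.out_eq c, ← Quotient.out_eq c']
    exact ConjClasses.mk_eq_mk_iff_isConj.2 h
  have hinj : Function.Injective Ψ := by
    rintro (c | c) (c' | c') h
    · obtain ⟨hL, h1, h3⟩ := hD _ _ _ _ _ _ (Sum.inl_injective h)
      exact congrArg _ (hout c c' (hconj _ _ hL h1 h3))
    · exfalso
      simp only [Ψ] at h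
      split_ifs at h with ho
      exact hne _ _ ho (Sum.inl_injective h)
    · exfalso
      simp only [Ψ] at h
      split_ifs at h with ho
      exact hne _ _ ho (Sum.inl_injective h).symm
    · simp only [Ψ] at h
      by_cases ho : odd c.out <;> by_cases ho' : odd c'.out
      on_goal 2 => simp [ho, ho'] at h
      on_goal 2 => simp [ho, ho'] at h
      · rw [if_pos ho, if_pos ho'] at h
        obtain ⟨hL, h1, h3⟩ := hD _ _ _ _ _ _ (Sum.inl_injective h)
        obtain ⟨hfp, hfm, -⟩ := hflip _ _ hL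
        refine congrArg _ (hout c c' (hconj _ _ hL (fun s hs hx => ?_) (fun s hs hx => ?_)))
        · exact Bool.xor_left_inj.1 ((h1 s hs hx).trans (by rw [hfp]))
        · exact Bool.xor_left_inj.1 ((h3 s hs hx).trans (by rw [hfm]))
      · rw [if_neg ho, if_neg ho'] at h
        have hno : ∀ g, ¬ odd g → ∀ s, Odd s → ¬ SpSplit.hasPlus (ρ g) s ∧ ¬ SpSplit.hasMinus (ρ g) s :=
          fun g hg s hs => ⟨fun e => hg ⟨s, hs, Or.inl e⟩, fun e => hg ⟨s, hs, Or.inr e⟩⟩
        obtain ⟨hL, -, -⟩ := hD _ _ _ _ _ _ (hD₀ (T c.out) (T c'.out) (hno _ ho) (hno _ ho')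
          (Sum.inr_injective h))
        exact congrArg _ (hout c c' (hconj _ _ hL (fun s hs hx => absurd hx (hno _ ho s hs).1)
          (fun s hs hx => absurd hx (hno _ ho s hs).2)))
  have hle := Nat.card_le_card_of_injective Ψ hinj
  rw [Nat.card_sum, Nat.card_sum] at hle
  omega

end Cfsg.Agent.H66.OrthData
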