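/-
Counting the tuples that parametrise orthogonal classes in odd dimension.
-/
import Cfsg.Agent.H66.OrthTupleBound
import Cfsg.Agent.H66.SpCharpoly

set_option autoImplicit false

namespace Cfsg.Agent.H66.OddTuple

universe u

open SpTuple (marks low low_ge)
open OrthTuple (mw rt hp hm sum_mw)

variable {K : Type u} [Field K] [Fintype K]

/-- Shapes: half degrees and marks at odd sizes, of total weight `2 * n + 1`. -/
abbrev Shape (N M n : ℕ) : Type :=
  {x : (Fin (N + 1) → Fin (n + 1)) × (Fin M → Fin 4 → Bool) //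
    2 * ∑ j : Fin (N + 1), ((j : ℕ) + 1) * (x.1 j : ℕ) + mw x.2 = 2 * n + 1}

/-- Tuples of coefficient vectors and marks. -/
abbrev Data (K : Type u) (N M n : ℕ) : Type u :=
  Σ x : Shape N M n, ∀ j : Fin (N + 1), Fin (x.1.1 j : ℕ) → K

/-- No marks at the eigenvalue `-1`. -/
def PlusMarks {M : ℕ} (b : Fin M → Fin 4 → Bool) : Prop := ∀ i, b i 2 = false ∧ b i 3 = false

/-- The tuples of classes with odd blocks at `1` only. -/
def IsPlus {N M n : ℕ} (x : Data K N M n) : Prop :=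
  PlusMarks x.1.1.2 ∧ (SpChar.palPoly _ (x.2 0)).eval (-1) ≠ 0

/-- The weight of a tuple. -/
def wt (r : ℚ) {N M n : ℕ} (y : (Fin N → Fin (n + 1)) × (Fin M → Fin 4 → Bool)) : ℚ :=
  (∏ j : Fin N, (r ^ ((j : ℕ) + 1)) ^ (y.1 j : ℕ)) * ((rt ^ mw y.2 - (-rt) ^ mw y.2) / (2 * rt))

theorem wt_nonneg {r : ℚ} (hr : 0 ≤ r) {N M n : ℕ} (y : (Fin N → Fin (n + 1)) × (Fin M → Fin 4 → Bool)) :
    0 ≤ wt r y := by
  have hrt : (0 : ℚ) < rt := by norm_num [rt]
  refine mul_nonneg (Finset.prod_nonneg fun j _ => by positivity) ?_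
  rcases Nat.even_or_odd (mw y.2) with h | h
  · rw [h.neg_pow, sub_self, zero_div]
  · rw [h.neg_pow, sub_neg_eq_add]; positivity

theorem wt_odd {r : ℚ} {N M n : ℕ} (y : (Fin N → Fin (n + 1)) × (Fin M → Fin 4 → Bool)) {m : ℕ}
    (hm : mw y.2 = 2 * m + 1) :
    wt r y = r ^ (∑ j : Fin N, ((j : ℕ) + 1) * (y.1 j : ℕ)) * (rt ^ 2) ^ m := by
  have hrt : (rt : ℚ) ≠ 0 := by norm_num [rt]
  simp only [wt, ← pow_mul, Finset.prod_pow_eq_pow_sum, hm]
  rw [Odd.neg_pow ⟨m, rfl⟩, pow_succ]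
  field_simp
  ring

/-- The part of a shape without its slack entry. -/
def drop {N M n : ℕ} (x : Shape N M n) : (Fin N → Fin (n + 1)) × (Fin M → Fin 4 → Bool) :=
  (fun j => x.1.1 j.succ, x.1.2)

/-- The weighted count over shapes. -/
theorem sum_shape_le {q : ℕ} {r : ℚ} (hr : 0 < r) (hqr : 1 ≤ (q : ℚ) * r) (hrt : r ≤ rt ^ 2) (N M n : ℕ)
    (g : Shape N M n → ℚ) (c : (Fin N → Fin (n + 1)) × (Fin M → Fin 4 → Bool) → ℚ) (hc : ∀ y, 0 ≤ c y)
    (hgc : ∀ x, g x ≤ c (drop x)) :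
    ∑ x : Shape N M n, ((∏ j, q ^ (x.1.1 j : ℕ) : ℕ) : ℚ) * g x ≤ (q : ℚ) ^ n * ∑ y, wt r y * c y := by
  classical
  have hφ : Function.Injective (drop (N := N) (M := M) (n := n)) := by
    rintro ⟨⟨k, b⟩, hx⟩ ⟨⟨k', b'⟩, hx'⟩ h
    have hk : ∀ j : Fin N, k j.succ = k' j.succ := fun j => congrFun (congrArg Prod.fst h) j
    have hb : b = b' := congrArg Prod.snd h
    subst hb
    dsimp only at hx hx'
    simp only [Fin.sum_univ_succ, hk] at hx hx'
    simp only [Fin.val_zero, zero_add, one_mul] at hx hx'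
    refine Subtype.ext (Prod.ext (funext fun j => ?_) rfl)
    show k j = k' j
    refine Fin.cases ?_ hk j
    exact Fin.ext (by omega)
  have hterm : ∀ x : Shape N M n, ((∏ j, q ^ (x.1.1 j : ℕ) : ℕ) : ℚ) ≤ (q : ℚ) ^ n * wt r (drop x) := by
    rintro ⟨⟨k, b⟩, hx⟩
    dsimp only at hx ⊢
    obtain ⟨m, hm2⟩ : ∃ m, mw b = 2 * m + 1 := ⟨n - ∑ j : Fin (N + 1), ((j : ℕ) + 1) * (k j : ℕ), by omega⟩
    set E : ℕ := ∑ j : Fin N, ((j : ℕ) + 1) * (k j.succ : ℕ) with hE
    have hsplit : n = (∑ j, (k j : ℕ)) + (E + m) := by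
      have : ∑ j : Fin N, ((j : ℕ) + 1 + 1) * (k j.succ : ℕ) = (∑ j : Fin N, (k j.succ : ℕ)) + E := by
        rw [hE, ← Finset.sum_add_distrib]
        exact Finset.sum_congr rfl fun j _ => by ring
      rw [Fin.sum_univ_succ] at hx ⊢
      simp only [Fin.val_zero, zero_add, one_mul, Fin.val_succ] at hx
      omega
    rw [wt_odd (drop ⟨(k, b), hx⟩) hm2, Finset.prod_pow_eq_pow_sum, Nat.cast_pow]
    have h1 : r ^ (E + m) ≤ r ^ E * (rt ^ 2) ^ m := by
      rw [pow_add]
      exact mul_le_mul_of_nonneg_left (pow_le_pow_left₀ hr.le hrt m) (by positivity)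
    refine le_trans ?_ (mul_le_mul_of_nonneg_left h1 (by positivity))
    conv_rhs => rw [hsplit, pow_add, mul_assoc, ← mul_pow]
    exact le_mul_of_one_le_right (by positivity) (one_le_pow₀ hqr)
  calc ∑ x : Shape N M n, ((∏ j, q ^ (x.1.1 j : ℕ) : ℕ) : ℚ) * g x
      ≤ ∑ x : Shape N M n, (q : ℚ) ^ n * (wt r (drop x) * c (drop x)) := Finset.sum_le_sum fun x _ => by
        rw [← mul_assoc]
        refine le_trans (mul_le_mul_of_nonneg_left (hgc x) (by positivity)) ?_
        exact mul_le_mul_of_nonneg_right (hterm x) (hc _)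
    _ = (q : ℚ) ^ n * ∑ y ∈ Finset.univ.image (drop (N := N) (M := M) (n := n)), wt r y * c y := by
        rw [Finset.sum_image fun a _ b _ h => hφ h, Finset.mul_sum]
    _ ≤ _ := mul_le_mul_of_nonneg_left (Finset.sum_le_sum_of_subset_of_nonneg (Finset.subset_univ _)
        fun y _ _ => mul_nonneg (wt_nonneg hr.le _) (hc y)) (by positivity)

/-- The geometric part. -/
def geo (r : ℚ) (N n : ℕ) : ℚ := ∏ j : Fin N, ∑ k : Fin (n + 1), (r ^ ((j : ℕ) + 1)) ^ (k : ℕ)

open Classical in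
theorem sum_mw_plus (M : ℕ) (z : ℚ) :
    ∑ b : Fin M → Fin 4 → Bool, (if PlusMarks b then z ^ mw b else 0) =
      (∏ i ∈ Finset.range M, (1 + z ^ (2 * i + 1))) ^ 2 := by
  have hb : ∀ b : Fin M → Fin 4 → Bool, (if PlusMarks b then z ^ mw b else 0) =
      ∏ i : Fin M, ∏ l : Fin 4, (if b i l = true then (if l = 2 ∨ l = 3 then 0 else z ^ (2 * (i : ℕ) + 1)) else 1) := by
    intro b
    split_ifs with h
    · simp only [mw, ← Finset.prod_pow_eq_pow_sum, pow_mul]
      refine Finset.prod_congr rfl fun i _ => ?_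
      rw [← SpTuple.prod_marks]
      refine Finset.prod_congr rfl fun l _ => ?_
      by_cases hl : b i l = true
      · rw [if_pos hl, if_pos hl, if_neg]
        rintro (rfl | rfl)
        · rw [(h i).1] at hl; exact Bool.noConfusion hl
        · rw [(h i).2] at hl; exact Bool.noConfusion hl
      · rw [if_neg hl, if_neg hl]
    · simp only [PlusMarks, not_forall, not_and_or, Bool.not_eq_false] at h
      obtain ⟨i, h⟩ := h
      rcases h with h | h
      · exact (Finset.prod_eq_zero (Finset.mem_univ i) (Finset.prod_eq_zero (Finset.mem_univ 2) (by simp [h]))).symm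
      · exact (Finset.prod_eq_zero (Finset.mem_univ i) (Finset.prod_eq_zero (Finset.mem_univ 3) (by simp [h]))).symm
  simp only [hb]
  rw [← Finset.prod_pow, ← Fin.prod_univ_eq_prod_range (fun i => (1 + z ^ (2 * i + 1)) ^ 2),
    ← Fintype.prod_sum (fun (i : Fin M) (c : Fin 4 → Bool) =>
      ∏ l : Fin 4, (if c l = true then (if l = 2 ∨ l = 3 then 0 else z ^ (2 * (i : ℕ) + 1)) else 1))]
  refine Finset.prod_congr rfl fun i _ => ?_
  rw [← Fintype.prod_sum (fun (l : Fin 4) (c : Bool) =>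
    if c = true then (if l = 2 ∨ l = 3 then 0 else z ^ (2 * (i : ℕ) + 1)) else 1)]
  simp [Fin.prod_univ_four, Fintype.sum_bool]
  ring

theorem sum_wt (r : ℚ) (N M n : ℕ) :
    ∑ y : (Fin N → Fin (n + 1)) × (Fin M → Fin 4 → Bool), wt r y =
      geo r N n * ((hp M ^ 4 - hm M ^ 4) / (2 * rt)) := by
  rw [Fintype.sum_prod_type]
  simp only [wt, ← Finset.mul_sum, ← Finset.sum_mul]
  rw [← Fintype.prod_sum (fun (j : Fin N) (k : Fin (n + 1)) => (r ^ ((j : ℕ) + 1)) ^ (k : ℕ)),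
    ← Finset.sum_div, Finset.sum_sub_distrib, sum_mw, sum_mw]
  have he : ∀ i : ℕ, (1 : ℚ) + (-rt) ^ (2 * i + 1) = 1 - rt ^ (2 * i + 1) := fun i => by
    rw [Odd.neg_pow ⟨i, rfl⟩]; ring
  simp only [he]
  rfl

open Classical in
theorem sum_wt_plus (r : ℚ) (N M n : ℕ) :
    ∑ y : (Fin N → Fin (n + 1)) × (Fin M → Fin 4 → Bool), wt r y * (if PlusMarks y.2 then 1 else 0) =
      geo r N n * ((hp M ^ 2 - hm M ^ 2) / (2 * rt)) := by
  rw [Fintype.sum_prod_type]
  have hb : ∀ (b : Fin M → Fin 4 → Bool), (rt ^ mw b - (-rt) ^ mw b) / (2 * rt) * (if PlusMarks b then 1 else 0) =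
      ((if PlusMarks b then rt ^ mw b else 0) - (if PlusMarks b then (-rt) ^ mw b else 0)) / (2 * rt) := fun b => by
    split_ifs <;> simp
  simp only [wt, mul_assoc, hb, ← Finset.mul_sum, ← Finset.sum_mul]
  rw [← Fintype.prod_sum (fun (j : Fin N) (k : Fin (n + 1)) => (r ^ ((j : ℕ) + 1)) ^ (k : ℕ)),
    ← Finset.sum_div, Finset.sum_sub_distrib, sum_mw_plus, sum_mw_plus]
  have he : ∀ i : ℕ, (1 : ℚ) + (-rt) ^ (2 * i + 1) = 1 - rt ^ (2 * i + 1) := fun i => by
    rw [Odd.neg_pow ⟨i, rfl⟩]; ring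
  simp only [he]
  rfl

/-- All tuples. -/
theorem card_data_le {r : ℚ} (hr : 0 < r) (hqr : 1 ≤ (Fintype.card K : ℚ) * r) (hrt : r ≤ rt ^ 2) (N M n : ℕ) :
    (Nat.card (Data K N M n) : ℚ) ≤
      (Fintype.card K : ℚ) ^ n * (geo r N n * ((hp M ^ 4 - hm M ^ 4) / (2 * rt))) := by
  classical
  have h := sum_shape_le (q := Fintype.card K) hr hqr hrt N M n (fun _ => 1) (fun _ => 1) (fun _ => zero_le_one)
    (fun _ => le_rfl)
  simp only [mul_one, sum_wt] at h
  refine le_trans (le_of_eq ?_) h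
  rw [Nat.card_sigma, Nat.cast_sum]
  refine Finset.sum_congr rfl fun x _ => ?_
  rw [Nat.card_pi]
  simp [Nat.card_eq_fintype_card]

/-- Palindromes without the root `-1`. -/
theorem card_eval_ne (m : ℕ) :
    Nat.card {c : Fin (m + 1) → K // (SpChar.palPoly (m + 1) c).eval (-1) ≠ 0} ≤
      (Fintype.card K - 1) * Fintype.card K ^ m := by
  classical
  have hcard : Nat.card ({x : K // x ≠ 0} × (Fin m → K)) = (Fintype.card K - 1) * Fintype.card K ^ m := by
    rw [Nat.card_prod, Nat.card_eq_fintype_card, Nat.card_eq_fintype_card, Fintype.card_fun, Fintype.card_fin,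
      Fintype.card_subtype_compl, Fintype.card_subtype_eq]
  rw [← hcard]
  refine Nat.card_le_card_of_injective (fun c => (⟨_, c.2⟩, fun t => c.1 t.castSucc)) ?_
  rintro ⟨c, hc⟩ ⟨c', hc'⟩ h
  obtain ⟨h1, h2⟩ := Prod.ext_iff.1 h
  have h1' : (SpChar.palPoly (m + 1) c).eval (-1) = (SpChar.palPoly (m + 1) c').eval (-1) := congrArg Subtype.val h1
  have h2' : ∀ t : Fin m, c t.castSucc = c' t.castSucc := fun t => congrFun h2 t
  refine Subtype.ext (funext fun t => ?_)
  show c t = c' t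
  refine Fin.lastCases ?_ h2' t
  have hdiff : SpChar.palPoly (m + 1) c = SpChar.palPoly (m + 1) c' +
      Polynomial.C (c (Fin.last m) - c' (Fin.last m)) * Polynomial.X ^ (m + 1) := by
    refine Polynomial.ext fun i => ?_
    simp only [Polynomial.coeff_add, Polynomial.coeff_C_mul, Polynomial.coeff_X_pow]
    rcases Nat.lt_or_ge (2 * (m + 1)) i with hi | hi
    · rw [Polynomial.coeff_eq_zero_of_natDegree_lt (by rw [(SpChar.palPoly_spec _ _).2.1]; omega),
        Polynomial.coeff_eq_zero_of_natDegree_lt (by rw [(SpChar.palPoly_spec _ _).2.1]; omega), if_neg (by omega)]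
      ring
    · rw [SpChar.palPoly_coeff _ _ _ hi, SpChar.palPoly_coeff _ _ _ hi]
      by_cases h0 : i = 0 ∨ i = 2 * (m + 1)
      · rw [if_pos h0, if_pos h0, if_neg (by omega)]
        ring
      · rw [if_neg h0, if_neg h0, dif_pos (by omega), dif_pos (by omega)]
        rcases eq_or_ne i (m + 1) with h3 | h3
        · have e : ∀ p, (⟨min i (2 * (m + 1) - i) - 1, p⟩ : Fin (m + 1)) = Fin.last m := fun p =>
            Fin.ext (by simp only [Fin.val_last]; omega)
          rw [e, if_pos h3]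
          ring
        · have e : ∀ p, (⟨min i (2 * (m + 1) - i) - 1, p⟩ : Fin (m + 1)) =
              (⟨min i (2 * (m + 1) - i) - 1, by omega⟩ : Fin m).castSucc := fun p => Fin.ext rfl
          rw [e, h2', if_neg h3]
          ring
  rw [hdiff, Polynomial.eval_add, add_eq_left, Polynomial.eval_mul, Polynomial.eval_C, Polynomial.eval_pow,
    Polynomial.eval_X, mul_eq_zero, sub_eq_zero] at h1'
  exact h1'.resolve_right (pow_ne_zero _ (neg_ne_zero.2 one_ne_zero))

open Classical in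
/-- The tuples with odd blocks at `1` only, shape by shape. -/
theorem card_plus_le (N M n : ℕ) :
    (Nat.card {x : Data K N M n // IsPlus x} : ℚ) ≤ ∑ x : Shape N M n, ((∏ j, Fintype.card K ^ (x.1.1 j : ℕ) : ℕ) : ℚ) *
      ((if PlusMarks x.1.2 then 1 else 0) *
        (if (x.1.1 0 : ℕ) = 0 then 1 else ((Fintype.card K : ℚ) - 1) / Fintype.card K)) := by
  have e : {x : Data K N M n // IsPlus x} ≃ Σ s : Shape N M n,
      {f : ∀ j : Fin (N + 1), Fin (s.1.1 j : ℕ) → K // PlusMarks s.1.2 ∧ (SpChar.palPoly _ (f 0)).eval (-1) ≠ 0} :=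
    { toFun := fun x => ⟨x.1.1, ⟨x.1.2, x.2⟩⟩
      invFun := fun y => ⟨⟨y.1, y.2.1⟩, y.2.2⟩
      left_inv := fun x => rfl
      right_inv := fun y => rfl }
  rw [Nat.card_congr e, Nat.card_sigma, Nat.cast_sum]
  refine Finset.sum_le_sum fun s _ => ?_
  by_cases hb : PlusMarks s.1.2
  · rw [if_pos hb, one_mul]
    set q := Fintype.card K
    have hall : Nat.card (∀ j : Fin (N + 1), Fin (s.1.1 j : ℕ) → K) = ∏ j, q ^ (s.1.1 j : ℕ) := by
      rw [Nat.card_pi]; simp [q, Nat.card_eq_fintype_card]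
    split_ifs with h0
    · rw [mul_one, ← hall]
      exact_mod_cast Finite.card_subtype_le _
    · obtain ⟨m, hm⟩ : ∃ m, (s.1.1 0 : ℕ) = m + 1 := ⟨(s.1.1 0 : ℕ) - 1, by omega⟩
      have hle : Nat.card {f : ∀ j : Fin (N + 1), Fin (s.1.1 j : ℕ) → K //
          PlusMarks s.1.2 ∧ (SpChar.palPoly _ (f 0)).eval (-1) ≠ 0} ≤
          Nat.card ({c : Fin (s.1.1 0 : ℕ) → K // (SpChar.palPoly _ c).eval (-1) ≠ 0} ×
            (∀ j : Fin N, Fin (s.1.1 j.succ : ℕ) → K)) :=
        Nat.card_le_card_of_injective (fun f => (⟨f.1 0, f.2.2⟩, fun j => f.1 j.succ)) fun f f' h => by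
          obtain ⟨h1, h2⟩ := Prod.ext_iff.1 h
          exact Subtype.ext (funext fun j => Fin.cases (congrArg Subtype.val h1) (fun j => congrFun h2 j) j)
      have h1 : Nat.card {c : Fin (s.1.1 0 : ℕ) → K // (SpChar.palPoly _ c).eval (-1) ≠ 0} ≤ (q - 1) * q ^ m := by
        rw [hm]; exact card_eval_ne m
      rw [Nat.card_prod, Nat.card_pi] at hle
      simp only [Nat.card_eq_fintype_card (α := Fin _ → K), Fintype.card_fun, Fintype.card_fin] at hle
      have h3 := hle.trans (Nat.mul_le_mul_right _ h1)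
      have hp0 : q ^ (s.1.1 0 : ℕ) = q ^ m * q := by rw [hm, pow_succ]
      rw [Fin.prod_univ_succ, hp0]
      have hq : (1 : ℕ) ≤ q := Fintype.card_pos
      have h4 : ((Nat.card {f : ∀ j : Fin (N + 1), Fin (s.1.1 j : ℕ) → K //
          PlusMarks s.1.2 ∧ (SpChar.palPoly _ (f 0)).eval (-1) ≠ 0} : ℕ) : ℚ) ≤
          (((q - 1) * q ^ m * ∏ j : Fin N, q ^ (s.1.1 j.succ : ℕ) : ℕ) : ℚ) := by exact_mod_cast h3
      refine h4.trans (le_of_eq ?_)
      have hq0 : (q : ℚ) ≠ 0 := by exact_mod_cast (show q ≠ 0 by omega)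
      push_cast [Nat.cast_sub hq, pow_succ]
      field_simp
  · rw [if_neg hb, zero_mul, mul_zero]
    have : IsEmpty {f : ∀ j : Fin (N + 1), Fin (s.1.1 j : ℕ) → K //
        PlusMarks s.1.2 ∧ (SpChar.palPoly _ (f 0)).eval (-1) ≠ 0} := ⟨fun f => hb f.2.1⟩
    simp

open Classical in
/-- The bound ignoring the refinement. -/
theorem card_plus_le_crude {r : ℚ} (hr : 0 < r) (hqr : 1 ≤ (Fintype.card K : ℚ) * r) (hrt : r ≤ rt ^ 2) (N M n : ℕ) :
    (Nat.card {x : Data K N M n // IsPlus x} : ℚ) ≤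
      (Fintype.card K : ℚ) ^ n * (geo r N n * ((hp M ^ 2 - hm M ^ 2) / (2 * rt))) := by
  refine (card_plus_le N M n).trans ?_
  rw [← sum_wt_plus]
  refine sum_shape_le hr hqr hrt N M n _ _ (fun y => by split_ifs <;> norm_num) fun x => ?_
  show _ ≤ if PlusMarks x.1.2 then (1 : ℚ) else 0
  by_cases hb : PlusMarks x.1.2
  · rw [if_pos hb, one_mul]
    split_ifs with h0
    · exact le_rfl
    · rw [div_le_one (by exact_mod_cast Fintype.card_pos)]
      linarith
  · rw [if_neg hb, zero_mul]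

open Classical in
/-- The refined bound for three elements. -/
theorem card_plus_le_three (hq : Fintype.card K = 3) (N M n : ℕ) (hn : 3 ≤ n) (hN : 2 ≤ N) (hM : 3 ≤ M) :
    (Nat.card {x : Data K N M n // IsPlus x} : ℚ) ≤
      (3 : ℚ) ^ n * (geo (1 / 3) N n * ((hp M ^ 2 - hm M ^ 2) / (2 * rt)) -
        (if n = 3 then 36 else if n = 4 then 38 else 40) / 27) := by
  let small : (Fin N → Fin (n + 1)) × (Fin M → Fin 4 → Bool) → Prop := fun y =>
    2 * (∑ j : Fin N, ((j : ℕ) + 1) * (y.1 j : ℕ)) + mw y.2 ≤ 5 ∧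
      (∑ j : Fin N, (y.1 j : ℕ)) + (∑ j : Fin N, ((j : ℕ) + 1) * (y.1 j : ℕ)) + mw y.2 / 2 ≠ n
  let c : (Fin N → Fin (n + 1)) × (Fin M → Fin 4 → Bool) → ℚ := fun y =>
    (if PlusMarks y.2 then 1 else 0) - (1 / 3) * (if PlusMarks y.2 ∧ small y then 1 else 0)
  have hc : ∀ y, 0 ≤ c y := fun y => by
    by_cases h : PlusMarks y.2 <;> by_cases h' : small y <;> simp [c, h, h'] <;> norm_num
  refine (card_plus_le N M n).trans ?_
  refine (sum_shape_le (q := Fintype.card K) (r := 1 / 3) (by norm_num) (by rw [hq]; norm_num)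
    (by norm_num [rt]) N M n _ c hc fun x => ?_).trans ?_
  · show _ ≤ (if PlusMarks x.1.2 then (1 : ℚ) else 0) - _
    by_cases hb : PlusMarks x.1.2
    · have hb' : PlusMarks (drop x).2 := hb
      rw [if_pos hb, one_mul, hq]
      by_cases hs : small (drop x)
      · rw [if_pos (show PlusMarks (drop x).2 ∧ small (drop x) from ⟨hb', hs⟩)]
        split_ifs with h0
        · exfalso
          have hx := x.2
          rw [Fin.sum_univ_succ] at hx
          simp only [Fin.val_zero, zero_add, one_mul, Fin.val_succ, h0] at hx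
          simp only [small, drop] at hs
          refine hs.2 ?_
          have h2 : ∑ j : Fin N, ((j : ℕ) + 1 + 1) * (x.1.1 j.succ : ℕ) =
              (∑ j : Fin N, (x.1.1 j.succ : ℕ)) + ∑ j : Fin N, ((j : ℕ) + 1) * (x.1.1 j.succ : ℕ) := by
            rw [← Finset.sum_add_distrib]
            exact Finset.sum_congr rfl fun j _ => by ring
          omega
        · norm_num
      · rw [if_neg (show ¬ (PlusMarks (drop x).2 ∧ small (drop x)) from fun h => hs h.2)]
        split_ifs <;> norm_num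
    · rw [if_neg hb, zero_mul, if_neg fun h => hb h.1]
      norm_num
  · rw [hq]
    push_cast
    refine mul_le_mul_of_nonneg_left ?_ (by positivity)
    simp only [c, mul_sub, Finset.sum_sub_distrib, sum_wt_plus]
    refine sub_le_sub_left ?_ _
    -- the tuples of weight at most five
    let Z := (Fin 2 → Fin 3) × (Fin 3 → Fin 2 → Bool)
    let zk : Z → ℕ := fun z => (z.1 0 : ℕ) + 2 * (z.1 1 : ℕ)
    let zm : Z → ℕ := fun z => ∑ i : Fin 3, (2 * (i : ℕ) + 1) * ((z.2 i 0).toNat + (z.2 i 1).toNat)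
    let zn : Z → ℕ := fun z => (z.1 0 : ℕ) + (z.1 1 : ℕ) + zk z + zm z / 2
    let S₀ : Finset Z := Finset.univ.filter fun z => zm z % 2 = 1 ∧ 2 * zk z + zm z ≤ 5
    let S : Finset Z := S₀.filter fun z => zn z ≠ n
    let emb : Z → (Fin N → Fin (n + 1)) × (Fin M → Fin 4 → Bool) := fun z =>
      (fun j => if h : (j : ℕ) < 2 then Fin.castLE (by omega) (z.1 ⟨j, h⟩) else 0,
        fun i l => if h : (i : ℕ) < 3 ∧ (l : ℕ) < 2 then z.2 ⟨i, h.1⟩ ⟨l, h.2⟩ else false)
    have hinj : Function.Injective emb := by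
      intro z z' h
      obtain ⟨h1, h2⟩ := Prod.ext_iff.1 h
      refine Prod.ext (funext fun j => ?_) (funext fun i => funext fun l => ?_)
      · have := congrFun h1 ⟨j, by omega⟩
        simp only [emb, dif_pos j.2] at this
        exact Fin.castLE_injective _ this
      · have := congrFun (congrFun h2 ⟨i, by omega⟩) ⟨l, by omega⟩
        have hl : (i : ℕ) < 3 ∧ (l : ℕ) < 2 := ⟨i.2, l.2⟩
        simpa only [emb, dif_pos hl] using this
    have hk : ∀ z, ∑ j : Fin N, ((j : ℕ) + 1) * ((emb z).1 j : ℕ) = zk z := fun z => by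
      rw [← Fintype.sum_of_injective (fun j : Fin 2 => Fin.castLE hN j) (Fin.castLE_injective _)
        (fun j => ((j : ℕ) + 1) * (z.1 j : ℕ))]
      · simp [zk, Fin.sum_univ_two]
      · intro j hj
        have : ¬ (j : ℕ) < 2 := fun h => hj ⟨⟨j, h⟩, rfl⟩
        simp [emb, this]
      · intro j
        simp [emb, j.2]
    have hmarks : ∀ z, mw (emb z).2 = zm z := fun z => by
      rw [mw, ← Fintype.sum_of_injective (fun i : Fin 3 => Fin.castLE hM i) (Fin.castLE_injective _)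
        (fun i => (2 * (i : ℕ) + 1) * ((z.2 i 0).toNat + (z.2 i 1).toNat))]
      · intro i hi
        have : ¬ (i : ℕ) < 3 := fun h => hi ⟨⟨i, h⟩, rfl⟩
        simp [emb, this, SpTuple.marks]
      · intro i
        have hi : ((Fin.castLE hM i : Fin M) : ℕ) < 3 := i.2
        rw [show (emb z).2 (Fin.castLE hM i) = ![z.2 i 0, z.2 i 1, false, false] from funext fun l => by
          fin_cases l <;> simp [emb, hi]]
        simp only [Fin.val_castLE]
        cases z.2 i 0 <;> cases z.2 i 1 <;> simp [SpTuple.marks, Finset.filter_insert, show (Finset.univ : Finset (Fin 4)) = {0, 1, 2, 3} from rfl]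
    have hK : ∀ z, ∑ j : Fin N, ((emb z).1 j : ℕ) = (z.1 0 : ℕ) + (z.1 1 : ℕ) := fun z => by
      rw [← Fintype.sum_of_injective (fun j : Fin 2 => Fin.castLE hN j) (Fin.castLE_injective _)
        (fun j => (z.1 j : ℕ))]
      · simp [Fin.sum_univ_two]
      · intro j hj
        have : ¬ (j : ℕ) < 2 := fun h => hj ⟨⟨j, h⟩, rfl⟩
        simp [emb, this]
      · intro j
        simp [emb, j.2]
    have hlow : ∀ z ∈ S, ((3 : ℚ) ^ (2 - (zk z + zm z / 2))) / 9 ≤ wt (1 / 3) (emb z) := by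
      intro z hz
      obtain ⟨hz₀, hne⟩ := Finset.mem_filter.1 hz
      obtain ⟨-, hodd, hle⟩ := Finset.mem_filter.1 hz₀
      rw [wt_odd (emb z) (m := zm z / 2) (by rw [hmarks]; omega), hk]
      have h1 : ((1 : ℚ) / 3) ^ (zm z / 2) ≤ (rt ^ 2) ^ (zm z / 2) :=
        pow_le_pow_left₀ (by norm_num) (by norm_num [rt]) _
      refine le_trans (le_of_eq ?_) (mul_le_mul_of_nonneg_left h1 (by positivity))
      obtain ⟨e, he⟩ : ∃ e, zk z + zm z / 2 + e = 2 := ⟨2 - (zk z + zm z / 2), by omega⟩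
      rw [show 2 - (zk z + zm z / 2) = e by omega, ← pow_add, div_pow, one_pow,
        show (9 : ℚ) = 3 ^ (zk z + zm z / 2 + e) by rw [he]; norm_num, pow_add]
      field_simp
    have hS : ∀ m : ℕ, m = 3 ∨ m = 4 ∨ m = 5 → ∑ z ∈ S₀.filter (fun z => zn z ≠ m), 3 ^ (2 - (zk z + zm z / 2)) =
        if m = 3 then 36 else if m = 4 then 38 else 40 := by
      rintro m (rfl | rfl | rfl) <;> decide +kernel
    have hS' : ∑ z ∈ S, 3 ^ (2 - (zk z + zm z / 2)) = if n = 3 then 36 else if n = 4 then 38 else 40 := by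
      rcases Nat.lt_or_ge n 5 with h | h
      · exact hS n (by omega)
      · have hmax : ∀ z ∈ S₀, zn z ≤ 4 := by decide +kernel
        rw [if_neg (by omega), if_neg (by omega), show S = S₀.filter (fun z => zn z ≠ 5) from
          Finset.filter_congr fun z hz => by have := hmax z hz; constructor <;> intro <;> omega]
        simpa using hS 5 (by omega)
    calc ((if n = 3 then 36 else if n = 4 then 38 else 40) : ℚ) / 27
          = (1 / 3) * ∑ z ∈ S, ((3 : ℚ) ^ (2 - (zk z + zm z / 2))) / 9 := by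
          rw [← Finset.sum_div, show (∑ z ∈ S, (3 : ℚ) ^ (2 - (zk z + zm z / 2))) =
            ((if n = 3 then 36 else if n = 4 then 38 else 40 : ℕ) : ℚ) by exact_mod_cast hS']
          push_cast
          ring
      _ ≤ (1 / 3) * ∑ z ∈ S, wt (1 / 3) (emb z) :=
          mul_le_mul_of_nonneg_left (Finset.sum_le_sum hlow) (by norm_num)
      _ = ∑ y ∈ S.image emb, wt (1 / 3) y * ((1 / 3) * (if PlusMarks y.2 ∧ small y then 1 else 0)) := by
          rw [Finset.sum_image fun a _ b _ h => hinj h, Finset.mul_sum]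
          refine Finset.sum_congr rfl fun z hz => ?_
          obtain ⟨hz₀, hne⟩ := Finset.mem_filter.1 hz
          obtain ⟨-, hodd, hle⟩ := Finset.mem_filter.1 hz₀
          rw [if_pos ⟨fun i => ⟨by simp [emb], by simp [emb]⟩, by
            simp only [small, hk, hK, hmarks]; exact ⟨hle, hne⟩⟩]
          ring
      _ ≤ _ := Finset.sum_le_sum_of_subset_of_nonneg (Finset.subset_univ _) fun y _ _ => by
          have := wt_nonneg (r := (1 / 3 : ℚ)) (by norm_num) y
          split_ifs <;> positivity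

theorem hpm_bounds : ∀ M, hp M ≤ hp 6 + (9 / 5) * rt ^ 12 ∧ 0 ≤ hm M ∧
    hp M ^ 2 - hm M ^ 2 ≤ (hp 6 + (9 / 5) * rt ^ 12) ^ 2 - (hm 6 - (1 / 2) * rt ^ 12) ^ 2 := by
  have hbig : ∀ s, hp (6 + s) ≤ hp 6 + (9 / 5) * rt ^ 12 - (9 / 5) * rt ^ (2 * (6 + s)) ∧
      hm 6 - (1 / 2) * rt ^ 12 + (1 / 2) * rt ^ (2 * (6 + s)) ≤ hm (6 + s) ∧ hm (6 + s) ≤ hm 6 := by
    intro s
    induction s with
    | zero => norm_num [hp, hm, rt, Finset.prod_range_succ]
    | succ s ih =>
      obtain ⟨h1, h2, h3⟩ := ih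
      have hB : hp 6 + (9 / 5) * rt ^ 12 ≤ 207 / 100 := by norm_num [hp, rt, Finset.prod_range_succ]
      have hL : hm 6 ≤ 31 / 100 ∧ (3 : ℚ) / 10 ≤ hm 6 - (1 / 2) * rt ^ 12 := by
        norm_num [hm, rt, Finset.prod_range_succ]
      have hv : (0 : ℚ) < rt ^ (2 * (6 + s)) := pow_pos (by norm_num [rt]) _
      have e1 : hp (6 + (s + 1)) = hp (6 + s) * (1 + rt ^ (2 * (6 + s)) * rt) := by
        rw [← Nat.add_assoc, hp, Finset.prod_range_succ, ← hp, pow_succ]
      have e2 : hm (6 + (s + 1)) = hm (6 + s) * (1 - rt ^ (2 * (6 + s)) * rt) := by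
        rw [← Nat.add_assoc, hm, Finset.prod_range_succ, ← hm, pow_succ]
      have e3 : rt ^ (2 * (6 + (s + 1))) = rt ^ (2 * (6 + s)) * rt * rt := by
        rw [show 2 * (6 + (s + 1)) = 2 * (6 + s) + 1 + 1 by ring, pow_succ, pow_succ]
      rw [e1, e2, e3]
      generalize rt ^ (2 * (6 + s)) = V at *
      generalize hp 6 + (9 / 5) * rt ^ 12 = B at *
      obtain ⟨hL1, hL2⟩ := hL
      generalize hm 6 - (1 / 2) * rt ^ 12 = L at *
      simp only [rt]
      exact ⟨by nlinarith, by nlinarith, by nlinarith⟩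
  intro M
  rcases Nat.lt_or_ge M 6 with h | h
  · interval_cases M <;> norm_num [hp, hm, rt, Finset.prod_range_succ]
  · obtain ⟨s, rfl⟩ := Nat.exists_eq_add_of_le h
    obtain ⟨h1, h2, h3⟩ := hbig s
    have h0 : 0 ≤ hp (6 + s) := Finset.prod_nonneg fun i _ => by
      have : (0 : ℚ) ≤ rt ^ (2 * i + 1) := pow_nonneg (by norm_num [rt]) _
      linarith
    have hv : (0 : ℚ) ≤ rt ^ (2 * (6 + s)) := pow_nonneg (by norm_num [rt]) _
    have hL : (0 : ℚ) ≤ hm 6 - (1 / 2) * rt ^ 12 := by norm_num [hm, rt, Finset.prod_range_succ]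
    refine ⟨by linarith, by linarith, ?_⟩
    have e1 := pow_le_pow_left₀ h0 (show hp (6 + s) ≤ hp 6 + (9 / 5) * rt ^ 12 by linarith) 2
    have e2 := pow_le_pow_left₀ hL (show hm 6 - (1 / 2) * rt ^ 12 ≤ hm (6 + s) by linarith) 2
    linarith

theorem geo_nonneg {r : ℚ} (hr : 0 ≤ r) (N n : ℕ) : 0 ≤ geo r N n :=
  Finset.prod_nonneg fun j _ => Finset.sum_nonneg fun k _ => by positivity

theorem geo_mul_le {r : ℚ} (hr : 0 ≤ r) (hr1 : r ≤ 1) (N n : ℕ) :
    geo r N n * ∏ j ∈ Finset.range N, (1 - r ^ (j + 1)) ≤ 1 := by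
  rw [geo, ← Fin.prod_univ_eq_prod_range (fun j => (1 - r ^ (j + 1))), ← Finset.prod_mul_distrib]
  refine Finset.prod_le_one (fun j _ => mul_nonneg (Finset.sum_nonneg fun k _ => by positivity) ?_) fun j _ => ?_
  · have : r ^ ((j : ℕ) + 1) ≤ 1 := pow_le_one₀ hr hr1
    linarith
  rw [Fin.sum_univ_eq_sum_range (fun k => (r ^ ((j : ℕ) + 1)) ^ k), geom_sum_mul_neg]
  have : (0 : ℚ) ≤ (r ^ ((j : ℕ) + 1)) ^ (n + 1) := by positivity
  linarith

theorem low_five : ∀ N, (3 : ℚ) / 4 + (1 / 4) * (1 / 5) ^ N ≤ ∏ j ∈ Finset.range N, (1 - (1 / 5 : ℚ) ^ (j + 1)) := by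
  intro N
  induction N with
  | zero => norm_num
  | succ N ih =>
    rw [Finset.prod_range_succ, pow_succ _ N]
    have hx : (0 : ℚ) < (1 / 5) ^ N := by positivity
    have hx1 : (1 / 5 : ℚ) ^ N ≤ 1 := pow_le_one₀ (by norm_num) (by norm_num)
    generalize (1 / 5 : ℚ) ^ N = x at *
    generalize ∏ j ∈ Finset.range N, (1 - (1 / 5 : ℚ) ^ (j + 1)) = P at *
    nlinarith

/-- The numerical bound. -/
theorem card_const (h3 : 3 ≤ Fintype.card K) (hodd : Odd (Fintype.card K)) (n : ℕ) (hn : 2 ≤ n) :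
    5 * Nat.card (Data K (2 * n) (n + 1) n) + 30 * Nat.card {x : Data K (2 * n) (n + 1) n // IsPlus x} ≤
      292 * Fintype.card K ^ n := by
  classical
  suffices h : 5 * (Nat.card (Data K (2 * n) (n + 1) n) : ℚ) +
      30 * Nat.card {x : Data K (2 * n) (n + 1) n // IsPlus x} ≤ 292 * (Fintype.card K : ℚ) ^ n by
    exact_mod_cast h
  have hrt : (0 : ℚ) < 2 * rt := by norm_num [rt]
  obtain ⟨hB, hL0, hP⟩ := hpm_bounds (n + 1)
  have hp0 : 0 ≤ hp (n + 1) := Finset.prod_nonneg fun i _ => by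
    have : (0 : ℚ) ≤ rt ^ (2 * i + 1) := pow_nonneg (by norm_num [rt]) _
    linarith
  set q : ℚ := (Fintype.card K : ℚ) with hq
  have hq0 : 0 ≤ q ^ n := by positivity
  have hq3 : (3 : ℚ) ≤ q := by rw [hq]; exact_mod_cast h3
  rcases eq_or_lt_of_le hn with h2 | h2
  · subst h2
    have d1 := card_data_le (K := K) (r := 1 / 3) (by norm_num) (by linarith) (by norm_num [rt]) (2 * 2) (2 + 1) 2
    have d2 := card_plus_le_crude (K := K) (r := 1 / 3) (by norm_num) (by linarith) (by norm_num [rt]) (2 * 2) (2 + 1) 2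
    refine le_trans (add_le_add (mul_le_mul_of_nonneg_left d1 (by norm_num))
      (mul_le_mul_of_nonneg_left d2 (by norm_num))) ?_
    rw [mul_left_comm 5, mul_left_comm 30, ← mul_add, mul_comm (292 : ℚ)]
    refine mul_le_mul_of_nonneg_left ?_ hq0
    norm_num [geo, hp, hm, rt, Finset.prod_range_succ, Fin.prod_univ_succ, Fin.sum_univ_succ]
  have hd : hp (n + 1) ^ 4 - hm (n + 1) ^ 4 ≤ (hp 6 + (9 / 5) * rt ^ 12) ^ 4 := by
    have := pow_le_pow_left₀ hp0 hB 4
    have := pow_nonneg hL0 4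
    linarith
  by_cases h5 : 5 ≤ Fintype.card K
  · have hq5 : (5 : ℚ) ≤ q := by rw [hq]; exact_mod_cast h5
    have d1 := card_data_le (K := K) (r := 1 / 5) (by norm_num) (by linarith) (by norm_num [rt]) (2 * n) (n + 1) n
    have d2 := card_plus_le_crude (K := K) (r := 1 / 5) (by norm_num) (by linarith) (by norm_num [rt]) (2 * n) (n + 1) n
    refine le_trans (add_le_add (mul_le_mul_of_nonneg_left d1 (by norm_num))
      (mul_le_mul_of_nonneg_left d2 (by norm_num))) ?_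
    rw [mul_left_comm 5, mul_left_comm 30, ← mul_add, mul_comm (292 : ℚ)]
    refine mul_le_mul_of_nonneg_left ?_ hq0
    have hg : geo (1 / 5) (2 * n) n ≤ 4 / 3 := by
      have h := geo_mul_le (r := (1 / 5 : ℚ)) (by norm_num) (by norm_num) (2 * n) n
      have hl := low_five (2 * n)
      have : (0 : ℚ) ≤ (1 / 5 : ℚ) ^ (2 * n) := by positivity
      have hg0 := geo_nonneg (r := (1 / 5 : ℚ)) (by norm_num) (2 * n) n
      nlinarith
    have hg0 := geo_nonneg (r := (1 / 5 : ℚ)) (by norm_num) (2 * n) n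
    have hd2 : hp (n + 1) ^ 2 - hm (n + 1) ^ 2 ≤ (hp 6 + (9 / 5) * rt ^ 12) ^ 2 := by
      have := pow_le_pow_left₀ hp0 hB 2
      have := pow_nonneg hL0 2
      linarith
    have e1 := mul_le_mul_of_nonneg_left ((div_le_div_iff_of_pos_right hrt).2 hd) hg0
    have e2 := mul_le_mul_of_nonneg_left ((div_le_div_iff_of_pos_right hrt).2 hd2) hg0
    have e3 : 5 * ((hp 6 + (9 / 5) * rt ^ 12) ^ 4 / (2 * rt)) + 30 * ((hp 6 + (9 / 5) * rt ^ 12) ^ 2 / (2 * rt))
        ≤ 219 := by norm_num [hp, rt, Finset.prod_range_succ]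
    have e4 := mul_le_mul hg e3 (by positivity) (by norm_num)
    linarith
  · have hq3' : Fintype.card K = 3 := by
      obtain ⟨k, hk⟩ := hodd
      omega
    have hq' : q = 3 := by rw [hq, hq3']; norm_num
    have d1 := card_data_le (K := K) (r := 1 / 3) (by norm_num) (by linarith) (by norm_num [rt]) (2 * n) (n + 1) n
    have d2 := card_plus_le_three (K := K) hq3' (2 * n) (n + 1) n (by omega) (by omega) (by omega)
    rw [← hq, hq'] at d1
    rw [hq']
    refine le_trans (add_le_add (mul_le_mul_of_nonneg_left d1 (by norm_num))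
      (mul_le_mul_of_nonneg_left d2 (by norm_num))) ?_
    rw [mul_left_comm 5, mul_left_comm 30, ← mul_add, mul_comm (292 : ℚ)]
    refine mul_le_mul_of_nonneg_left ?_ (by positivity)
    by_cases hn3 : n = 3
    · subst hn3
      norm_num [geo, hp, hm, rt, Finset.prod_range_succ, Fin.prod_univ_succ, Fin.sum_univ_succ]
    by_cases hn4 : n = 4
    · subst hn4
      norm_num [geo, hp, hm, rt, Finset.prod_range_succ, Fin.prod_univ_succ, Fin.sum_univ_succ]
    rw [if_neg hn3, if_neg hn4]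
    have hA0 : (0 : ℚ) < low 7 - (1 / 2) * (1 / 3 : ℚ) ^ 7 := by norm_num [low, Finset.prod_range_succ]
    have hg : geo (1 / 3) (2 * n) n ≤ 1 / (low 7 - (1 / 2) * (1 / 3 : ℚ) ^ 7) := by
      rw [le_div_iff₀ hA0]
      exact le_trans (mul_le_mul_of_nonneg_left (low_ge (2 * n)) (geo_nonneg (by norm_num) _ _))
        (geo_mul_le (by norm_num) (by norm_num) _ _)
    have hg0 := geo_nonneg (r := (1 / 3 : ℚ)) (by norm_num) (2 * n) n
    have e1 := mul_le_mul_of_nonneg_left ((div_le_div_iff_of_pos_right hrt).2 hd) hg0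
    have e2 := mul_le_mul_of_nonneg_left ((div_le_div_iff_of_pos_right hrt).2 hP) hg0
    have hz : (0 : ℚ) ≤ 5 * ((hp 6 + (9 / 5) * rt ^ 12) ^ 4 / (2 * rt)) +
        30 * (((hp 6 + (9 / 5) * rt ^ 12) ^ 2 - (hm 6 - (1 / 2) * rt ^ 12) ^ 2) / (2 * rt)) := by
      norm_num [hp, hm, rt, Finset.prod_range_succ]
    have e3 : 1 / (low 7 - (1 / 2) * (1 / 3 : ℚ) ^ 7) * (5 * ((hp 6 + (9 / 5) * rt ^ 12) ^ 4 / (2 * rt)) +
        30 * (((hp 6 + (9 / 5) * rt ^ 12) ^ 2 - (hm 6 - (1 / 2) * rt ^ 12) ^ 2) / (2 * rt))) ≤ 292 + 30 * (40 / 27) := by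
      norm_num [low, hp, hm, rt, Finset.prod_range_succ]
    have e4 := mul_le_mul_of_nonneg_right hg hz
    linarith

end Cfsg.Agent.H66.OddTuple
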