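/-
Classes of orthogonal groups in odd dimension, odd characteristic, coded by tuples with marks.
-/
import Cfsg.Agent.H66.OrthClassData
import Cfsg.Agent.H66.OrthTupleOdd

set_option autoImplicit false

open Polynomial Module UniqueFactorizationMonoid
open LinearMap (BilinForm)
open Cfsg.Agent.H66.SpData (mult rest enc enc_spec enc_inj enc_true_of_even palPart prod_eq_split marks_vec)

namespace Cfsg.Agent.H66.OrthData

universe u v

variable {K : Type u} [Field K]
variable {V : Type v} [AddCommGroup V] [Module K V] [FiniteDimensional K V]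

/-- A code for an isometry of an odd-dimensional space with signs. -/
theorem exists_code_odd [Fintype K] (h2 : (2 : K) ≠ 0) {B : BilinForm K V} {n : ℕ}
    (hV : finrank K V = 2 * n + 1) :
    ∃ D : {T : Module.End K V // OrthSplit.IsOSys B T} → (ℕ → Bool) → (ℕ → Bool) →
        OddTuple.Data K (2 * n) (n + 1) n,
      (∀ T T' σ σ' τ τ', D T σ σ' = D T' τ τ' →
        (∃ L : V ≃ₗ[K] V, ∀ x, L (T.1 x) = T'.1 (L x)) ∧
        (∀ s, Odd s → SpSplit.hasPlus T.1 s → σ s = τ s) ∧
        (∀ s, Odd s → SpSplit.hasMinus T.1 s → σ' s = τ' s)) ∧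
      (∀ T : {T : Module.End K V // OrthSplit.IsOSys B T}, ∃ s, Odd s ∧ (SpSplit.hasPlus T.1 s ∨ SpSplit.hasMinus T.1 s)) ∧
      ∀ (T : {T : Module.End K V // OrthSplit.IsOSys B T}) σ σ', (∀ s, Odd s → ¬ SpSplit.hasMinus T.1 s) → OddTuple.IsPlus (D T σ σ') := by
  classical
  have hdata : ∀ T : {T : Module.End K V // OrthSplit.IsOSys B T},
      ∃ (ι : Type u) (_ : Fintype ι) (p : ι → K[X]) (e : ι → ℕ), IsDecomp T.1 p e :=
    fun T => exists_isDecomp _
  choose ι hι p e hdec using hdata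
  let E1 : {T : Module.End K V // OrthSplit.IsOSys B T} → (ℕ → Bool) → ℕ → ℕ × Bool × Bool :=
    fun g σ s => enc (mult (p g) (e g) 1 s) (if Even s then true else σ s)
  let E2 : {T : Module.End K V // OrthSplit.IsOSys B T} → (ℕ → Bool) → ℕ → ℕ × Bool × Bool :=
    fun g σ s => enc (mult (p g) (e g) (-1) s) (if Even s then true else σ s)
  let P : {T : Module.End K V // OrthSplit.IsOSys B T} → (ℕ → Bool) → (ℕ → Bool) → ℕ → K[X] :=
    fun g σ σ' s => palPart (p g) (e g) (if Even s then true else σ s) (if Even s then true else σ' s) s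
  have heven : ∀ g σ σ' s, Even s → (E1 g σ s).2 = (false, false) ∧ (E2 g σ' s).2 = (false, false) := by
    intro g σ σ' s hs
    obtain ⟨h1, h3⟩ := even_mults h2 g.2 (hdec g) hs
    simp only [E1, E2, if_pos hs, enc_true_of_even h1, enc_true_of_even h3, and_self]
  let β : {T : Module.End K V // OrthSplit.IsOSys B T} → (ℕ → Bool) → (ℕ → Bool) → ℕ → ℕ := fun g σ σ' s =>
    (E1 g σ s).2.1.toNat + (E1 g σ s).2.2.toNat + ((E2 g σ' s).2.1.toNat + (E2 g σ' s).2.2.toNat)
  have hdeg : ∀ g σ σ' s, (∏ i with e g i = s, p g i).natDegree = (P g σ σ' s).natDegree + β g σ σ' s := by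
    intro g σ σ' s
    rw [natDegree_prod_split h2 (hdec g), palPart_natDegree (hdec g)]
    have a1 := enc_spec (mult (p g) (e g) 1 s) (if Even s then true else σ s)
    have a2 := enc_spec (mult (p g) (e g) (-1) s) (if Even s then true else σ' s)
    simp only [β, E1, E2]
    omega
  have hlevel : ∀ g i, e g i ≤ 2 * n + 1 := fun g i => by
    have h1 : e g i * (p g i).natDegree ≤ 2 * n + 1 := by
      rw [← hV, ← degree_sum (hdec g)]
      exact Finset.single_le_sum (f := fun i => e g i * (p g i).natDegree) (fun i _ => Nat.zero_le _) (Finset.mem_univ i)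
    have h3 := Nat.le_mul_of_pos_right (e g i) ((hdec g).irreducible i).natDegree_pos
    omega
  have htot : ∀ g σ σ', ∑ j : Fin (2 * n + 1), ((j : ℕ) + 1) *
      ((P g σ σ' (j + 1)).natDegree + β g σ σ' (j + 1)) = 2 * n + 1 := by
    intro g σ σ'
    refine Eq.trans ?_ ((degree_sum (hdec g)).trans hV)
    have hmaps : ∀ i ∈ (Finset.univ : Finset (ι g)),
        (⟨e g i - 1, by have := hlevel g i; have := (hdec g).pos i; omega⟩ : Fin (2 * n + 1)) ∈
          (Finset.univ : Finset (Fin (2 * n + 1))) := fun i _ => Finset.mem_univ _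
    rw [← Finset.sum_fiberwise_of_maps_to hmaps fun i => e g i * (p g i).natDegree]
    refine Finset.sum_congr rfl fun j _ => ?_
    rw [← hdeg, natDegree_prod_of_monic _ _ fun i _ => (hdec g).monic i, Finset.mul_sum]
    refine Finset.sum_congr (Finset.filter_congr fun i _ => ?_) fun i hi => ?_
    · have := (hdec g).pos i
      rw [Fin.ext_iff]
      show _ ↔ e g i - 1 = (j : ℕ)
      omega
    · have := (hdec g).pos i
      have h3 : e g i - 1 = (j : ℕ) := congrArg Fin.val (Finset.mem_filter.1 hi).2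
      rw [show e g i = (j : ℕ) + 1 by omega]
  have hpeven : ∀ g σ σ' s, ∃ k, (P g σ σ' s).natDegree = 2 * k := fun g σ σ' s => by
    obtain ⟨k, hk⟩ := (palPart_pal h2 g.2 (hdec g) (if Even s then true else σ s)
      (if Even s then true else σ' s) s).2.1
    exact ⟨k, by show (palPart (p g) (e g) _ _ s).natDegree = 2 * k; omega⟩
  choose k hk using hpeven
  let mk4 : {T : Module.End K V // OrthSplit.IsOSys B T} → (ℕ → Bool) → (ℕ → Bool) → ℕ → Fin 4 → Bool :=
    fun g σ σ' s => ![(E1 g σ s).2.1, (E1 g σ s).2.2, (E2 g σ' s).2.1, (E2 g σ' s).2.2]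
  have hmarks : ∀ g σ σ' s, SpTuple.marks (mk4 g σ σ' s) = β g σ σ' s := fun g σ σ' s => marks_vec _ _ _ _
  have hsum : ∀ g σ σ', 2 * ∑ j : Fin (2 * n + 1), ((j : ℕ) + 1) * k g σ σ' ((j : ℕ) + 1) +
      ∑ i : Fin (n + 1), (2 * (i : ℕ) + 1) * β g σ σ' (2 * (i : ℕ) + 1) = 2 * n + 1 := by
    intro g σ σ'
    have h := htot g σ σ'
    simp only [mul_add, Finset.sum_add_distrib, hk] at h
    have hβ : ∑ i : Fin (n + 1), (2 * (i : ℕ) + 1) * β g σ σ' (2 * (i : ℕ) + 1) =
        ∑ j : Fin (2 * n + 1), ((j : ℕ) + 1) * β g σ σ' ((j : ℕ) + 1) := by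
      refine Fintype.sum_of_injective (fun i : Fin (n + 1) => (⟨2 * (i : ℕ), by omega⟩ : Fin (2 * n + 1)))
        (fun a b hab => by
          have := congrArg Fin.val hab
          simp only at this
          exact Fin.ext (by omega)) _ _ (fun j hj => ?_) (fun i => rfl)
      have hje : Even ((j : ℕ) + 1) := by
        by_contra hne
        rw [Nat.not_even_iff_odd] at hne
        obtain ⟨t, ht⟩ := hne
        exact hj ⟨⟨t, by omega⟩, Fin.ext (by simp only; omega)⟩
      have := heven g σ σ' _ hje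
      simp only [β, this.1, this.2, Bool.toNat_false, add_zero, mul_zero]
    have h4 : ∑ j : Fin (2 * n + 1), ((j : ℕ) + 1) * (2 * k g σ σ' ((j : ℕ) + 1)) =
        2 * ∑ j : Fin (2 * n + 1), ((j : ℕ) + 1) * k g σ σ' ((j : ℕ) + 1) := by
      rw [Finset.mul_sum]
      exact Finset.sum_congr rfl fun j _ => by ring
    omega
  have hkle : ∀ g σ σ' (j : Fin (2 * n + 1)), k g σ σ' ((j : ℕ) + 1) < n + 1 := fun g σ σ' j => by
    have h := hsum g σ σ'
    have h1 : ((j : ℕ) + 1) * k g σ σ' ((j : ℕ) + 1) ≤ n := le_trans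
      (Finset.single_le_sum (f := fun j : Fin (2 * n + 1) => ((j : ℕ) + 1) * k g σ σ' ((j : ℕ) + 1))
        (fun i _ => Nat.zero_le _) (Finset.mem_univ j)) (by omega)
    have h3 := Nat.le_mul_of_pos_left (k g σ σ' ((j : ℕ) + 1)) (show 0 < (j : ℕ) + 1 by omega)
    omega
  let D : {T : Module.End K V // OrthSplit.IsOSys B T} → (ℕ → Bool) → (ℕ → Bool) →
      OddTuple.Data K (2 * n) (n + 1) n := fun g σ σ' =>
    ⟨⟨(fun j => ⟨k g σ σ' ((j : ℕ) + 1), hkle g σ σ' j⟩, fun i => mk4 g σ σ' (2 * (i : ℕ) + 1)), by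
      simp only [OrthTuple.mw, hmarks]
      exact hsum g σ σ'⟩, fun j t => (P g σ σ' ((j : ℕ) + 1)).coeff ((t : ℕ) + 1)⟩
  have hrec : ∀ g σ σ' (j : Fin (2 * n + 1)), P g σ σ' ((j : ℕ) + 1) =
      SpChar.palPoly (((D g σ σ').1.1.1 j : ℕ)) ((D g σ σ').2 j) := by
    intro g σ σ' j
    have hP := palPart_pal h2 g.2 (hdec g) (if Even ((j : ℕ) + 1) then true else σ ((j : ℕ) + 1))
      (if Even ((j : ℕ) + 1) then true else σ' ((j : ℕ) + 1)) ((j : ℕ) + 1)
    set m := k g σ σ' ((j : ℕ) + 1) with hm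
    have hd : (P g σ σ' ((j : ℕ) + 1)).natDegree = 2 * m := hk g σ σ' _
    have htop : (P g σ σ' ((j : ℕ) + 1)).coeff (2 * m) = 1 := by rw [← hd]; exact hP.1.coeff_natDegree
    show P g σ σ' ((j : ℕ) + 1) =
      SpChar.palPoly m fun t : Fin m => (P g σ σ' ((j : ℕ) + 1)).coeff ((t : ℕ) + 1)
    refine Polynomial.ext fun i => ?_
    rcases Nat.lt_or_ge (2 * m) i with hi | hi
    · rw [coeff_eq_zero_of_natDegree_lt (by omega),
        coeff_eq_zero_of_natDegree_lt (by rw [(SpChar.palPoly_spec m _).2.1]; omega)]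
    · rw [SpChar.palPoly_coeff _ _ _ hi]
      by_cases h0 : i = 0 ∨ i = 2 * m
      · rw [if_pos h0]
        rcases h0 with rfl | rfl
        · have := hP.coeff_symm hd 0 (Nat.zero_le _)
          rw [Nat.sub_zero, htop] at this
          exact this.symm
        · exact htop
      · rw [if_neg h0, dif_pos (by omega)]
        show _ = (P g σ σ' ((j : ℕ) + 1)).coeff (min i (2 * m - i) - 1 + 1)
        rcases Nat.le_total i (2 * m - i) with hle | hle
        · rw [min_eq_left hle, show i - 1 + 1 = i by omega]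
        · rw [min_eq_right hle, show 2 * m - i - 1 + 1 = 2 * m - i by omega]
          exact (hP.coeff_symm hd i hi).symm
  refine ⟨D, fun g g' σ σ' τ τ' hD => ?_, fun g => ?_, fun g σ σ' hg => ?_⟩
  · have hE : ∀ s, 1 ≤ s → s ≤ 2 * n + 1 →
        E1 g σ s = E1 g' τ s ∧ E2 g σ' s = E2 g' τ' s ∧ rest (p g) (e g) s = rest (p g') (e g') s := by
      intro s hs hs'
      obtain ⟨h1, h3, h4⟩ := palPart_inj h2 (hdec g) (hdec g')
        (show palPart _ _ (if Even s then true else σ s) (if Even s then true else σ' s) s =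
          palPart _ _ (if Even s then true else τ s) (if Even s then true else τ' s) s by
        have := hrec g σ σ' ⟨s - 1, by omega⟩
        rw [hD, ← hrec g' τ τ' ⟨s - 1, by omega⟩] at this
        simpa only [P, Nat.sub_add_cancel hs] using this)
      rcases Nat.even_or_odd s with he | ho
      · exact ⟨Prod.ext h1 ((heven g σ σ' s he).1.trans (heven g' τ τ' s he).1.symm),
          Prod.ext h3 ((heven g σ σ' s he).2.trans (heven g' τ τ' s he).2.symm), h4⟩
      · obtain ⟨t, ht⟩ := ho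
        have hh : mk4 g σ σ' (2 * t + 1) = mk4 g' τ τ' (2 * t + 1) := by
          show (D g σ σ').1.1.2 ⟨t, by omega⟩ = (D g' τ τ').1.1.2 ⟨t, by omega⟩
          rw [hD]
        rw [← ht] at hh
        simp only [mk4] at hh
        exact ⟨Prod.ext h1 (Prod.ext (congrFun hh 0) (congrFun hh 1)),
          Prod.ext h3 (Prod.ext (congrFun hh 2) (congrFun hh 3)), h4⟩
    have hcnt : ∀ Q s, decompCount (p g) (e g) Q s = decompCount (p g') (e g') Q s := by
      intro Q s
      by_cases hs : 1 ≤ s ∧ s ≤ 2 * n + 1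
      · obtain ⟨h1, h3, h4⟩ := hE s hs.1 hs.2
        rw [count_eq_decompCount (hdec g), count_eq_decompCount (hdec g'), prod_eq_split h2, prod_eq_split h2,
          (enc_inj h1).1, (enc_inj h3).1, h4]
      · have hemp : ∀ g, decompCount (p g) (e g) Q s = 0 := fun g => by
          have : IsEmpty {i // p g i = Q ∧ e g i = s} := ⟨fun i => by
            have := hlevel g i.1; have := (hdec g).pos i.1; have := i.2.2; omega⟩
          simp [decompCount]
        rw [hemp, hemp]
    have hpos : ∀ (c : K) s, mult (p g) (e g) c s ≠ 0 → 1 ≤ s ∧ s ≤ 2 * n + 1 := by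
      intro c s hs
      rw [mult, decompCount] at hs
      obtain ⟨⟨i, -, hi⟩⟩ : Nonempty {i // p g i = X - C c ∧ e g i = s} := (Nat.card_ne_zero.1 hs).1
      have := hlevel g i; have := (hdec g).pos i; omega
    refine ⟨exists_equiv_of_count_eq (hdec g) (hdec g') hcnt, fun s ho hex => ?_, fun s ho hex => ?_⟩
    · have hm := (hasPlus_iff (hdec g) s).1 hex
      obtain ⟨h1, -, -⟩ := hE s (hpos _ _ hm).1 (hpos _ _ hm).2
      simpa only [if_neg (Nat.not_even_iff_odd.2 ho)] using (enc_inj h1).2 hm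
    · have hm := (hasMinus_iff h2 (hdec g) s).1 hex
      obtain ⟨-, h3, -⟩ := hE s (hpos _ _ hm).1 (hpos _ _ hm).2
      simpa only [if_neg (Nat.not_even_iff_odd.2 ho)] using (enc_inj h3).2 hm
  · by_contra hno
    push Not at hno
    have h := hsum g (fun _ => true) (fun _ => true)
    have hb : ∀ i : Fin (n + 1), β g (fun _ => true) (fun _ => true) (2 * (i : ℕ) + 1) = 0 := fun i => by
      have ho : Odd (2 * (i : ℕ) + 1) := ⟨i, rfl⟩
      have h1 := not_not.1 (fun hc => (hno _ ho).1 ((hasPlus_iff (hdec g) _).2 hc))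
      have h3 := not_not.1 (fun hc => (hno _ ho).2 ((hasMinus_iff h2 (hdec g) _).2 hc))
      simp only [β, E1, E2, h1, h3]
      simp [enc]
    simp only [hb, mul_zero, Finset.sum_const_zero, add_zero] at h
    omega
  · have hm : ∀ s, Odd s → mult (p g) (e g) (-1) s = 0 := fun s hs =>
      not_not.1 fun hc => hg s hs ((hasMinus_iff h2 (hdec g) s).2 hc)
    refine ⟨fun i => ?_, ?_⟩
    · have ho : Odd (2 * (i : ℕ) + 1) := ⟨i, rfl⟩
      have e2 : (E2 g σ' (2 * (i : ℕ) + 1)).2 = (false, false) := by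
        simp only [E2, hm _ ho]
        simp [enc]
      show mk4 g σ σ' (2 * (i : ℕ) + 1) 2 = false ∧ mk4 g σ σ' (2 * (i : ℕ) + 1) 3 = false
      simp only [mk4, e2]
      exact ⟨rfl, rfl⟩
    · show (SpChar.palPoly _ ((D g σ σ').2 0)).eval (-1) ≠ 0
      rw [← hrec g σ σ' 0]
      show (palPart (p g) (e g) (if Even 1 then true else σ 1) (if Even 1 then true else σ' 1) 1).eval (-1) ≠ 0
      have e2 : ∀ b : Bool, (enc 0 b).1 = 0 := fun b => by simp [enc]
      simp only [palPart, hm 1 odd_one, e2, pow_zero, one_mul, eval_mul, eval_pow, eval_sub, eval_X, eval_C]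
      refine mul_ne_zero (pow_ne_zero _ (pow_ne_zero _ ?_)) (rest_eval (hdec g) (Or.inr rfl) 1)
      intro h0
      exact h2 (by linear_combination -h0)

end Cfsg.Agent.H66.OrthData
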