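/-
The number of classes of the commutator subgroup of an odd-dimensional orthogonal group, odd characteristic.
-/
import Cfsg.Agent.H66.OrthCodeOdd
import Cfsg.Agent.H66.OrthSpinor
import Cfsg.Agent.H66.CosetClasses
import Cfsg.Agent.H66.OrthCharpoly
import Cfsg.Agent.S4200

set_option autoImplicit false

open LinearMap (BilinForm)
open Module Polynomial
open QuadraticMap hiding sq

namespace Cfsg.Agent.H66.OrthOdd

open Cfsg.Agent.H66.SpSplit Cfsg.Agent.H66.OrthSpin

universe u v

variable {F : Type u} [Field F] {V : Type v} [AddCommGroup V] [Module F V] [FiniteDimensional F V]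

theorem kd_neg (h2 : (2 : F) ≠ 0) (T : Module.End F V) :
    kd (fixEnd (-T)) = kd (fixEnd (-movEnd T)) := by
  funext k
  rw [kd, kd, finrank_ker_fixEnd, SpData.hker_minus_aux h2]
  have e : (-T - 1) ^ k = (-1 : F) ^ k • Polynomial.aeval T ((Polynomial.X - Polynomial.C (-1 : F)) ^ k) := by
    rw [map_pow, ← _root_.smul_pow]
    congr 1
    simp [sub_eq_add_neg, add_comm]
  rw [e, LinearMap.ker_smul _ _ (pow_ne_zero _ (by simp))]

theorem hasPlus_neg (h2 : (2 : F) ≠ 0) (T : Module.End F V) (s : ℕ) :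
    (hasPlus (-T) s ↔ hasMinus T s) ∧ (hasMinus (-T) s ↔ hasPlus T s) := by
  have h : ∀ S : Module.End F V, hasPlus (-S) s ↔ hasMinus S s := fun S => by
    simp only [hasPlus, hasMinus]
    rw [kd_neg h2 S]
  refine ⟨h T, ?_⟩
  rw [← h (-T), neg_neg]

theorem has_congr {T T' : Module.End F V} (L : V ≃ₗ[F] V) (hL : ∀ x, L (T x) = T' (L x)) (s : ℕ) :
    (hasPlus T s ↔ hasPlus T' s) ∧ (hasMinus T s ↔ hasMinus T' s) := by
  obtain ⟨⟨P₁, hP₁⟩, ⟨P₂, hP₂⟩⟩ := exists_similar_parts L hL
  have hP₂' : ∀ x, P₂ ((-movEnd T) x) = (-movEnd T') (P₂ x) := fun x => by simp [hP₂]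
  obtain ⟨⟨P₃, hP₃⟩, -⟩ := exists_similar_parts P₂ hP₂'
  simp only [hasPlus, hasMinus]
  exact ⟨by rw [OrthSplit.kd_congr P₁ hP₁], by rw [OrthSplit.kd_congr P₃ hP₃]⟩

theorem sign_cancel {A B A' B' R : Prop} (a1 : A ↔ (B ↔ R)) (a2 : A' ↔ (B' ↔ R)) (a3 : A ↔ A') : B ↔ B' := by
  by_cases hR : R <;> simp_all [not_iff_not]

variable [Fintype F] [Finite V] {Q : QuadraticForm F V}

omit [FiniteDimensional F V] [Fintype F] in
theorem finite_orth (Q : QuadraticForm F V) : Finite (H5.orth Q) :=
  Finite.of_injective (fun g : H5.orth Q => ((g : V ≃ₗ[F] V) : V → V)) fun _ _ h =>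
    H5.orth_ext fun x => congrFun h x

set_option maxHeartbeats 800000

open Classical in
/-- The upper bound through the tuples. -/
theorem four_mul_card_classes_le {p : ℕ} [Fact p.Prime] [CharP F p] (hp : p ≠ 2)
    (hQ : (polarBilin Q).Nondegenerate) {n : ℕ} (hV : finrank F V = 2 * n + 1) (hn : 1 ≤ n) :
    40 * Nat.card (ConjClasses ↥(commutator (H5.orth Q))) ≤
      5 * Nat.card (OddTuple.Data F (2 * n) (n + 1) n) +
        30 * Nat.card {x : OddTuple.Data F (2 * n) (n + 1) n // OddTuple.IsPlus x} := by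
  have hp1 : p.Prime := Fact.out
  have h2 : (2 : F) ≠ 0 := fun h0 => hp ((Nat.prime_dvd_prime_iff_eq hp1 Nat.prime_two).1
    ((CharP.cast_eq_zero_iff F p 2).1 (by exact_mod_cast h0)))
  obtain ⟨D, hD, hodd, hplus⟩ := OrthData.exists_code_odd (B := polarBilin Q) h2 hV
  let G := H5.orth Q
  have : Finite G := finite_orth Q
  let T : G → {T : Module.End F V // OrthSplit.IsOSys (polarBilin Q) T} :=
    fun g => ⟨endHom Q g, isOSys_endHom hQ g⟩
  let P : G → Prop := fun g => ∃ s, Odd s ∧ hasPlus (endHom Q g) s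
  let M : G → Prop := fun g => ∃ s, Odd s ∧ hasMinus (endHom Q g) s
  let sp : G → ℕ → Bool := fun g s => decide (sgnPlus (polarBilin Q) (endHom Q g) s)
  let sm : G → ℕ → Bool := fun g s => decide (sgnMinus (polarBilin Q) (endHom Q g) s)
  let fp : G → ℕ → Bool := fun g s => decide (∃ h : P g, s = Nat.find h)
  let fm : G → ℕ → Bool := fun g s => decide (¬ P g ∧ ∃ h : M g, s = Nat.find h)
  -- similar isometries
  have hconj : ∀ g g' : G, (∃ L : V ≃ₗ[F] V, ∀ x, L (endHom Q g x) = endHom Q g' (L x)) →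
      (∀ s, Odd s → hasPlus (endHom Q g) s → sp g s = sp g' s) →
      (∀ s, Odd s → hasMinus (endHom Q g) s → sm g s = sm g' s) → IsConj g g' := by
    rintro g g' ⟨L, hL⟩ h1 h3
    obtain ⟨φ, hφ, hφT⟩ := OrthSplit.isIso_of_similar hp (isOSys_endHom hQ g) (isOSys_endHom hQ g') L hL
      (fun s ho hex => decide_eq_decide.1 (h1 s ho hex)) (fun s ho hex => decide_eq_decide.1 (h3 s ho hex))
    obtain ⟨c, hc⟩ := exists_of_polar h2 φ hφ
    refine isConj_iff.2 ⟨c, mul_inv_eq_iff_eq_mul.2 (endHom_injective ?_)⟩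
    refine LinearMap.ext fun x => ?_
    rw [map_mul, map_mul, Module.End.mul_apply, Module.End.mul_apply, hc, hc, hφT]
  have hiso : ∀ g g' : G, IsConj g g' →
      IsIso (polarBilin Q) (endHom Q g) (polarBilin Q) (endHom Q g') := by
    intro g g' h
    obtain ⟨c, hc⟩ := isConj_iff.1 h
    refine ⟨(c : V ≃ₗ[F] V), fun x y => H5.orth_polar c x y, fun x => ?_⟩
    have e : c * g = g' * c := mul_inv_eq_iff_eq_mul.1 hc
    exact congrArg (fun z : G => (z : V ≃ₗ[F] V) x) e
  have hsim : ∀ g g' : G, (∃ L : V ≃ₗ[F] V, ∀ x, L (endHom Q g x) = endHom Q g' (L x)) →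
      (P g ↔ P g') ∧ (M g ↔ M g') ∧ (∀ (h : P g) (h' : P g'), Nat.find h = Nat.find h') ∧
        (∀ (h : M g) (h' : M g'), Nat.find h = Nat.find h') := by
    rintro g g' ⟨L, hL⟩
    have hc := fun s => has_congr L hL s
    refine ⟨exists_congr fun s => by rw [(hc s).1], exists_congr fun s => by rw [(hc s).2],
      fun h h' => Nat.find_congr' fun {s} => by rw [(hc s).1], fun h h' => Nat.find_congr' fun {s} => by rw [(hc s).2]⟩
  have hflip : ∀ g g' : G, (∃ L : V ≃ₗ[F] V, ∀ x, L (endHom Q g x) = endHom Q g' (L x)) →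
      fp g = fp g' ∧ fm g = fm g' := by
    intro g g' hL
    obtain ⟨hP, hM, hfP, hfM⟩ := hsim g g' hL
    refine ⟨funext fun s => decide_eq_decide.2 ⟨fun ⟨h, e⟩ => ⟨hP.1 h, e.trans (hfP h _)⟩,
      fun ⟨h, e⟩ => ⟨hP.2 h, e.trans (hfP _ h).symm⟩⟩, funext fun s => decide_eq_decide.2 ⟨?_, ?_⟩⟩
    · exact fun ⟨hn, h, e⟩ => ⟨fun z => hn (hP.2 z), hM.1 h, e.trans (hfM h _)⟩
    · exact fun ⟨hn, h, e⟩ => ⟨fun z => hn (hP.1 z), hM.2 h, e.trans (hfM _ h).symm⟩
  let code : G → Bool → OddTuple.Data F (2 * n) (n + 1) n := fun g b =>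
    D (T g) (fun s => xor (sp g s) (b && fp g s)) (fun s => xor (sm g s) (b && fm g s))
  have hne : ∀ g g' : G, code g false ≠ code g' true := by
    intro g g' hh
    obtain ⟨⟨L, hL⟩, h1, h3⟩ := hD _ _ _ _ _ _ hh
    obtain ⟨hfp, hfm⟩ := hflip g g' ⟨L, hL⟩
    have hdp : ∀ s, sp g s = sp g' s ↔ (sgnPlus (polarBilin Q) (endHom Q g) s ↔ sgnPlus (polarBilin Q) (endHom Q g') s) :=
      fun s => decide_eq_decide
    have hdm : ∀ s, sm g s = sm g' s ↔ (sgnMinus (polarBilin Q) (endHom Q g) s ↔ sgnMinus (polarBilin Q) (endHom Q g') s) :=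
      fun s => decide_eq_decide
    simp only [Bool.false_and, Bool.xor_false, Bool.true_and, ← hfp, ← hfm] at h1 h3
    by_cases hp' : P g
    · obtain ⟨ho, hx⟩ := Nat.find_spec hp'
      set s₀ := Nat.find hp'
      have e1 : ∀ s, fp g s = decide (s = s₀) := fun s => decide_eq_decide.2 ⟨fun ⟨_, e⟩ => e, fun e => ⟨hp', e⟩⟩
      have e2 : ∀ s, fm g s = false := fun s => decide_eq_false fun h => h.1 hp'
      refine OrthSplit.no_flip_plus hp (isOSys_endHom hQ g) (isOSys_endHom hQ g') L hL ho hx (fun e => ?_)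
        (fun s hs hne hxs => (hdp s).1 ?_) (fun s hs hxs => (hdm s).1 ?_)
      · have := h1 s₀ ho hx
        rw [e1, decide_eq_true rfl, (hdp s₀).2 e] at this
        simp at this
      · have := h1 s hs hxs
        rw [e1, decide_eq_false hne] at this
        simpa using this
      · have := h3 s hs hxs
        rw [e2] at this
        simpa using this
    · have hm' : M g := by
        obtain ⟨s, hs, hx⟩ := hodd (T g)
        exact ⟨s, hs, hx.resolve_left fun e => hp' ⟨s, hs, e⟩⟩
      obtain ⟨ho, hx⟩ := Nat.find_spec hm'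
      set s₀ := Nat.find hm'
      have e1 : ∀ s, fm g s = decide (s = s₀) := fun s =>
        decide_eq_decide.2 ⟨fun ⟨_, _, e⟩ => e, fun e => ⟨hp', hm', e⟩⟩
      refine OrthSplit.no_flip_minus hp (isOSys_endHom hQ g) (isOSys_endHom hQ g') L hL ho hx (fun e => ?_)
        (fun s hs hxs => absurd ⟨s, hs, hxs⟩ hp') (fun s hs hne hxs => (hdm s).1 ?_)
      · have := h3 s₀ ho hx
        rw [e1, decide_eq_true rfl, (hdm s₀).2 e] at this
        simp at this
      · have := h3 s hs hxs
        rw [e1, decide_eq_false hne] at this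
        simpa using this
  have hout : ∀ c c' : ConjClasses G, IsConj c.out c'.out → c = c' := fun c c' h => by
    rw [← Quotient.out_eq c, ← Quotient.out_eq c']
    exact ConjClasses.mk_eq_mk_iff_isConj.2 h
  have hcode : ∀ (c c' : ConjClasses G) (b b' : Bool), code c.out b = code c'.out b' → b = b' ∧ c = c' := by
    intro c c' b b' h
    have hb : b = b' := by
      cases b <;> cases b'
      · rfl
      · exact absurd h (hne _ _)
      · exact absurd h.symm (hne _ _)
      · rfl
    subst hb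
    obtain ⟨hL, h1, h3⟩ := hD _ _ _ _ _ _ h
    obtain ⟨hfp, hfm⟩ := hflip _ _ hL
    refine ⟨rfl, hout c c' (hconj _ _ hL (fun s hs hx => ?_) (fun s hs hx => ?_))⟩
    · exact Bool.xor_left_inj.1 ((h1 s hs hx).trans (by rw [hfp]))
    · exact Bool.xor_left_inj.1 ((h3 s hs hx).trans (by rw [hfm]))
  have hmk : ∀ g : G, IsConj (ConjClasses.mk g).out g := fun g =>
    ConjClasses.mk_eq_mk_iff_isConj.1 (Quotient.out_eq (ConjClasses.mk g))
  have hall : 2 * Nat.card (ConjClasses G) ≤ Nat.card (OddTuple.Data F (2 * n) (n + 1) n) := by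
    have h := Nat.card_le_card_of_injective (fun x : ConjClasses G × Bool => code x.1.out x.2) fun x y h =>
      Prod.ext (hcode _ _ _ _ h).2 (hcode _ _ _ _ h).1
    rw [Nat.card_prod] at h
    simp only [Nat.card_eq_fintype_card (α := Bool), Fintype.card_bool] at h
    omega
  -- one-sided classes
  have hpo : 2 * Nat.card {c : ConjClasses G // ¬ M c.out} ≤
      Nat.card {x : OddTuple.Data F (2 * n) (n + 1) n // OddTuple.IsPlus x} := by
    have h := Nat.card_le_card_of_injective
      (fun x : {c : ConjClasses G // ¬ M c.out} × Bool => (⟨code x.1.1.out x.2,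
        hplus (T x.1.1.out) _ _ (fun s hs e => x.1.2 ⟨s, hs, e⟩)⟩ :
          {x : OddTuple.Data F (2 * n) (n + 1) n // OddTuple.IsPlus x})) fun x y h => by
      have h' := hcode _ _ _ _ (congrArg Subtype.val h)
      exact Prod.ext (Subtype.ext h'.2) h'.1
    rw [Nat.card_prod] at h
    simp only [Nat.card_eq_fintype_card (α := Bool), Fintype.card_bool] at h
    omega
  let neg1 : G := H4.negOrth Q
  have hnegend : ∀ g : G, endHom Q (neg1 * g) = -endHom Q g := fun g => LinearMap.ext fun x => rfl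
  have hnegM : ∀ g : G, M (neg1 * g) ↔ P g := fun g => exists_congr fun s => by
    rw [hnegend, (hasPlus_neg h2 _ s).2]
  have hone : Nat.card {c : ConjClasses G // ¬ (P c.out ∧ M c.out)} ≤ 2 * Nat.card {c : ConjClasses G // ¬ M c.out} := by
    have hcentral : ∀ g : G, neg1 * g = g * neg1 := fun g => H5.orth_ext fun x => (map_neg (g : V ≃ₗ[F] V) x).symm
    have h := Nat.card_le_card_of_injective
      (fun c : {c : ConjClasses G // ¬ (P c.out ∧ M c.out)} =>
        (if hm : M c.1.out then ((⟨ConjClasses.mk (neg1 * c.1.out), fun e => c.2 ⟨(hnegM _).1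
            ((hsim _ _ ⟨_, fun x => (hiso _ _ (hmk (neg1 * c.1.out))).choose_spec.2 x⟩).2.1.1 e), hm⟩⟩, true))
          else (⟨c.1, hm⟩, false) : {c : ConjClasses G // ¬ M c.out} × Bool)) fun c c' h => by
      simp only at h
      by_cases hm : M c.1.out <;> by_cases hm' : M c'.1.out
      on_goal 2 => simp [hm, hm'] at h
      on_goal 2 => simp [hm, hm'] at h
      · rw [dif_pos hm, dif_pos hm'] at h
        have h1 := congrArg (fun z : {c : ConjClasses G // ¬ M c.out} × Bool => z.1.1) h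
        obtain ⟨w, hw⟩ := isConj_iff.1 (ConjClasses.mk_eq_mk_iff_isConj.1 h1)
        refine Subtype.ext (hout _ _ (isConj_iff.2 ⟨w, mul_left_cancel (a := neg1) ?_⟩))
        rw [← hw, ← mul_assoc, ← mul_assoc, hcentral w, mul_assoc w neg1]
      · rw [dif_neg hm, dif_neg hm'] at h
        exact Subtype.ext (congrArg (fun z : {c : ConjClasses G // ¬ M c.out} × Bool => z.1.1) h)
    rw [Nat.card_prod] at h
    simp only [Nat.card_eq_fintype_card (α := Bool), Fintype.card_bool] at h
    omega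
  -- the sign character
  have hstd := H5.std_of_two_ne_zero h2 (finrank F V)
  have hgen := H5.reflGroup_eq_top hQ hstd
  let dk : G →* ℤˣ := MonoidHom.mk' H5.dick fun a b => H5.dick_mul hQ (by rw [hgen]; trivial) b
  let ψ : G →* ℤˣ := H5.spin Q * (if H5.spin Q neg1 = 1 then 1 else dk)
  have hdet : ∀ g g' : G, (∃ L : V ≃ₗ[F] V, ∀ x, L (endHom Q g x) = endHom Q g' (L x)) →
      H5.dick g = H5.dick g' := by
    rintro g g' ⟨L, hL⟩
    have e1 := H5.det_eq_dick hQ (g := g) (by rw [hgen]; trivial)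
    have e2 := H5.det_eq_dick hQ (g := g') (by rw [hgen]; trivial)
    have e3 : endHom Q g' = L.toLinearMap ∘ₗ endHom Q g ∘ₗ L.symm.toLinearMap := LinearMap.ext fun x => by
      simp [hL]
    have e4 : LinearMap.det (endHom Q g') = LinearMap.det (endHom Q g) := by rw [e3, LinearMap.det_conj]
    have e5 : (((H5.dick g' : ℤˣ) : ℤ) : F) = (((H5.dick g : ℤˣ) : ℤ) : F) := by rw [← e1, ← e2]; exact e4
    rcases Int.units_eq_one_or (H5.dick g) with a | a <;> rcases Int.units_eq_one_or (H5.dick g') with b | b <;>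
      rw [a, b] at e5 ⊢ <;> simp at e5 <;> exfalso
    · exact h2 (by linear_combination -e5)
    · exact h2 (by linear_combination e5)
  have hψneg : ∀ g g' : G, H5.dick g = H5.dick g' → H5.spin Q g' = -H5.spin Q g → ψ g' = -ψ g := by
    intro g g' hd hs
    simp only [ψ, MonoidHom.mul_apply, hs]
    split_ifs <;> simp [dk, hd]
  -- pairing the two-sided classes
  have hpair : Nat.card {c : ConjClasses G // ψ c.out = 1} ≤ Nat.card {c : ConjClasses G // ψ c.out = -1} +
      Nat.card {c : ConjClasses G // ¬ (P c.out ∧ M c.out)} := by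
    have hflipex : ∀ c : {c : ConjClasses G // ψ c.out = 1 ∧ P c.out ∧ M c.out}, ∃ g' : G, ψ g' = -1 ∧
        (∃ L : V ≃ₗ[F] V, ∀ x, L (endHom Q c.1.out x) = endHom Q g' (L x)) ∧
        (∀ r, Odd r → hasPlus (endHom Q c.1.out) r →
          (sgnPlus (polarBilin Q) (endHom Q g') r ↔ (sgnPlus (polarBilin Q) (endHom Q c.1.out) r ↔ r ≠ Nat.find c.2.2.1))) ∧
        (∀ r, Odd r → hasMinus (endHom Q c.1.out) r →
          (sgnMinus (polarBilin Q) (endHom Q g') r ↔ (sgnMinus (polarBilin Q) (endHom Q c.1.out) r ↔ r ≠ Nat.find c.2.2.2))) := by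
      intro c
      obtain ⟨hs, hxs⟩ := Nat.find_spec c.2.2.1
      obtain ⟨ht, hxt⟩ := Nat.find_spec c.2.2.2
      obtain ⟨T', hT', hL, hsp, hsm, hd⟩ :=
        OrthSplit.exists_flip_both hp (isOSys_endHom hQ c.1.out) hs ht hxs hxt
      obtain ⟨g', hg'⟩ := exists_of_polar h2 (LinearEquiv.ofInjectiveEndo T' hT'.injective) hT'.2.2
      have e : endHom Q g' = T' := LinearMap.ext hg'
      subst e
      obtain ⟨L, hL⟩ := hL
      refine ⟨g', ?_, ⟨L, hL⟩, hsp, hsm⟩
      rw [hψneg _ _ (hdet _ _ ⟨L, hL⟩) (spin_flip hp hQ (by omega) _ _ L hL hd), c.2.1]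
    choose g' hψ' hL' hsp' hsm' using hflipex
    have hψout : ∀ g : G, ψ (ConjClasses.mk g).out = ψ g := fun g => by
      obtain ⟨w, hw⟩ := isConj_iff.1 (hmk g)
      have := congrArg ψ hw
      rw [map_mul, map_mul, map_inv, mul_comm (ψ w), mul_inv_cancel_right] at this
      exact this
    have hle := Nat.card_le_card_of_injective
      (fun c : {c : ConjClasses G // ψ c.out = 1 ∧ P c.out ∧ M c.out} =>
        (⟨ConjClasses.mk (g' c), by rw [hψout, hψ']⟩ : {c : ConjClasses G // ψ c.out = -1})) fun c c' h => by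
      have hi := hiso _ _ (ConjClasses.mk_eq_mk_iff_isConj.1 (congrArg Subtype.val h))
      obtain ⟨L₁, hL₁⟩ := hL' c
      obtain ⟨L₂, hL₂⟩ := hL' c'
      obtain ⟨φ, hφ, hφT⟩ := hi
      have hLL : ∀ x, ((L₁.trans φ).trans L₂.symm) (endHom Q c.1.out x) =
          endHom Q c'.1.out (((L₁.trans φ).trans L₂.symm) x) := fun x => by
        simp only [LinearEquiv.trans_apply]
        rw [LinearEquiv.symm_apply_eq, hL₂, L₂.apply_symm_apply, hL₁, hφT]
      obtain ⟨-, -, hfP, hfM⟩ := hsim _ _ ⟨_, hLL⟩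
      refine Subtype.ext (hout _ _ (hconj _ _ ⟨_, hLL⟩ (fun s hs hx => decide_eq_decide.2 ?_)
        (fun s hs hx => decide_eq_decide.2 ?_)))
      · have a1 := hsp' c s hs hx
        have a2 := hsp' c' s hs ((has_congr _ hLL s).1.1 hx)
        have a3 := OrthSplit.sgnPlus_of_isIso (show IsIso (polarBilin Q) (endHom Q (g' c)) (polarBilin Q)
          (endHom Q (g' c')) from ⟨φ, hφ, hφT⟩) s
        rw [← hfP c.2.2.1 c'.2.2.1] at a2
        exact sign_cancel a1 a2 a3
      · have a1 := hsm' c s hs hx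
        have a2 := hsm' c' s hs ((has_congr _ hLL s).2.1 hx)
        have a3 := OrthSplit.sgnMinus_of_isIso (show IsIso (polarBilin Q) (endHom Q (g' c)) (polarBilin Q)
          (endHom Q (g' c')) from ⟨φ, hφ, hφT⟩) s
        rw [← hfM c.2.2.2 c'.2.2.2] at a2
        exact sign_cancel a1 a2 a3
    let := Fintype.ofFinite (ConjClasses G)
    have hsplit : Nat.card {c : ConjClasses G // ψ c.out = 1} ≤
        Nat.card {c : ConjClasses G // ψ c.out = 1 ∧ P c.out ∧ M c.out} +
          Nat.card {c : ConjClasses G // ¬ (P c.out ∧ M c.out)} := by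
      rw [Nat.card_eq_fintype_card, Fintype.card_subtype, Nat.card_eq_fintype_card, Fintype.card_subtype,
        Nat.card_eq_fintype_card, Fintype.card_subtype]
      refine le_trans (Finset.card_le_card fun c hc => ?_) (Finset.card_union_le _ _)
      simp only [Finset.mem_filter, Finset.mem_univ, true_and, Finset.mem_union] at hc ⊢
      exact (Classical.em (P c.out ∧ M c.out)).imp (fun h => ⟨hc, h⟩) id
    omega
  -- the commutator subgroup
  have hdkneg : H5.dick neg1 = -1 := by
    have e1 := H5.det_eq_dick hQ (g := neg1) (by rw [hgen]; trivial)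
    have e2 : ((neg1 : V ≃ₗ[F] V) : V →ₗ[F] V) = (-1 : F) • LinearMap.id := LinearMap.ext fun x => by
      simp [neg1, H4.negOrth_apply]
    rw [e2, LinearMap.det_smul, LinearMap.det_id, mul_one, hV, Odd.neg_one_pow ⟨n, rfl⟩] at e1
    rcases Int.units_eq_one_or (H5.dick neg1) with a | a
    · rw [a] at e1; simp at e1; exact absurd (by linear_combination -e1) h2
    · exact a
  have hψn : ψ neg1 = 1 := by
    simp only [ψ, MonoidHom.mul_apply]
    split_ifs with h
    · simp [h]
    · rcases Int.units_eq_one_or (H5.spin Q neg1) with a | a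
      · exact absurd a h
      · simp [dk, hdkneg, a]
  have hΩ : commutator G ≤ ψ.ker := Abelianization.commutator_subset_ker _
  have hker : 2 * Nat.card (ConjClasses ↥(commutator G)) ≤ Nat.card (ConjClasses ψ.ker) := by
    have hn1 : neg1 ∈ ψ.ker := hψn
    have hnc : ∀ g : G, neg1 * g = g * neg1 := fun g => H5.orth_ext fun x => (map_neg (g : V ≃ₗ[F] V) x).symm
    let pick : ConjClasses ↥(commutator G) × Bool → ψ.ker := fun x =>
      bif x.2 then ⟨neg1 * x.1.out.1, mul_mem hn1 (hΩ x.1.out.2)⟩ else ⟨x.1.out.1, hΩ x.1.out.2⟩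
    have h := Nat.card_le_card_of_injective (fun x => ConjClasses.mk (pick x)) fun x y h => by
      obtain ⟨w, hw⟩ := isConj_iff.1 (ConjClasses.mk_eq_mk_iff_isConj.1 h)
      have hw' : (w : G) * (pick x : G) * (w : G)⁻¹ = pick y := congrArg Subtype.val hw
      have hd : H5.dick (pick x : G) = H5.dick (pick y : G) := by
        have h3 := congrArg dk hw'
        rw [map_mul, map_mul, map_inv, mul_comm (dk w), mul_inv_cancel_right] at h3
        exact h3
      have hΩd : ∀ g ∈ commutator G, H5.dick g = 1 := fun g hg => Abelianization.commutator_subset_ker dk hg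
      obtain ⟨c, b⟩ := x
      obtain ⟨c', b'⟩ := y
      have hb : b = b' := by
        cases b <;> cases b' <;> simp only [pick, cond_true, cond_false] at hd <;>
          (try rfl) <;>
          rw [H5.dick_mul hQ (by rw [hgen]; trivial), hdkneg, hΩd _ c.out.2, hΩd _ c'.out.2] at hd <;>
          exact absurd hd (by decide)
      subst hb
      have hw2 : (w : G) * (c.out.1) * (w : G)⁻¹ = c'.out.1 := by
        cases b
        · exact hw'
        · simp only [pick, cond_true] at hw'
          rw [← mul_assoc, ← hnc, mul_assoc neg1, mul_assoc neg1] at hw'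
          exact mul_left_cancel hw'
      -- move the conjugator into the commutator subgroup
      have hw3 : ∃ u ∈ commutator G, u * c.out.1 * u⁻¹ = c'.out.1 := by
        have hsign : ∀ g ∈ ψ.ker, H5.dick g = 1 → g ∈ commutator G := fun g hg hd => by
          rw [H5.commutator_eq_ker hQ hstd, MonoidHom.mem_ker, H5.signPair_apply]
          have : ψ g = 1 := hg
          simp only [ψ, MonoidHom.mul_apply] at this
          have hs : H5.spin Q g = 1 := by
            split_ifs at this <;> simpa [dk, hd] using this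
          rw [hd, hs]; rfl
        rcases Int.units_eq_one_or (H5.dick (w : G)) with a | a
        · exact ⟨w, hsign _ w.2 a, hw2⟩
        · refine ⟨neg1 * w, hsign _ (mul_mem hn1 w.2) (by
            rw [H5.dick_mul hQ (by rw [hgen]; trivial), hdkneg, a]; decide), ?_⟩
          rw [mul_inv_rev, show neg1 * (w : G) * c.out.1 * ((w : G)⁻¹ * neg1⁻¹) =
            neg1 * ((w : G) * c.out.1 * (w : G)⁻¹) * neg1⁻¹ by group, hw2, hnc, mul_inv_cancel_right]
      obtain ⟨u, hu, huc⟩ := hw3
      refine Prod.ext ?_ rfl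
      rw [← Quotient.out_eq c, ← Quotient.out_eq c']
      exact ConjClasses.mk_eq_mk_iff_isConj.2 (isConj_iff.2 ⟨⟨u, hu⟩, Subtype.ext huc⟩)
    rw [Nat.card_prod] at h
    simp only [Nat.card_eq_fintype_card (α := Bool), Fintype.card_bool] at h
    omega
  -- combine
  obtain ⟨g₁, hg₁⟩ : ∃ g : G, ψ g = -1 := by
    by_contra hno
    push Not at hno
    have hall1 : ∀ g : G, ψ g = 1 := fun g => (Int.units_eq_one_or (ψ g)).resolve_right (hno g)
    have hdk1 : ∀ g : G, H5.dick g = 1 → g ∈ commutator G := fun g hd => by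
      rw [H5.commutator_eq_ker hQ hstd, MonoidHom.mem_ker, H5.signPair_apply]
      have := hall1 g
      simp only [ψ, MonoidHom.mul_apply] at this
      have hs : H5.spin Q g = 1 := by
        split_ifs at this <;> simpa [dk, hd] using this
      rw [hd, hs]; rfl
    have hle : Nat.card G ≤ 2 * Nat.card (commutator G) := by
      have h := Nat.card_le_card_of_injective
        (fun g : G => if hd : H5.dick g = 1 then (false, (⟨g, hdk1 g hd⟩ : commutator G))
          else (true, ⟨neg1 * g, hdk1 _ (by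
            rw [H5.dick_mul hQ (by rw [hgen]; trivial), hdkneg, (Int.units_eq_one_or _).resolve_left hd]; decide)⟩))
        fun a b hab => by
          simp only at hab
          by_cases ha : H5.dick a = 1 <;> by_cases hb : H5.dick b = 1 <;> simp [ha, hb] at hab <;> exact hab
      rw [Nat.card_prod] at h
      simp only [Nat.card_eq_fintype_card (α := Bool), Fintype.card_bool] at h
      exact h
    have hi := H5.commutator_index_four h2 hQ (by omega)
    have e : 4 * Nat.card (commutator G) = Nat.card G := by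
      rw [← hi]; exact Subgroup.index_mul_card _
    have : 0 < Nat.card (commutator G) := Nat.card_pos
    omega
  have hco := Coset.card_classes_ker_add ψ ⟨g₁, hg₁⟩
  have hK : Nat.card {c : ConjClasses G // ψ c.out = 1} + Nat.card {c : ConjClasses G // ψ c.out = -1} ≤
      Nat.card (ConjClasses G) := by
    rw [← Nat.card_sum]
    refine Nat.card_le_card_of_injective (Sum.elim Subtype.val Subtype.val) ?_
    rintro (a | a) (b | b) h <;> simp only [Sum.elim_inl, Sum.elim_inr] at h
    · exact congrArg _ (Subtype.ext h)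
    · exact absurd (a.2.symm.trans (h ▸ b.2)) (by decide)
    · exact absurd (a.2.symm.trans (h ▸ b.2)) (by decide)
    · exact congrArg _ (Subtype.ext h)
  show 40 * Nat.card (ConjClasses ↥(commutator G)) ≤ _
  omega

/-- A model with one more root at `1` or `-1`. -/
theorem exists_isometry_odd (h2 : (2 : F) ≠ 0) (hQ : (polarBilin Q).Nondegenerate) {n : ℕ}
    (hV : finrank F V = 2 * n + 1) {f : F[X]} (hf : SpPal.Pal f) (hd : f.natDegree = 2 * n) {c : F}
    (hc : c * c = 1) : ∃ g : H5.orth Q, (endHom Q g).charpoly = f * (X - C c) := by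
  classical
  obtain ⟨a, b, m, h, he, hpal, hdh, hne1, hne2, hdeg⟩ := OrthChar.exists_split h2 hf
  obtain ⟨g₀, hg₀⟩ := SpChar.exists_sp_charpoly h2 h hpal.1 hdh (hpal.coeff_symm hdh)
  obtain ⟨W, hWs, hWi, hWd⟩ := OrthChar.exists_symm_invariant g₀
    (by rw [hg₀]; exact SpChar.natDegree_of_palindrome hpal.1 hdh (hpal.coeff_symm hdh))
  rw [hg₀] at hWd
  have hW0 : W.det ≠ 0 := by rw [hWd]; exact mul_ne_zero hne1 hne2
  let bas := Module.finBasis F V
  set D := (H4.gram Q bas).det with hDdef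
  have hD : D ≠ 0 := H4.det_gram_ne_zero hQ bas
  let ε : Fin (a + b + 1) → F := Fin.append (Fin.append (fun _ : Fin a => 1) fun _ : Fin b => -1) fun _ : Fin 1 => c
  let w : Fin (a + b + 1) → F := fun i =>
    if i = Fin.last _ then D * W.det * (2 : F) ^ Fintype.card ((Fin m ⊕ Fin m) ⊕ Fin (a + b + 1)) else 1
  have hw : ∀ i, w i ≠ 0 := fun i => by
    simp only [w]
    split_ifs
    · exact mul_ne_zero (mul_ne_zero hD hW0) (pow_ne_zero _ h2)
    · exact one_ne_zero
  set Mx : Matrix ((Fin m ⊕ Fin m) ⊕ Fin (a + b + 1)) ((Fin m ⊕ Fin m) ⊕ Fin (a + b + 1)) F := Matrix.fromBlocks W 0 0 (Matrix.diagonal w) with hMx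
  set g : Matrix ((Fin m ⊕ Fin m) ⊕ Fin (a + b + 1)) ((Fin m ⊕ Fin m) ⊕ Fin (a + b + 1)) F := Matrix.fromBlocks (g₀ : Matrix (Fin m ⊕ Fin m) (Fin m ⊕ Fin m) F) 0 0 (Matrix.diagonal ε)
    with hg
  have hMs : Mx.transpose = Mx := by
    rw [hMx, Matrix.fromBlocks_transpose, Matrix.transpose_zero, Matrix.transpose_zero, Matrix.diagonal_transpose, hWs]
  have hMi : g.transpose * Mx * g = Mx := by
    have hεw : ∀ i, ε i * w i * ε i = w i := fun i => by
      refine Fin.addCases (fun j => Fin.addCases (fun k => ?_) (fun k => ?_) j) (fun j => ?_) i <;> simp [ε]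
      rw [mul_comm c, mul_assoc, hc, mul_one]
    simp [hg, hMx, Matrix.fromBlocks_transpose, Matrix.fromBlocks_multiply, hWi, Matrix.diagonal_mul_diagonal, hεw]
  have hMd : Mx.det ≠ 0 := by
    rw [hMx, Matrix.det_fromBlocks_zero₁₂, Matrix.det_diagonal]
    exact mul_ne_zero hW0 (Finset.prod_ne_zero_iff.2 fun i _ => hw i)
  have hgc : g.charpoly = f * (X - C c) := by
    rw [hg, Matrix.charpoly_fromBlocks_zero₁₂, hg₀, Matrix.charpoly_diagonal, Fin.prod_univ_add, Fin.prod_univ_add, he]
    simp only [ε, Fin.append_left, Fin.append_right, Finset.prod_const, Finset.card_univ, Fintype.card_fin, pow_one]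
    ring
  obtain ⟨e1, n1⟩ := Lead.nondegenerate_toQuadraticForm h2 hMs hMd
  set Q' := LinearMap.BilinMap.toQuadraticMap (Matrix.toBilin' Mx) with hQ'
  have hdim : finrank F (((Fin m ⊕ Fin m) ⊕ Fin (a + b + 1)) → F) = finrank F V := by
    rw [hV, finrank_pi, Fintype.card_sum, Fintype.card_sum, Fintype.card_fin, Fintype.card_fin]
    omega
  have hgram : (H4.gram Q' (Pi.basisFun F ((Fin m ⊕ Fin m) ⊕ Fin (a + b + 1)))).det = (2 : F) ^ Fintype.card ((Fin m ⊕ Fin m) ⊕ Fin (a + b + 1)) * Mx.det := by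
    rw [H4.gram_eq_toMatrix, e1]
    have : LinearMap.BilinForm.toMatrix (Pi.basisFun F ((Fin m ⊕ Fin m) ⊕ Fin (a + b + 1))) (Matrix.toBilin' ((2 : F) • Mx)) = (2 : F) • Mx := by
      ext i j
      simp [LinearMap.BilinForm.toMatrix_apply, Matrix.toBilin'_single]
    rw [this, Matrix.det_smul]
  obtain ⟨φ, hφ⟩ := H4.isom_of_disc h2 n1 hQ hdim (Pi.basisFun F ((Fin m ⊕ Fin m) ⊕ Fin (a + b + 1))) bas (by
    rw [hgram, ← hDdef, hMx, Matrix.det_fromBlocks_zero₁₂, Matrix.det_diagonal]
    refine ⟨D * W.det * (2 : F) ^ Fintype.card ((Fin m ⊕ Fin m) ⊕ Fin (a + b + 1)), ?_⟩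
    simp only [w, Finset.prod_ite_eq', Finset.mem_univ, if_true]
    ring)
  have hgu : IsUnit g.det := isUnit_iff_ne_zero.2 fun h0 => hMd (by
    rw [← hMi, Matrix.det_mul, h0, mul_zero])
  let A : (((Fin m ⊕ Fin m) ⊕ Fin (a + b + 1)) → F) ≃ₗ[F] (((Fin m ⊕ Fin m) ⊕ Fin (a + b + 1)) → F) :=
    Matrix.toLinearEquiv' g ((Matrix.isUnit_iff_isUnit_det g).2 hgu).invertible
  have hAl : A.toLinearMap = Matrix.toLin' g := rfl
  have hA : ∀ v, Q' (A v) = Q' v := fun v => by
    simp only [hQ', LinearMap.BilinMap.toQuadraticMap_apply, Matrix.toBilin'_apply']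
    show (Matrix.toLin' g v) ⬝ᵥ Mx.mulVec (Matrix.toLin' g v) = _
    rw [Matrix.toLin'_apply]
    conv_rhs => rw [← hMi, ← Matrix.mulVec_mulVec, ← Matrix.mulVec_mulVec, Matrix.dotProduct_mulVec,
      Matrix.vecMul_transpose]
  refine ⟨⟨(φ.symm.trans A).trans φ, fun v => ?_⟩, ?_⟩
  · simp only [LinearEquiv.trans_apply]
    rw [hφ, hA, ← hφ, φ.apply_symm_apply]
  · have e : ((φ.symm.trans A).trans φ).toLinearMap = φ.conj A.toLinearMap := LinearMap.ext fun v => by
      simp [LinearEquiv.conj_apply_apply]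
    show ((φ.symm.trans A).trans φ).toLinearMap.charpoly = _
    rw [e, LinearEquiv.charpoly_conj, hAl, Matrix.charpoly_toLin', hgc]

/-- The lower bound. -/
theorem pow_le_two_mul_card_classes (h2 : (2 : F) ≠ 0) (hQ : (polarBilin Q).Nondegenerate) {n : ℕ}
    (hV : finrank F V = 2 * n + 1) (hn : 1 ≤ n) :
    Fintype.card F ^ n ≤ 2 * Nat.card (ConjClasses ↥(commutator (H5.orth Q))) := by
  classical
  have := finite_orth Q
  have hpal : ∀ c : Fin n → F, SpPal.Pal (SpChar.palPoly n c) := fun c => by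
    obtain ⟨hm, hd, hp⟩ := SpChar.palPoly_spec n c
    refine ⟨hm, by rw [hd]; exact even_two_mul _, Polynomial.ext fun i => ?_⟩
    rw [coeff_reverse, hd]
    rcases Nat.lt_or_ge (2 * n) i with hi | hi
    · rw [revAt_eq_self_of_lt hi]
    · rw [revAt_le hi, hp i hi]
  have hc : ∀ b : Bool, (bif b then (-1 : F) else 1) * (bif b then (-1 : F) else 1) = 1 := fun b => by cases b <;> simp
  choose g hg using fun x : (Fin n → F) × Bool =>
    exists_isometry_odd h2 hQ hV (hpal x.1) (SpChar.palPoly_spec n x.1).2.1 (hc x.2)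
  have h := Nat.card_le_card_of_injective (fun x => ConjClasses.mk (g x)) fun x y h => by
    obtain ⟨w, hw⟩ := isConj_iff.1 (ConjClasses.mk_eq_mk_iff_isConj.1 h)
    have hinv : ∀ a a' : H5.orth Q, a * a' = 1 → ∀ v, endHom Q a (endHom Q a' v) = v := fun a a' h v => by
      rw [← Module.End.mul_apply, ← map_mul, h, map_one, Module.End.one_apply]
    let E : V ≃ₗ[F] V := (w : V ≃ₗ[F] V)
    have hE : endHom Q (g y) = E.conj (endHom Q (g x)) := by
      rw [← hw]
      exact LinearMap.ext fun v => rfl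
    have he : SpChar.palPoly n x.1 * (X - C (bif x.2 then (-1 : F) else 1)) =
        SpChar.palPoly n y.1 * (X - C (bif y.2 then (-1 : F) else 1)) := by
      rw [← hg x, ← hg y, hE, LinearEquiv.charpoly_conj]
    have h0 : ∀ z : Fin n → F, (SpChar.palPoly n z).coeff 0 = 1 := fun z => by
      rw [SpChar.palPoly_coeff n z 0 (Nat.zero_le _), if_pos (Or.inl rfl)]
    have hb : x.2 = y.2 := by
      have e := congrArg (fun P : F[X] => P.coeff 0) he
      simp only [mul_coeff_zero, h0, one_mul, coeff_sub, coeff_X_zero, coeff_C_zero, zero_sub, neg_inj] at e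
      cases hx : x.2 <;> cases hy : y.2 <;> simp [hx, hy] at e ⊢ <;>
        first | exact h2 (by linear_combination e) | exact h2 (by linear_combination -e)
    rw [← hb] at he
    exact Prod.ext (SpChar.palPoly_injective n (mul_right_cancel₀ (X_sub_C_ne_zero _) he)) hb
  rw [Nat.card_prod] at h
  simp only [Nat.card_eq_fintype_card (α := Bool), Fintype.card_bool, Nat.card_eq_fintype_card (α := Fin n → F),
    Fintype.card_fun, Fintype.card_fin] at h
  have h4 := (S4200.result (commutator (H5.orth Q))).2.1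
  rw [H5.commutator_index_four h2 hQ (by omega)] at h4
  omega

end Cfsg.Agent.H66.OrthOdd
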