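/-
The cyclic maximal torus of `PSL_n(q)`: elements of order divisible by a primitive prime.
-/
import Cfsg.Agent.H66.PSLPrimeGraph
import Cfsg.Agent.H71.PSLBlocks
import Cfsg.Agent.H74.Zsigmondy

set_option autoImplicit false

open Polynomial Matrix Module
open Cfsg.Agent.H71.PSLBlocks (geomQuot geomQuot_mul geomQuot_eq_sum mk_pow_eq_one_iff)

namespace Cfsg.Agent.H66

variable {F : Type*} [Field F] [Fintype F]

/-- A Singer element of `PSL_n(q)`. -/
theorem exists_singer_psl {n : ℕ} (hn : 1 ≤ n) :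
    ∃ g : Matrix.ProjectiveSpecialLinearGroup (Fin n) F,
      orderOf g = geomQuot (Fintype.card F) n / Nat.gcd (geomQuot (Fintype.card F) n) (Fintype.card F - 1) := by
  classical
  obtain ⟨Z, hZ, hZdet⟩ := Cfsg.Agent.H71.PSLBlocks.exists_singer (F := F) hn
  set M := geomQuot (Fintype.card F) n with hM
  have hd : (Z : Matrix (Fin n) (Fin n) F).det ≠ 0 := (Matrix.GeneralLinearGroup.det Z).ne_zero
  have hdet : ((Z : Matrix (Fin n) (Fin n) F) ^ (Fintype.card F - 1)).det = 1 := by
    rw [Matrix.det_pow, FiniteField.pow_card_sub_one_eq_one _ hd]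
  let X : Matrix.SpecialLinearGroup (Fin n) F := ⟨_, hdet⟩
  refine ⟨QuotientGroup.mk X, ?_⟩
  have hg0 : 0 < Nat.gcd M (Fintype.card F - 1) :=
    Nat.gcd_pos_of_pos_right _ (Nat.sub_pos_of_lt Fintype.one_lt_card)
  obtain ⟨c, hc⟩ := Nat.gcd_dvd_right M (Fintype.card F - 1)
  refine Nat.dvd_antisymm (orderOf_dvd_of_pow_eq_one ((mk_pow_eq_one_iff X _).mpr
    ⟨(Z : Matrix (Fin n) (Fin n) F).det ^ c, ?_⟩)) ?_
  · show ((Z : Matrix (Fin n) (Fin n) F) ^ (Fintype.card F - 1)) ^ (M / Nat.gcd M (Fintype.card F - 1)) = _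
    rw [← pow_mul]
    nth_rw 1 [hc]
    rw [show Nat.gcd M (Fintype.card F - 1) * c * (M / Nat.gcd M (Fintype.card F - 1)) =
      (Nat.gcd M (Fintype.card F - 1) * (M / Nat.gcd M (Fintype.card F - 1))) * c by ring,
      Nat.mul_div_cancel' (Nat.gcd_dvd_left _ _), pow_mul, hM, hZdet, _root_.smul_pow, one_pow]
  · refine Cfsg.Agent.H71.PSLBlocks.dvd_orderOf_mk X fun N hN => ?_
    obtain ⟨e, he⟩ := hN
    have he' : ((Z : Matrix (Fin n) (Fin n) F) ^ (Fintype.card F - 1)) ^ N = e • (1 : Matrix (Fin n) (Fin n) F) := he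
    rw [← pow_mul] at he'
    have h1 : M ∣ (Fintype.card F - 1) * N := Cfsg.Agent.H71.PSLBlocks.geomQuot_dvd_of_scalar Z hn hZ e he'
    have h3 : M / Nat.gcd M (Fintype.card F - 1) ∣ ((Fintype.card F - 1) / Nat.gcd M (Fintype.card F - 1)) * N := by
      have h2 := Nat.div_dvd_div (Nat.gcd_dvd_left M (Fintype.card F - 1)) h1
      rwa [Nat.mul_comm, Nat.mul_div_assoc _ (Nat.gcd_dvd_right _ _), Nat.mul_comm] at h2
    exact (Nat.coprime_div_gcd_div_gcd hg0).dvd_of_dvd_mul_left h3

/-- An element of order divisible by a primitive prime of `q ^ n - 1` lies in a Singer torus. -/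
theorem orderOf_dvd_of_primitive (p : ℕ) [Fact p.Prime] [CharP F p] {n r : ℕ} [Fact r.Prime] (hn : 2 ≤ n)
    (hrp : r ≠ p) (hr : orderOf (Fintype.card F : ZMod r) = n)
    (g : Matrix.ProjectiveSpecialLinearGroup (Fin n) F) (hrg : r ∣ orderOf g) :
    orderOf g ∣ geomQuot (Fintype.card F) n / Nat.gcd (geomQuot (Fintype.card F) n) (Fintype.card F - 1) := by
  classical
  have hrP : r.Prime := Fact.out
  have : Nonempty (Fin n) := ⟨⟨0, by omega⟩⟩
  obtain ⟨X, rfl⟩ := QuotientGroup.mk_surjective g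
  rcases Cfsg.Agent.H71.PSLBlocks.idempotent_or_primary (X : Matrix (Fin n) (Fin n) F) with
    ⟨E, hE, hE0, hE1, hEX⟩ | ⟨f, k, hf, hfm, hk, hdk, hfk⟩
  · exfalso
    obtain ⟨e, he⟩ := hrg
    set Y := X ^ (e * (Fintype.card F - 1)) with hY
    have hZ : X ^ (e * r) ∈ Subgroup.center (Matrix.SpecialLinearGroup (Fin n) F) := by
      rw [← QuotientGroup.eq_one_iff, QuotientGroup.mk_pow, mul_comm, ← he, pow_orderOf_eq_one]
    have hYr : Y ^ r = 1 := by
      rw [hY, ← pow_mul, mul_right_comm, pow_mul]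
      exact sl_center_pow (by omega) hZ
    have hY1 : Y ≠ 1 := fun h => by
      have h1 : orderOf (QuotientGroup.mk X : Matrix.ProjectiveSpecialLinearGroup (Fin n) F) ∣ e * (Fintype.card F - 1) :=
        orderOf_dvd_of_pow_eq_one (by rw [← QuotientGroup.mk_pow, ← hY, h, QuotientGroup.mk_one])
      rw [he, mul_comm r e] at h1
      have he0 : 0 < e := Nat.pos_of_ne_zero fun h => by
        rw [h, mul_zero] at he
        have : Finite (Matrix.ProjectiveSpecialLinearGroup (Fin n) F) := Quotient.finite _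
        exact (orderOf_pos _).ne' he
      have h2 := (dvd_pow_sub_one_iff (r := r) (q := Fintype.card F) Fintype.card_pos 1).1
        (by rw [pow_one]; exact Nat.dvd_of_mul_dvd_mul_left he0 h1)
      rw [hr] at h2
      have := Nat.le_of_dvd one_pos h2
      omega
    set a : Module.End F (Fin n → F) := Matrix.toLinAlgEquiv' (Y : Matrix (Fin n) (Fin n) F) with ha
    set T : Module.End F (Fin n → F) := Matrix.toLinAlgEquiv' E with hT
    have har : a ^ r = 1 := by
      rw [ha, ← map_pow, show (Y : Matrix (Fin n) (Fin n) F) ^ r = 1 from congrArg Subtype.val hYr, map_one]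
    have hTT : ∀ v, T (T v) = T v := fun v => by rw [← Module.End.mul_apply, hT, ← map_mul, hE]
    have haT : ∀ v, a (T v) = T (a v) := fun v => by
      rw [← Module.End.mul_apply, ← Module.End.mul_apply, ha, hT, ← map_mul, ← map_mul, hY,
        Matrix.SpecialLinearGroup.coe_pow, (Commute.pow_right (show Commute E (X : Matrix (Fin n) (Fin n) F) from hEX) _).eq]
    have hr0 : (r : F) ≠ 0 := by
      rw [Ne, CharP.cast_eq_zero_iff F p]
      exact fun h => hrp ((Nat.prime_dvd_prime_iff_eq Fact.out hrP).1 h).symm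
    have hfix : ∀ w ∈ LinearMap.range (a - 1), a w = w → w = 0 := by
      rintro w ⟨v, hv⟩ hw
      have h1 : (∑ i ∈ Finset.range r, a ^ i) * (a - 1) = 0 := by rw [geom_sum_mul, har, sub_self]
      have h2 : ∀ i : ℕ, (a ^ i) w = w := fun i => by
        induction i with
        | zero => rfl
        | succ i ih => rw [pow_succ, Module.End.mul_apply, hw, ih]
      have h3 := LinearMap.congr_fun h1 v
      rw [Module.End.mul_apply, hv, LinearMap.sum_apply, Finset.sum_congr rfl fun i _ => h2 i,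
        Finset.sum_const, Finset.card_range, ← Nat.cast_smul_eq_nsmul F] at h3
      exact (smul_eq_zero.1 h3).resolve_left hr0
    have hdim : ∀ S : Submodule F (Fin n → F), S ≤ LinearMap.range (a - 1) → (∀ y ∈ S, a y ∈ S) → S ≠ ⊥ → S = ⊤ := by
      intro S hS hSa hS0
      have h0 : orderOf (Fintype.card F : ZMod r) ∣ finrank F S := by
        refine orderOf_dvd_finrank_of_fpf (a.restrict hSa) ?_ fun w hw => ?_
        · rw [Module.End.pow_restrict]
          refine LinearMap.ext fun w => Subtype.ext ?_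
          simp [har]
        · exact Subtype.ext (hfix w.1 (hS w.2) (congrArg Subtype.val hw))
      have h : n ∣ finrank F S := (dvd_of_eq hr.symm).trans h0
      refine Submodule.eq_top_of_finrank_eq ?_
      have hle := Submodule.finrank_le S
      rw [Module.finrank_pi, Fintype.card_fin] at hle ⊢
      have := Nat.le_of_dvd (Nat.pos_of_ne_zero fun h => hS0 (Submodule.finrank_eq_zero.1 h)) h
      omega
    have htop : LinearMap.range (a - 1) = ⊤ := hdim _ le_rfl (by
      rintro w ⟨v, rfl⟩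
      exact ⟨a v, by simp⟩) fun h => hY1 (Subtype.ext (by
        rw [LinearMap.range_eq_bot, sub_eq_zero, ha, ← map_one Matrix.toLinAlgEquiv'] at h
        exact Matrix.toLinAlgEquiv'.injective h))
    have hTtop : LinearMap.range T = ⊤ := hdim _ (htop ▸ le_top) (by
      rintro w ⟨v, rfl⟩
      exact ⟨a v, (haT v).symm⟩) fun h => hE0 (by
        rw [LinearMap.range_eq_bot, hT, ← map_zero Matrix.toLinAlgEquiv'] at h
        exact Matrix.toLinAlgEquiv'.injective h)
    refine hE1 (Matrix.toLinAlgEquiv'.injective ?_)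
    rw [map_one, ← hT]
    refine LinearMap.ext fun v => ?_
    obtain ⟨w, rfl⟩ := LinearMap.range_eq_top.1 hTtop v
    exact hTT w
  · obtain ⟨h1, h2⟩ := Cfsg.Agent.H71.PSLBlocks.order_dvd_of_primary p X f hf hfm k hfk
    rw [Fintype.card_fin] at hdk h2
    have hrf : r ∣ geomQuot (Fintype.card F) f.natDegree :=
      ((hrP.dvd_mul).1 (hrg.trans h1)).resolve_right fun h =>
        hrp ((Nat.prime_dvd_prime_iff_eq hrP Fact.out).1 (hrP.dvd_of_dvd_pow h))
    have hn' : n ∣ f.natDegree := hr ▸ (dvd_pow_sub_one_iff Fintype.card_pos _).1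
      (geomQuot_mul (Fintype.card F) _ ▸ dvd_mul_of_dvd_left hrf _)
    have hdeg : f.natDegree = n := Nat.dvd_antisymm ⟨k, hdk.symm⟩ hn'
    have hk1 : k = 1 := by
      rw [hdeg] at hdk
      exact Nat.eq_of_mul_eq_mul_left (show 0 < n by omega) (by rw [hdk, mul_one])
    have h3 := h2 hk1 hdeg
    rwa [hdeg] at h3

/-- The arithmetic criterion for `q ^ m + 1`. -/
theorem halfTorus_dvd_iff {q m : ℕ} (hq : 2 ≤ q) (hm : 0 < m) :
    q ^ m + 1 ∣ geomQuot q (2 * m) / Nat.gcd (geomQuot q (2 * m)) (q - 1) ↔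
      padicValNat 2 (q - 1) < padicValNat 2 (2 * m) := by
  have hmod : ∀ i, geomQuot q i ≡ i [MOD q - 1] := by
    intro i
    rw [← ZMod.natCast_eq_natCast_iff, geomQuot_eq_sum hq, Nat.cast_sum]
    have h1 : ((q : ℕ) : ZMod (q - 1)) = 1 := by
      have h0 : (((q - 1) + 1 : ℕ) : ZMod (q - 1)) = 1 := by
        rw [Nat.cast_add, ZMod.natCast_self, Nat.cast_one, zero_add]
      rwa [Nat.sub_add_cancel (show 1 ≤ q by omega)] at h0
    simp [h1]
  have hM : geomQuot q (2 * m) = geomQuot q m * (q ^ m + 1) := by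
    apply Nat.eq_of_mul_eq_mul_right (show 0 < q - 1 by omega)
    rw [geomQuot_mul, mul_right_comm, geomQuot_mul, two_mul, pow_add]
    have := Nat.one_le_pow m q (by omega)
    zify [this, Nat.one_le_iff_ne_zero.2 (mul_ne_zero (show q ^ m ≠ 0 by omega) (show q ^ m ≠ 0 by omega))]
    ring
  have hd : Nat.gcd (geomQuot q (2 * m)) (q - 1) = Nat.gcd (2 * m) (q - 1) := (hmod _).gcd_eq
  rw [hd]
  set d := Nat.gcd (2 * m) (q - 1) with hddef
  have hdM : d ∣ geomQuot q (2 * m) := hd ▸ Nat.gcd_dvd_left _ _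
  have h1 : q ^ m + 1 ∣ geomQuot q (2 * m) / d ↔ d ∣ geomQuot q m := by
    rw [Nat.dvd_div_iff_mul_dvd hdM, hM, Nat.mul_dvd_mul_iff_right (by omega)]
  have h2 : d ∣ geomQuot q m ↔ d ∣ m :=
    Nat.ModEq.dvd_iff (Nat.ModEq.of_dvd (Nat.gcd_dvd_right _ _) (hmod m)) dvd_rfl
  rw [h1, h2, padicValNat.mul (by norm_num) hm.ne', padicValNat_self]
  constructor
  · intro h
    by_contra hc
    have h3 : 2 ^ (padicValNat 2 m + 1) ∣ d := Nat.dvd_gcd
      (by rw [pow_succ']; exact Nat.mul_dvd_mul_left 2 pow_padicValNat_dvd)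
      ((pow_dvd_pow 2 (by omega)).trans pow_padicValNat_dvd)
    have := (padicValNat_dvd_iff_le hm.ne').1 (h3.trans h)
    omega
  · intro h
    set a := padicValNat 2 (q - 1) with ha
    obtain ⟨w, hw⟩ : 2 ^ a ∣ m := (padicValNat_dvd_iff_le hm.ne').2 (by omega)
    obtain ⟨u, hu⟩ : 2 ^ a ∣ q - 1 := pow_padicValNat_dvd
    have hu2 : ¬ 2 ∣ u := fun h => by
      have := (padicValNat_dvd_iff_le (show q - 1 ≠ 0 by omega)).1
        (show 2 ^ (a + 1) ∣ q - 1 by rw [pow_succ, hu]; exact Nat.mul_dvd_mul_left _ h)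
      omega
    rw [hddef, hw, hu, show 2 * (2 ^ a * w) = 2 ^ a * (2 * w) by ring, Nat.gcd_mul_left]
    exact Nat.mul_dvd_mul_left _
      ((Nat.Coprime.dvd_of_dvd_mul_left ((Nat.prime_two.coprime_iff_not_dvd.2 hu2).coprime_dvd_right
        (Nat.gcd_dvd_right _ _)).symm (Nat.gcd_dvd_left (2 * w) u)))

/-- An element of order `q ^ (n / 2) + 1`. -/
theorem exists_orderOf_half_iff {q n : ℕ} (hF : Fintype.card F = q) (hn : 4 ≤ n) (heven : Even n)
    (hodd : Odd q) :
    (∃ g : Matrix.ProjectiveSpecialLinearGroup (Fin n) F, orderOf g = q ^ (n / 2) + 1) ↔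
      padicValNat 2 (q - 1) < padicValNat 2 n := by
  classical
  subst hF
  obtain ⟨m, rfl⟩ := heven
  rw [← two_mul, Nat.mul_div_cancel_left _ two_pos]
  have hq : 2 ≤ Fintype.card F := Fintype.one_lt_card
  rw [← halfTorus_dvd_iff hq (show 0 < m by omega)]
  constructor
  · rintro ⟨g, hg⟩
    obtain ⟨p, hchar⟩ := CharP.exists F
    have : Fact p.Prime := ⟨CharP.char_is_prime F p⟩
    have hq3 : 3 ≤ Fintype.card F := by
      rcases hodd with ⟨t, ht⟩
      omega
    obtain ⟨r, hr, hrd, hro⟩ := Cfsg.Agent.H74.exists_prime_orderOf_eq (a := Fintype.card F) (n := 2 * m)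
      (by omega) (by omega) (by omega) (by omega)
    have := Fact.mk hr
    have hrp : r ≠ p := by
      rintro rfl
      obtain ⟨i, hp, hi⟩ := FiniteField.card F r
      have h1 : r ∣ Fintype.card F ^ (2 * m) := (hi ▸ dvd_pow_self r i.pos.ne').trans (dvd_pow_self _ (by omega))
      have h2 := Nat.dvd_sub h1 hrd
      rw [Nat.sub_sub_self (Nat.one_le_pow _ _ (by omega))] at h2
      exact hp.not_dvd_one h2
    have hrg : r ∣ orderOf g := by
      rw [hg]
      have h1 : Fintype.card F ^ (2 * m) - 1 = (Fintype.card F ^ m - 1) * (Fintype.card F ^ m + 1) := by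
        rw [mul_comm 2 m, pow_mul]
        have := Nat.one_le_pow m (Fintype.card F) (by omega)
        zify [this, Nat.one_le_pow 2 (Fintype.card F ^ m) (by omega)]
        ring
      rw [h1] at hrd
      refine ((hr.dvd_mul).1 hrd).resolve_left fun h => ?_
      have := Nat.le_of_dvd (by omega) ((dvd_pow_sub_one_iff Fintype.card_pos m).1 h)
      omega
    rw [← hg]
    exact orderOf_dvd_of_primitive p (by omega) hrp hro g hrg
  · intro h
    obtain ⟨g, hg⟩ := exists_singer_psl (F := F) (show 1 ≤ 2 * m by omega)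
    rw [← hg] at h
    have : Finite (Matrix.ProjectiveSpecialLinearGroup (Fin (2 * m)) F) := Quotient.finite _
    exact ⟨g ^ (orderOf g / _), orderOf_pow_orderOf_div (orderOf_pos g).ne' h⟩

end Cfsg.Agent.H66
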